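import Cfsg.Agent.Lib.PSLCover.CoreCover

/-!
In dimension four the identity is a product of four conjugates of every matrix of determinant one
whose minimal polynomial has degree at least three.
-/

set_option autoImplicit false
set_option linter.style.haveILetI false
set_option linter.unusedSectionVars false

namespace CfsgLib.PSLCover

open Matrix Polynomial

variable {F : Type*} [Field F]

section General

variable {n : ℕ}

theorem CovS.transfer {A B : GL (Fin n) F} {k : ℕ} (h : CovS k A B) (w : GL (Fin n) F) :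
    CovS k (w * A * w⁻¹) (w * B * w⁻¹) := by
  obtain ⟨f, hf, rfl⟩ := h
  refine ⟨fun i => w * f i * w⁻¹, fun i => by simp [map_mul, hf], ?_⟩
  rw [conj_list_prod, List.map_ofFn]
  congr 2
  funext i
  simp only [Function.comp_apply]
  group

/-- The matrix of the orbit of `v`. -/
def krylov (M : Matrix (Fin n) (Fin n) F) (v : Fin n → F) : Matrix (Fin n) (Fin n) F :=
  Matrix.of fun i j => ((M ^ (j : ℕ)) *ᵥ v) i

/-- Two conjugates with Krylov bases of equal determinant are conjugate under determinant one. -/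
theorem exists_det_one_conj {P Q : GL (Fin n) F}
    (hpq : (P : Matrix (Fin n) (Fin n) F).charpoly = (Q : Matrix (Fin n) (Fin n) F).charpoly)
    {v w : Fin n → F} {δ : F} (hδ : δ ≠ 0)
    (hv : (krylov (P : Matrix (Fin n) (Fin n) F) v).det = δ)
    (hw : (krylov (Q : Matrix (Fin n) (Fin n) F) w).det = δ) :
    ∃ g : GL (Fin n) F, GeneralLinearGroup.det g = 1 ∧ P = g * Q * g⁻¹ := by
  classical
  let KP := GeneralLinearGroup.mkOfDetNeZero _ (hv ▸ hδ : (krylov (P : Matrix (Fin n) (Fin n) F) v).det ≠ 0)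
  let KQ := GeneralLinearGroup.mkOfDetNeZero _ (hw ▸ hδ : (krylov (Q : Matrix (Fin n) (Fin n) F) w).det ≠ 0)
  set f := (Q : Matrix (Fin n) (Fin n) F).charpoly with hf
  let C : Matrix (Fin n) (Fin n) F := Matrix.of fun i j =>
    if (j : ℕ) + 1 = (n : ℕ) then -f.coeff (i : ℕ) else if (i : ℕ) = (j : ℕ) + 1 then 1 else 0
  have key : ∀ (M : Matrix (Fin n) (Fin n) F) (u : Fin n → F), M.charpoly = f →
      M * krylov M u = krylov M u * C := by
    intro M u hM
    ext i j
    have h1 : (M * krylov M u) i j = ((M ^ ((j : ℕ) + 1)) *ᵥ u) i := by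
      rw [pow_succ', ← mulVec_mulVec]
      rfl
    rw [h1, Matrix.mul_apply]
    by_cases hj : (j : ℕ) + 1 = n
    · rw [hj]
      have h2 := Matrix.aeval_self_charpoly M
      rw [aeval_eq_sum_range, charpoly_natDegree_eq_dim, Fintype.card_fin, Finset.sum_range_succ,
        show M.charpoly.coeff n = 1 by
          have := (charpoly_monic M).coeff_natDegree
          rwa [charpoly_natDegree_eq_dim, Fintype.card_fin] at this, one_smul,
        add_eq_zero_iff_eq_neg'] at h2
      rw [h2, Finset.sum_range, neg_mulVec, sum_mulVec, Pi.neg_apply, Finset.sum_apply,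
        ← Finset.sum_neg_distrib]
      refine Finset.sum_congr rfl fun k _ => ?_
      simp [C, krylov, hj, hM, smul_mulVec, mul_comm]
    · have hlt : (j : ℕ) + 1 < n := by omega
      rw [Finset.sum_eq_single ⟨(j : ℕ) + 1, hlt⟩]
      · simp [C, krylov, hj]
      · intro b _ hb
        have : (b : ℕ) ≠ (j : ℕ) + 1 := fun e => hb (Fin.ext e)
        simp [C, hj, this]
      · simp
  have hP := key _ v (hpq.trans hf.symm)
  have hQ := key _ w hf.symm
  refine ⟨KP * KQ⁻¹, ?_, ?_⟩
  · rw [map_mul, map_inv, mul_inv_eq_one]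
    exact Units.ext (hv.trans hw.symm)
  · have hC : C = ((KQ⁻¹ * Q * KQ : GL (Fin n) F) : Matrix (Fin n) (Fin n) F) := by
      calc C = ((KQ⁻¹ * KQ : GL (Fin n) F) : Matrix (Fin n) (Fin n) F) * C := by
            rw [inv_mul_cancel, Units.val_one, one_mul]
        _ = ((KQ⁻¹ : GL (Fin n) F) : Matrix (Fin n) (Fin n) F) * ((Q : Matrix (Fin n) (Fin n) F) *
              (KQ : Matrix (Fin n) (Fin n) F)) := by
            rw [Units.val_mul, mul_assoc]; exact congrArg _ hQ.symm
        _ = _ := by rw [Units.val_mul, Units.val_mul, mul_assoc]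
    have h3 : P * KP = KP * (KQ⁻¹ * Q * KQ) := Units.ext (by
      rw [Units.val_mul, Units.val_mul, ← hC]; exact hP)
    calc P = P * KP * KP⁻¹ := by group
      _ = KP * (KQ⁻¹ * Q * KQ) * KP⁻¹ := by rw [h3]
      _ = _ := by group

end General

/-- A regular unipotent matrix of degree four is conjugate to its inverse under determinant one. -/
theorem exists_det_one_conj_inv {X : GL (Fin 4) F}
    (hX : SplitCyc (X : Matrix (Fin 4) (Fin 4) F) fun _ => 1) :
    ∃ g : GL (Fin 4) F, GeneralLinearGroup.det g = 1 ∧ X⁻¹ = g * X * g⁻¹ := by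
  classical
  obtain ⟨⟨v, hv⟩, hchar⟩ := hX
  set M := (X : Matrix (Fin 4) (Fin 4) F) with hM
  set M' := ((X⁻¹ : GL (Fin 4) F) : Matrix (Fin 4) (Fin 4) F) with hM'
  set N := M - 1 with hN
  have hN4 : N ^ 4 = 0 := by
    have h := Matrix.aeval_self_charpoly M
    rw [hchar, Finset.prod_const, Finset.card_univ, Fintype.card_fin, map_pow, map_sub, aeval_X,
      aeval_C, map_one] at h
    exact h
  have hMN : M = 1 + N := by rw [hN, add_sub_cancel]
  have hinv : M' = 1 - N + N ^ 2 - N ^ 3 := by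
    calc M' = M' * (1 - N ^ 4) := by rw [hN4, sub_zero, mul_one]
      _ = M' * (M * (1 - N + N ^ 2 - N ^ 3)) := by rw [hMN]; congr 1; noncomm_ring
      _ = _ := by rw [← mul_assoc, hM', hM, ← Units.val_mul, inv_mul_cancel, Units.val_one, one_mul]
  have hN4' : ∀ k, 4 ≤ k → N ^ k *ᵥ v = 0 := fun k hk => by
    rw [← Nat.add_sub_cancel' hk, pow_add, hN4, zero_mul, zero_mulVec]
  have hK : (krylov N v).det ≠ 0 := by
    intro h0
    obtain ⟨u, hu0, hu⟩ := exists_vecMul_eq_zero_iff.2 h0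
    have h1 : ∀ j : ℕ, u ⬝ᵥ (N ^ j *ᵥ v) = 0 := fun j => by
      rcases Nat.lt_or_ge j 4 with hj | hj
      · exact congrFun hu ⟨j, hj⟩
      · rw [hN4' j hj, dotProduct_zero]
    have h2 : ∀ i j : ℕ, u ⬝ᵥ (N ^ j *ᵥ (M ^ i *ᵥ v)) = 0 := by
      intro i
      induction i with
      | zero => simpa using h1
      | succ i ih =>
        intro j
        rw [pow_succ', ← mulVec_mulVec v M, mulVec_mulVec, hMN, mul_add, mul_one, ← pow_succ,
          add_mulVec, dotProduct_add, ← hMN, ih, ih, add_zero]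
    refine hu0 (funext fun k => ?_)
    have hk : (Pi.single k 1 : Fin 4 → F) ∈ Submodule.span F (Set.range fun i : ℕ => M ^ i *ᵥ v) :=
      hv ▸ Submodule.mem_top
    have h3 : ∀ z ∈ Submodule.span F (Set.range fun i : ℕ => M ^ i *ᵥ v), u ⬝ᵥ z = 0 := by
      intro z hz
      induction hz using Submodule.span_induction with
      | mem z hz => obtain ⟨i, rfl⟩ := hz; simpa using h2 i 0
      | zero => simp
      | add a b _ _ ha hb => rw [dotProduct_add, ha, hb, add_zero]
      | smul c a _ ha => rw [dotProduct_smul, ha, smul_zero]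
    simpa using h3 _ hk
  -- both Krylov matrices are the one of `N` times a triangular matrix
  let T : Matrix (Fin 4) (Fin 4) F := !![1, 1, 1, 1; 0, 1, 2, 3; 0, 0, 1, 3; 0, 0, 0, 1]
  have mul_cols : ∀ (B : Matrix (Fin 4) (Fin 4) F) (i j : Fin 4), (krylov N v * B) i j =
      ((B 0 j • 1 + B 1 j • N + B 2 j • N ^ 2 + B 3 j • N ^ 3) *ᵥ v) i := by
    intro B i j
    simp [Matrix.mul_apply, Fin.sum_univ_four, krylov, add_mulVec, smul_mulVec, mul_comm]
  have hred : ∀ (j : ℕ), 4 ≤ j → N ^ j = 0 := fun j hj => by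
    rw [← Nat.add_sub_cancel' hj, pow_add, hN4, zero_mul]
  have hsq : M' ^ 2 = 1 - (2 : F) • N + (3 : F) • N ^ 2 - (4 : F) • N ^ 3 := by
    have e : M' ^ 2 = 1 - (2 : F) • N + (3 : F) • N ^ 2 - (4 : F) • N ^ 3 +
        (3 : F) • N ^ 4 - (2 : F) • N ^ 5 + N ^ 6 := by
      rw [hinv]; simp only [pow_succ, pow_zero, one_mul, sub_mul, add_mul, mul_sub, mul_add,
        mul_one, mul_assoc]
      module
    rw [e, hred 4 le_rfl, hred 5 (by omega), hred 6 (by omega)]
    simp
  have hcu : M' ^ 3 = 1 - (3 : F) • N + (6 : F) • N ^ 2 - (10 : F) • N ^ 3 := by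
    have e : M' ^ 3 = 1 - (3 : F) • N + (6 : F) • N ^ 2 - (10 : F) • N ^ 3 +
        (9 : F) • N ^ 4 - (7 : F) • N ^ 5 + (4 : F) • N ^ 6 := by
      rw [pow_succ, hsq, hinv]
      simp only [pow_succ, pow_zero, one_mul, sub_mul, add_mul, mul_sub, mul_add, mul_one,
        mul_assoc, Matrix.smul_mul]
      module
    rw [e, hred 4 le_rfl, hred 5 (by omega), hred 6 (by omega)]
    simp
  let U : Matrix (Fin 4) (Fin 4) F := !![1, 1, 1, 1; 0, -1, -2, -3; 0, 1, 3, 6; 0, -1, -4, -10]
  have hA : krylov M v = krylov N v * T := by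
    ext i j
    rw [mul_cols]
    show (M ^ (j : ℕ) *ᵥ v) i = _
    congr 2
    fin_cases j <;> simp [T, hMN, pow_succ, mul_add, add_mul, mul_assoc] <;> module
  have hB : krylov M' v = krylov N v * U := by
    ext i j
    rw [mul_cols]
    show (M' ^ (j : ℕ) *ᵥ v) i = _
    congr 2
    fin_cases j
    · simp [U]
    · simp [U, hinv]; module
    · simp [U, hsq]; module
    · simp [U, hcu]; module
  have hdT : T.det = 1 := by
    simp [T, det_succ_row_zero, Fin.sum_univ_succ]
  have hdU : U.det = 1 := by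
    simp [U, det_succ_row_zero, Fin.sum_univ_succ, Fin.succAbove]
    norm_num
  have hchar' : M'.charpoly = ∏ _i : Fin 4, (Polynomial.X - C (1 : F)) := by
    have hnil : IsNilpotent (M' - 1) := ⟨4, by
      have hc : Commute (-N) (1 - N + N ^ 2) := by
        show _ = _
        noncomm_ring
      rw [show M' - 1 = -N * (1 - N + N ^ 2) by rw [hinv]; noncomm_ring, hc.mul_pow, neg_pow, hN4]
      simp⟩
    have h2 := Matrix.isNilpotent_charpoly_sub_pow_of_isNilpotent hnil
    have h1 : (M' - 1).charpoly = Polynomial.X ^ 4 := by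
      have := sub_eq_zero.1 (isNilpotent_iff_eq_zero.1 h2)
      simpa using this
    have h3 := Matrix.charpoly_sub_scalar M' (1 : F)
    rw [show M' - scalar (Fin 4) (1 : F) = M' - 1 by rw [map_one], h1] at h3
    have h4 := congrArg (fun p : F[X] => p.comp (Polynomial.X - C 1)) h3
    simp only [comp_assoc, add_comp, X_comp, C_comp, sub_add_cancel, comp_X, pow_comp] at h4
    rw [← h4, Finset.prod_const, Finset.card_univ, Fintype.card_fin]
  obtain ⟨g, hg, e⟩ := exists_det_one_conj (P := X⁻¹) (Q := X) (v := v) (w := v)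
    (hchar'.trans hchar.symm) hK (δ := (krylov N v).det)
    (by rw [← hM', hB, det_mul, hdU, mul_one]) (by rw [← hM, hA, det_mul, hdT, mul_one])
  exact ⟨g, hg, e⟩

/-- The cyclic case. -/
theorem covS_one_four_of_cyclic [Fintype F] (hq : 4 ≤ Fintype.card F) (A : GL (Fin 4) F)
    (hdet : GeneralLinearGroup.det A = 1) (hA : HasCyclic (A : Matrix (Fin 4) (Fin 4) F)) :
    CovS 4 A 1 := by
  classical
  obtain ⟨P, Q, ⟨⟨g1, hg1⟩, ⟨g2, hg2⟩, hs⟩, -, -, s, x, hrest⟩ :=
    exists_block_pair_form (m := 2) hq A hA (fun _ => 1) (fun _ => one_ne_zero) (by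
      have h1 : (A : Matrix (Fin 4) (Fin 4) F).det = 1 := congrArg Units.val hdet
      rw [Finset.prod_const_one]
      exact (by rw [h1, one_pow] : (1 : F) = (A : Matrix (Fin 4) (Fin 4) F).det ^ 2))
      (Or.inr ⟨rfl, fun h => absurd h (by norm_num)⟩)
  set g := ((A⁻¹ : GL (Fin 4) F) : Matrix (Fin 4) (Fin 4) F).charpoly
  have hP : (P : Matrix (Fin 4) (Fin 4) F) = triBlock (fun _ => (1 : F)) s x * compMat (m := 2) g := by
    first | exact hrest.1 | exact hrest.2.1
  have hQ : ((Q⁻¹ : GL (Fin 4) F) : Matrix (Fin 4) (Fin 4) F) = compMat (m := 2) g := by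
    first | exact hrest.2 | exact hrest.2.2
  set H := triBlock (fun _ => (1 : F)) s x with hH
  set Cm := compMat (m := 2) g with hCm
  let e : Fin 4 → Fin 4 → F := fun i => Pi.single i 1
  have hCe : ∀ i j : Fin 4, (i : ℕ) + 1 = j → Cm *ᵥ e i = e j := by
    intro i j hij
    funext k
    rw [show e i = Pi.single i 1 from rfl, mulVec_single_one]
    have hi : i = (⟨i, by omega⟩ : Fin 3).castSucc := rfl
    rw [col_apply, hCm, compMat, hi, bidiagLast_castSucc]
    have := k.2
    simp only [e, Pi.single_apply, Fin.ext_iff, Fin.val_castSucc, Fin.val_succ]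
    split_ifs <;> first | omega | simp_all
  have hQe : ∀ i j : Fin 4, (i : ℕ) + 1 = j →
      (Q : Matrix (Fin 4) (Fin 4) F) *ᵥ e j = e i := by
    intro i j hij
    rw [← hCe i j hij, ← hQ, mulVec_mulVec, ← Units.val_mul, mul_inv_cancel, Units.val_one,
      one_mulVec]
  have hkQ : (krylov (Q : Matrix (Fin 4) (Fin 4) F) (e 3)).det = 1 := by
    have hcol : krylov (Q : Matrix (Fin 4) (Fin 4) F) (e 3) =
        !![0, 0, 0, 1; 0, 0, 1, 0; 0, 1, 0, 0; 1, 0, 0, 0] := by
      ext i j
      fin_cases j <;>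
        simp [krylov, pow_succ', ← mulVec_mulVec, hQe 2 3 rfl, hQe 1 2 rfl, hQe 0 1 rfl] <;>
        fin_cases i <;> simp [e]
    rw [hcol]
    simp [det_succ_row_zero, Fin.sum_univ_succ, Fin.succAbove]
    norm_num
  have hlow : ∀ i j : Fin 4, j < i → H i j = 0 := fun i j h => triBlock_below _ _ _ h
  have hdiag : ∀ i : Fin 4, H i i = 1 := fun i => triBlock_diag _ _ _ i
  have hPm : ∀ z : Fin 4 → F, (P : Matrix (Fin 4) (Fin 4) F) *ᵥ z = H *ᵥ (Cm *ᵥ z) := fun z => by
    rw [mulVec_mulVec]; exact congrArg (· *ᵥ z) hP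
  have hshift : ∀ a b c : F, Cm *ᵥ ![a, b, c, 0] = ![0, a, b, c] := by
    intro a b c
    have : (![a, b, c, 0] : Fin 4 → F) = a • e 0 + b • e 1 + c • e 2 := by
      funext i; fin_cases i <;> simp [e]
    rw [this, mulVec_add, mulVec_add, mulVec_smul, mulVec_smul, mulVec_smul, hCe 0 1 rfl,
      hCe 1 2 rfl, hCe 2 3 rfl]
    funext i; fin_cases i <;> simp [e]
  have hkP : (krylov (P : Matrix (Fin 4) (Fin 4) F) (e 0)).det = 1 := by
    have h0 : e 0 = ![1, 0, 0, 0] := by funext i; fin_cases i <;> simp [e]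
    obtain ⟨a, h1⟩ : ∃ a, (P : Matrix (Fin 4) (Fin 4) F) *ᵥ e 0 = ![a, 1, 0, 0] :=
      ⟨H 0 1, by
        rw [hPm, h0, hshift]
        funext i; fin_cases i <;> simp [mulVec, dotProduct, Fin.sum_univ_four, hlow, hdiag]⟩
    obtain ⟨b, c, h2⟩ : ∃ b c, (P : Matrix (Fin 4) (Fin 4) F) *ᵥ ![a, 1, 0, 0] = ![b, c, 1, 0] :=
      ⟨H 0 1 * a + H 0 2, H 1 1 * a + H 1 2, by
        rw [hPm, hshift]
        funext i; fin_cases i <;> simp [mulVec, dotProduct, Fin.sum_univ_four, hlow, hdiag]⟩
    obtain ⟨d, f, k, h3⟩ : ∃ d f k,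
        (P : Matrix (Fin 4) (Fin 4) F) *ᵥ ![b, c, 1, 0] = ![d, f, k, 1] :=
      ⟨H 0 1 * b + H 0 2 * c + H 0 3, b + H 1 2 * c + H 1 3, c + H 2 3, by
        rw [hPm, hshift]
        funext i; fin_cases i <;> simp [mulVec, dotProduct, Fin.sum_univ_four, hlow, hdiag]⟩
    have hcol : krylov (P : Matrix (Fin 4) (Fin 4) F) (e 0) =
        !![1, a, b, d; 0, 1, c, f; 0, 0, 1, k; 0, 0, 0, 1] := by
      ext i j
      fin_cases j <;> simp [krylov, pow_succ', ← mulVec_mulVec, h1, h2, h3] <;>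
        fin_cases i <;> simp [h0]
    rw [hcol]
    simp [det_succ_row_zero, Fin.sum_univ_succ]
  have hcc : (P : Matrix (Fin 4) (Fin 4) F).charpoly = (Q : Matrix (Fin 4) (Fin 4) F).charpoly := by
    rw [hg1, hg2, Units.val_mul, Units.val_mul, Units.val_mul, Units.val_mul, Matrix.coe_units_inv,
      Matrix.coe_units_inv, Matrix.charpoly_units_conj, Matrix.charpoly_units_conj]
  obtain ⟨u, hu, hPu⟩ := exists_det_one_conj hcc one_ne_zero hkP hkQ
  have hX : CovS 2 Q (P * Q) := by
    rw [hPu]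
    exact (covS_one Q u hu).mul (by simpa using covS_one Q 1 (map_one _))
  obtain ⟨v, hv, hvX⟩ := exists_det_one_conj_inv hs
  have h4 : CovS 4 Q 1 := by
    have := hX.mul (hX.conj v hv)
    rwa [← hvX, mul_inv_cancel] at this
  have := h4.transfer g2⁻¹
  rwa [hg2, show g2⁻¹ * (g2 * A * g2⁻¹) * g2⁻¹⁻¹ = A by group,
    show g2⁻¹ * 1 * g2⁻¹⁻¹ = (1 : GL (Fin 4) F) by group] at this

theorem reverse_X_sub_C (c : F) : (Polynomial.X - C c).reverse = 1 - C c * Polynomial.X := by
  rw [sub_eq_add_neg, ← C_neg, reverse_add_C, reverse, natDegree_X, reflect_one_X]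
  simp [sub_eq_add_neg]

/-- The identity for minimal polynomials of degree at least three. -/
theorem covS_one_of_dim_four [Fintype F] (hq : 4 ≤ Fintype.card F) (A : GL (Fin 4) F)
    (hdet : GeneralLinearGroup.det A = 1)
    (hA : 3 ≤ (minpoly F (A : Matrix (Fin 4) (Fin 4) F)).natDegree) : CovS 4 A 1 := by
  classical
  obtain ⟨k, m, C', K, e, g, hAe, hC, hk, -, -⟩ := exists_block_decomp A
  have hkm : k + m = 4 := by simpa using Fintype.card_congr e
  rcases (by omega : (k = 4 ∧ m = 0) ∨ (k = 3 ∧ m = 1)) with ⟨rfl, rfl⟩ | ⟨rfl, rfl⟩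
  · refine covS_one_four_of_cyclic hq A hdet ?_
    let e' : Fin 4 ≃ Fin 4 := (Equiv.sumEmpty (Fin 4) (Fin 0)).symm.trans e
    have hb : reindexGL e (blockGL C' K) = reindexGL e' C' := by
      refine Units.ext ?_
      ext i j
      rcases hx : e.symm i with i1 | i2
      · rcases hy : e.symm j with j1 | j2
        · simp [e', hx, hy]
        · exact j2.elim0
      · exact i2.elim0
    rw [hAe, hb, Units.val_mul, Units.val_mul]
    exact (hC.reindex e').conj g
  obtain ⟨a, rfl⟩ : ∃ a : Fˣ, K = scalarGL (Fin 1) a := by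
    have h0 : (K : Matrix (Fin 1) (Fin 1) F) 0 0 ≠ 0 := by
      have := ((Matrix.isUnit_iff_isUnit_det _).mp K.isUnit).ne_zero
      rwa [det_fin_one] at this
    refine ⟨Units.mk0 _ h0, Units.ext ?_⟩
    ext i j
    rw [Fin.fin_one_eq_zero i, Fin.fin_one_eq_zero j]
    simp
  set h1 : Fin 3 → F := ![1, 1, (a : F)⁻¹ ^ 2] with hh1
  have ha : (a : F) ≠ 0 := a.ne_zero
  have hnz : ∀ i, h1 i ≠ 0 := fun i => by fin_cases i <;> simp [h1, ha]
  have hCd : (C' : Matrix (Fin 3) (Fin 3) F).det * a = 1 := by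
    have h := congrArg Units.val hdet
    rw [hAe, map_mul, map_mul, map_inv, mul_inv_cancel_comm, det_reindexGL, det_blockGL] at h
    simpa [GeneralLinearGroup.val_det_apply] using h
  obtain ⟨P1, Q1, hp1, hL, -⟩ := exists_block_pair (m := 1) hq C' hC h1 hnz (by
      rw [Fin.prod_univ_three, eq_inv_of_mul_eq_one_left hCd]; simp [h1]) (by
    by_cases hy : (a : F)⁻¹ ^ 2 = 1
    · exact Or.inr ⟨by simp [h1, hy, show (Fin.last 2 : Fin 3) = 2 from rfl], fun h => absurd h one_ne_zero⟩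
    · refine Or.inl fun j => ?_
      fin_cases j <;> exact Ne.symm hy)
  obtain ⟨P, Q, hpair, -, -⟩ := exists_isPair_sum hp1 (single_pair a) hnz
    (fun δ _ _ => Or.inl (hL δ (Or.inr (by simp [h1]))))
  have hfull : FullDet A := hAe ▸ fullDet_conj_of (fullDet_reindex (fullDet_scalar_block C' a 0) e) g
  have hp := isPair_reindex hpair e g
  rw [← hAe] at hp
  obtain ⟨⟨g1, hg1⟩, ⟨g2, hg2⟩, hs⟩ := hp
  set X := reindexGL e P * reindexGL e Q with hX
  have hcov : Cov 2 A X := by rw [hX, hg1, hg2]; exact (cov_one A g1).mul (cov_one A g2)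
  set h := sumList h1 (fun _ : Fin 1 => (a : F) ^ 2) ∘ e.symm with hh
  have hchar : (X : Matrix (Fin 4) (Fin 4) F).charpoly =
      (Polynomial.X - C 1) * (Polynomial.X - C 1) * (Polynomial.X - C ((a : F)⁻¹ ^ 2)) *
        (Polynomial.X - C ((a : F) ^ 2)) := by
    rw [hs.2, hh]
    simp only [Function.comp_apply]
    rw [Equiv.prod_comp e.symm (fun i => Polynomial.X - C (sumList h1 (fun _ : Fin 1 => (a : F) ^ 2) i)),
      Fintype.prod_sum_type]
    simp [h1, Fin.prod_univ_three]
  have hXd : (X : Matrix (Fin 4) (Fin 4) F).det = 1 := by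
    have := congrArg Units.val hcov.det_eq
    simpa [hdet] using this
  have hinv : SplitCyc ((X⁻¹ : GL (Fin 4) F) : Matrix (Fin 4) (Fin 4) F) h := by
    refine ⟨hasCyclic_inv hs.1, ?_⟩
    rw [← hs.2, Matrix.coe_units_inv, Matrix.charpoly_inv _ X.isUnit, hXd, Ring.inverse_one,
      ← Matrix.reverse_charpoly, hchar, reverse_mul_of_domain, reverse_mul_of_domain,
      reverse_mul_of_domain, reverse_X_sub_C, reverse_X_sub_C, reverse_X_sub_C, Fintype.card_fin]
    have hc : C ((a : F)⁻¹ ^ 2) * C ((a : F) ^ 2) = (1 : F[X]) := by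
      rw [← C_mul, inv_pow, inv_mul_cancel₀ (pow_ne_zero _ ha), C_1]
    simp only [map_one]
    linear_combination (Polynomial.X - 1) ^ 2 * (Polynomial.X ^ 2 - 1) * hc
  obtain ⟨v, hv⟩ := exists_conj_splitCyc hinv hs
  have h4 : Cov 4 A 1 := by
    have := hcov.mul (hcov.conj v)
    rwa [← hv, mul_inv_cancel] at this
  exact h4.covS hfull

end CfsgLib.PSLCover
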