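import Cfsg.Agent.Lib.PSLCover.CoreCover

/-!
Covering by `n - 1` conjugates for non-quadratic matrices, given the peeling step.
-/

set_option autoImplicit false
set_option linter.style.haveILetI false
set_option linter.unusedSectionVars false

namespace CfsgLib.PSLCover

open Matrix Polynomial

variable {F : Type*} [Field F] {ι : Type*} [Fintype ι] [DecidableEq ι]

/-- The peeling step, as a proposition. -/
def PeelStep (F : Type*) [Field F] : Prop :=
  ∀ (m : ℕ), 3 ≤ m → ∀ (k : ℕ) (A : GL (Fin (m + 1)) F) (a : Fˣ) (A1 : GL (Fin m) F)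
    (e : Fin 1 ⊕ Fin m ≃ Fin (m + 1)) (g : GL (Fin (m + 1)) F),
    A = g * reindexGL e (blockGL (scalarGL (Fin 1) a) A1) * g⁻¹ →
    3 ≤ (minpoly F (A : Matrix (Fin (m + 1)) (Fin (m + 1)) F)).natDegree →
    (∀ B1, NonScalar B1 → GeneralLinearGroup.det B1 = GeneralLinearGroup.det A1 ^ k → Cov k A1 B1) →
    ∀ B, NonScalar B → GeneralLinearGroup.det B = GeneralLinearGroup.det A ^ (k + 1) →
      CovS (k + 1) A B

theorem cov_succ {n : ℕ} {A : GL (Fin n) F} (hA : NonScalar A) {k : ℕ}
    (h : ∀ B, NonScalar B → GeneralLinearGroup.det B = GeneralLinearGroup.det A ^ k → Cov k A B)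
    (B : GL (Fin n) F) (hB : GeneralLinearGroup.det B = GeneralLinearGroup.det A ^ (k + 1)) :
    Cov (k + 1) A B := by
  obtain ⟨y, hy, hns⟩ := exists_mul_inv_nonScalar hA B
  have hd := hy.cov.det_eq
  rw [pow_one] at hd
  have := (h (B * y⁻¹) hns (by rw [map_mul, map_inv, hB, hd, pow_succ, mul_inv_cancel_right])).mul hy.cov
  rwa [inv_mul_cancel_right] at this

theorem cov_pad {n : ℕ} {A : GL (Fin n) F} (hA : NonScalar A) {k m : ℕ} (hkm : k ≤ m)
    (h : ∀ B, NonScalar B → GeneralLinearGroup.det B = GeneralLinearGroup.det A ^ k → Cov k A B) :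
    ∀ B, NonScalar B → GeneralLinearGroup.det B = GeneralLinearGroup.det A ^ m → Cov m A B := by
  induction m, hkm using Nat.le_induction with
  | base => exact h
  | succ m _ ih => exact fun B _ hd => cov_succ hA ih B hd

/-- With at most two scalar blocks four conjugates cover. -/
theorem cov_four [Fintype F] (hq : 4 ≤ Fintype.card F) {n k d : ℕ} (hn : 3 ≤ n) {A : GL (Fin n) F}
    {K : GL (Fin k) F} {μ : F[X]} {a : Fˣ} (e : Fin k ⊕ Fin d ≃ Fin n) (g : GL (Fin n) F)
    (hA : A = g * reindexGL e (blockGL K (scalarGL (Fin d) a)) * g⁻¹) (hch : IsChain F K μ)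
    (hd : d ≤ 2) (hμ : 3 ≤ μ.natDegree) (B : GL (Fin n) F) (hB : NonScalar B)
    (hdet : GeneralLinearGroup.det B = GeneralLinearGroup.det A ^ 4) : Cov 4 A B := by
  obtain ⟨X, h, hX, hnz, hs⟩ := exists_splitCyc_cov_two hq e g hA hch hd hμ
  exact cov_double hq hn hX hnz hs B hB hdet

theorem reindexGL_trans {κ ρ : Type*} [Fintype κ] [DecidableEq κ] [Fintype ρ] [DecidableEq ρ]
    (e : ι ≃ κ) (e' : κ ≃ ρ) (A : GL ι F) :
    reindexGL e' (reindexGL e A) = reindexGL (e.trans e') A := Units.ext rfl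

theorem IsChain.le_size {n : ℕ} {K : GL (Fin n) F} {μ : F[X]} (h : IsChain F K μ) :
    μ.natDegree ≤ n := by
  cases h with
  | nil => simp
  | cons C K' μ' A e g hC hK hdvd hA =>
    rw [charpoly_natDegree_eq_dim, Fintype.card_fin]
    have := Fintype.card_congr e
    simp at this
    omega

/-- Splitting off one scalar block of a chain. -/
theorem exists_peel_form {m k d : ℕ} {A : GL (Fin (m + 1)) F} {K : GL (Fin k) F} {a : Fˣ}
    (hd : 2 ≤ d) (e : Fin k ⊕ Fin d ≃ Fin (m + 1)) (g : GL (Fin (m + 1)) F)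
    (hA : A = g * reindexGL e (blockGL K (scalarGL (Fin d) a)) * g⁻¹) :
    ∃ (A1 : GL (Fin m) F) (e' : Fin 1 ⊕ Fin m ≃ Fin (m + 1)),
      A = g * reindexGL e' (blockGL (scalarGL (Fin 1) a) A1) * g⁻¹ ∧
      minpoly F (A : Matrix (Fin (m + 1)) (Fin (m + 1)) F) ∣ minpoly F (A1 : Matrix (Fin m) (Fin m) F) := by
  obtain ⟨d, rfl⟩ : ∃ d', d = d' + 1 := ⟨d - 1, by omega⟩
  have hc := Fintype.card_congr e
  simp only [Fintype.card_sum, Fintype.card_fin] at hc
  let f : Fin k ⊕ Fin d ≃ Fin m := finSumFinEquiv.trans (finCongr (by omega))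
  let sw : Fin 1 ⊕ (Fin k ⊕ Fin d) ≃ Fin k ⊕ Fin (d + 1) :=
    (Equiv.sumAssoc (Fin 1) (Fin k) (Fin d)).symm.trans
      (((Equiv.sumComm (Fin 1) (Fin k)).sumCongr (Equiv.refl (Fin d))).trans
        ((Equiv.sumAssoc (Fin k) (Fin 1) (Fin d)).trans
          ((Equiv.refl (Fin k)).sumCongr (finSumFinEquiv.trans (finCongr (Nat.add_comm 1 d))))))
  let e' : Fin 1 ⊕ Fin m ≃ Fin (m + 1) :=
    (((Equiv.refl (Fin 1)).sumCongr f.symm).trans sw).trans e
  let A1 : GL (Fin m) F := reindexGL f (blockGL K (scalarGL (Fin d) a))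
  have hb : reindexGL e (blockGL K (scalarGL (Fin (d + 1)) a)) =
      reindexGL e' (blockGL (scalarGL (Fin 1) a) A1) := by
    refine Units.ext ?_
    have key : Matrix.reindex sw sw (fromBlocks ((a : F) • (1 : Matrix (Fin 1) (Fin 1) F)) 0 0
        (fromBlocks (K : Matrix (Fin k) (Fin k) F) 0 0 ((a : F) • (1 : Matrix (Fin d) (Fin d) F)))) =
        fromBlocks (K : Matrix (Fin k) (Fin k) F) 0 0 ((a : F) • (1 : Matrix (Fin (d + 1)) (Fin (d + 1)) F)) := by
      ext x y
      rw [Matrix.reindex_apply, submatrix_apply]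
      obtain ⟨x', rfl⟩ := sw.surjective x
      obtain ⟨y', rfl⟩ := sw.surjective y
      rw [Equiv.symm_apply_apply, Equiv.symm_apply_apply]
      rcases x' with x1 | x2 | x3 <;> rcases y' with y1 | y2 | y3 <;>
        simp [sw, Matrix.one_apply, Fin.ext_iff] <;> omega
    simp only [coe_reindexGL, coe_blockGL, coe_scalarGL, A1, ← key]
    ext i j
    rcases hx : e.symm i with i1 | i2 <;> rcases hy : e.symm j with j1 | j2 <;>
      simp [e', hx, hy, Matrix.fromBlocks] <;>
      rcases sw.symm _ with x1 | x2 <;> rcases sw.symm _ with y1 | y2 <;> simp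
  refine ⟨A1, e', by rw [hA, hb], ?_⟩
  refine minpoly.dvd F _ ?_
  set p := minpoly F (A1 : Matrix (Fin m) (Fin m) F) with hp
  have h1 : aeval (A1 : Matrix (Fin m) (Fin m) F) p = 0 := minpoly.aeval F _
  have h2 : aeval (fromBlocks (K : Matrix (Fin k) (Fin k) F) 0 0
      ((scalarGL (Fin d) a : GL (Fin d) F) : Matrix (Fin d) (Fin d) F)) p = 0 := by
    have h3 : aeval (Matrix.reindexAlgEquiv F F f (fromBlocks (K : Matrix (Fin k) (Fin k) F) 0 0
        ((scalarGL (Fin d) a : GL (Fin d) F) : Matrix (Fin d) (Fin d) F))) p = 0 := h1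
    rw [aeval_algHom_apply] at h3
    exact (map_eq_zero_iff _ (Matrix.reindexAlgEquiv F F f).injective).mp h3
  rw [aeval_fromBlocks_diag] at h2
  have hK : aeval (K : Matrix (Fin k) (Fin k) F) p = 0 := congrArg Matrix.toBlocks₁₁ h2
  have hd0 := congrArg Matrix.toBlocks₂₂ h2
  simp only [toBlocks_fromBlocks₂₂, coe_scalarGL, ← Algebra.algebraMap_eq_smul_one,
    aeval_algebraMap_apply] at hd0
  have hpa : p.eval (a : F) = 0 := by
    have := congrFun (congrFun hd0 ⟨0, by omega⟩) ⟨0, by omega⟩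
    simpa [Matrix.algebraMap_eq_diagonal, coe_aeval_eq_eval, Matrix.toBlocks₂₂] using this
  have hd1 : aeval ((scalarGL (Fin (d + 1)) a : GL (Fin (d + 1)) F) : Matrix (Fin (d + 1)) (Fin (d + 1)) F) p = 0 := by
    rw [coe_scalarGL, ← Algebra.algebraMap_eq_smul_one, aeval_algebraMap_apply]
    simp [coe_aeval_eq_eval, hpa]
  have h4 : aeval (fromBlocks (K : Matrix (Fin k) (Fin k) F) 0 0
      ((scalarGL (Fin (d + 1)) a : GL (Fin (d + 1)) F) : Matrix (Fin (d + 1)) (Fin (d + 1)) F)) p = 0 := by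
    rw [aeval_fromBlocks_diag, hK, hd1, fromBlocks_zero]
  have h5 : aeval ((reindexGL e (blockGL K (scalarGL (Fin (d + 1)) a)) : GL (Fin (m + 1)) F) :
      Matrix (Fin (m + 1)) (Fin (m + 1)) F) p = 0 := by
    show aeval (Matrix.reindexAlgEquiv F F e _) p = 0
    rw [aeval_algHom_apply]
    exact (congrArg _ h4).trans (map_zero _)
  have h6 : aeval (MulSemiringAction.toAlgEquiv F (Matrix (Fin (m + 1)) (Fin (m + 1)) F)
      (ConjAct.toConjAct g) ((reindexGL e (blockGL K (scalarGL (Fin (d + 1)) a)) : GL (Fin (m + 1)) F) :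
      Matrix (Fin (m + 1)) (Fin (m + 1)) F)) p = 0 := by
    rw [aeval_algHom_apply, h5, map_zero]
  rw [hA]
  exact h6

/-- Non-quadratic matrices: `n - 1` conjugates cover the non-scalar matrices, for `n ≥ 5`. -/
theorem cov_pred [Fintype F] (hq : 4 ≤ Fintype.card F) (hpeel : PeelStep F) :
    ∀ n : ℕ, 5 ≤ n → ∀ A : GL (Fin n) F,
      3 ≤ (minpoly F (A : Matrix (Fin n) (Fin n) F)).natDegree →
      ∀ B, NonScalar B → GeneralLinearGroup.det B = GeneralLinearGroup.det A ^ (n - 1) →
        Cov (n - 1) A B := by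
  intro n hn
  induction n, hn using Nat.le_induction with
  | base =>
    intro A hA B hB hdet
    obtain ⟨k, d, K, μ, a, e, g, hAe, hch, hμ, -⟩ := exists_chain_scalar A
    have hμ' := hμ (by omega)
    have := hch.le_size
    have hc := Fintype.card_congr e
    simp only [Fintype.card_sum, Fintype.card_fin] at hc
    exact cov_four hq (by norm_num) e g hAe hch (by rw [hμ'] at this; omega) (hμ' ▸ hA) B hB hdet
  | succ n hn ih =>
    intro A hA B hB hdet
    obtain ⟨k, d, K, μ, a, e, g, hAe, hch, hμ, -⟩ := exists_chain_scalar A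
    have hμ' := hμ (by omega)
    rcases Nat.lt_or_ge d 3 with hd | hd
    · refine cov_pad (NonScalar.of_minpoly (by omega)) (k := 4) (by omega) ?_ B hB hdet
      exact cov_four hq (by omega) e g hAe hch (by omega) (hμ' ▸ hA)
    · obtain ⟨A1, e', hA1, hdvd⟩ := exists_peel_form (by omega) e g hAe
      have hdeg1 : 3 ≤ (minpoly F (A1 : Matrix (Fin n) (Fin n) F)).natDegree :=
        le_trans hA (natDegree_le_of_dvd hdvd
          (minpoly.ne_zero (Algebra.IsIntegral.isIntegral _)))
      have := hpeel n (by omega) (n - 1) A a A1 e' g hA1 hA (ih A1 hdeg1) B hB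
        (by rw [hdet]; congr 1; omega)
      rw [show n + 1 - 1 = n - 1 + 1 by omega]
      exact this.cov

/-- The determinant-one version, unless the chain has no scalar block. -/
theorem covS_pred [Fintype F] (hq : 4 ≤ Fintype.card F) (hpeel : PeelStep F) {n : ℕ} (hn : 5 ≤ n)
    (A : GL (Fin n) F) (hA : 3 ≤ (minpoly F (A : Matrix (Fin n) (Fin n) F)).natDegree)
    (hfull : ∀ (K : GL (Fin n) F) (μ : F[X]) (g : GL (Fin n) F), IsChain F K μ →
      μ = minpoly F (A : Matrix (Fin n) (Fin n) F) → A = g * K * g⁻¹ →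
      ∀ B, NonScalar B → GeneralLinearGroup.det B = GeneralLinearGroup.det A ^ 4 → CovS 4 A B)
    (B : GL (Fin n) F) (hB : NonScalar B)
    (hdet : GeneralLinearGroup.det B = GeneralLinearGroup.det A ^ (n - 1)) : CovS (n - 1) A B := by
  obtain ⟨k, d, K, μ, a, e, g, hAe, hch, hμ, -⟩ := exists_chain_scalar A
  have hμ' := hμ (by omega)
  rcases Nat.eq_zero_or_pos d with hd0 | hdpos
  · subst hd0
    have hkn : k = n := by simpa using Fintype.card_congr e
    subst hkn
    let e' : Fin k ≃ Fin k := (Equiv.sumEmpty (Fin k) (Fin 0)).symm.trans e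
    have hb : reindexGL e (blockGL K (scalarGL (Fin 0) a)) = reindexGL e' K := by
      refine Units.ext ?_
      ext i j
      rcases hx : e.symm i with i1 | i2
      · rcases hy : e.symm j with j1 | j2
        · simp [e', hx, hy]
        · exact j2.elim0
      · exact i2.elim0
    let P : GL (Fin k) F := GeneralLinearGroup.mkOfDetNeZero
      ((Matrix.reindex e' (Equiv.refl _)) (1 : Matrix (Fin k) (Fin k) F)) (by
        rw [show Matrix.reindex e' (Equiv.refl _) (1 : Matrix (Fin k) (Fin k) F) =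
          (1 : Matrix (Fin k) (Fin k) F).submatrix e'.symm id from rfl, det_permute]
        rcases Int.units_eq_one_or (Equiv.Perm.sign e'.symm) with h | h <;> simp [h])
    have hP : reindexGL e' K = P * K * P⁻¹ := by
      rw [eq_mul_inv_iff_mul_eq]
      refine Units.ext ?_
      ext i j
      simp [P, Matrix.mul_apply, Matrix.one_apply]
      exact (Fintype.sum_equiv e'.symm _ (fun x => if x = j then (K : Matrix (Fin k) (Fin k) F) (e'.symm i) x
        else 0) fun _ => rfl).trans (by simp)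
    refine (covS_pad (NonScalar.of_minpoly (by omega)) (k := 4) (by omega)
      (hfull K μ (g * P) hch hμ' (by rw [hAe, hb, hP]; group))).1 B hB hdet
  · rcases Nat.lt_or_ge d 3 with hd | hd
    · refine (cov_pred hq hpeel n hn A hA B hB hdet).covS ?_
      rw [hAe]
      exact fullDet_conj_of (fullDet_reindex (fullDet_scalar_block K a ⟨0, hdpos⟩) e) g
    · obtain ⟨m, rfl⟩ : ∃ m, n = m + 1 := ⟨n - 1, by omega⟩
      have hm : 5 ≤ m := by
        have := hch.le_size
        have hc := Fintype.card_congr e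
        simp only [Fintype.card_sum, Fintype.card_fin] at hc
        rw [hμ'] at this
        omega
      obtain ⟨A1, e', hA1, hdvd⟩ := exists_peel_form (by omega) e g hAe
      have hdeg1 : 3 ≤ (minpoly F (A1 : Matrix (Fin m) (Fin m) F)).natDegree :=
        le_trans hA (natDegree_le_of_dvd hdvd (minpoly.ne_zero (Algebra.IsIntegral.isIntegral _)))
      have := hpeel m (by omega) (m - 1) A a A1 e' g hA1 hA (cov_pred hq hpeel m hm A1 hdeg1) B hB
        (by rw [hdet]; congr 1; omega)
      rw [show m + 1 - 1 = m - 1 + 1 by omega]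
      exact this

end CfsgLib.PSLCover
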