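import Cfsg.Agent.Lib.PSLCover.SplitTools
import Cfsg.Agent.Lib.PSLCover.GLCover

/-!
Matrices with irreducible quadratic minimal polynomial.
-/

set_option autoImplicit false
set_option linter.style.haveILetI false
set_option linter.unusedSectionVars false

namespace CfsgLib.PSLCover

open Matrix Polynomial

variable {F : Type*} [Field F]

theorem IsChain.size_ne_one {n : ℕ} {K : GL (Fin n) F} {μ : F[X]} (h : IsChain F K μ) : n ≠ 1 := by
  intro h1
  have h2 := h.le_size
  rcases h.degree_cases with ⟨h0, -⟩ | h3 <;> omega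

/-- A cyclic `2 × 2` matrix times some conjugate of it is its determinant. -/
theorem exists_conj_mul_two (C : GL (Fin 2) F) (hC : HasCyclic (C : Matrix (Fin 2) (Fin 2) F)) :
    ∃ u : GL (Fin 2) F, ((u * C * u⁻¹ * C : GL (Fin 2) F) : Matrix (Fin 2) (Fin 2) F) =
      (C : Matrix (Fin 2) (Fin 2) F).det • 1 := by
  set M := (C : Matrix (Fin 2) (Fin 2) F) with hM
  have hadj : M.adjugate = M.trace • 1 - M := by
    rw [adjugate_fin_two]
    ext i j
    fin_cases i <;> fin_cases j <;> simp [trace_fin_two]
  have hcyc : HasCyclic M.adjugate := by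
    obtain ⟨v, hv⟩ := hC
    refine ⟨v, eq_top_iff.2 (hv ▸ Submodule.span_le.2 ?_)⟩
    set S := Submodule.span F (Set.range fun i : ℕ => M.adjugate ^ i *ᵥ v) with hS
    have hinv : ∀ x ∈ S, M.adjugate *ᵥ x ∈ S := by
      intro x hx
      induction hx using Submodule.span_induction with
      | mem x hx =>
        obtain ⟨i, rfl⟩ := hx
        exact Submodule.subset_span ⟨i + 1, by simp only [pow_succ', mulVec_mulVec]⟩
      | zero => simp
      | add x y _ _ hx hy => rw [mulVec_add]; exact add_mem hx hy
      | smul c x _ hx => rw [mulVec_smul]; exact Submodule.smul_mem _ c hx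
    have hMS : ∀ x ∈ S, M *ᵥ x ∈ S := fun x hx => by
      have e : M *ᵥ x = M.trace • x - M.adjugate *ᵥ x := by
        rw [hadj, sub_mulVec, smul_mulVec, one_mulVec, sub_sub_cancel]
      rw [e]
      exact Submodule.sub_mem _ (Submodule.smul_mem _ _ hx) (hinv x hx)
    rintro _ ⟨i, rfl⟩
    induction i with
    | zero => exact Submodule.subset_span ⟨0, by simp only [pow_zero]⟩
    | succ i ih =>
      have := hMS _ ih
      rwa [mulVec_mulVec, ← pow_succ'] at this
  have hchar : M.adjugate.charpoly = M.charpoly := by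
    rw [charpoly_fin_two, charpoly_fin_two, adjugate_fin_two]
    simp [trace_fin_two, det_fin_two]
    ring
  obtain ⟨u, hu⟩ := exists_conj_of_hasCyclic _ _ hcyc hC hchar
  refine ⟨u, ?_⟩
  rw [Units.val_mul, Units.val_mul, Units.val_mul, ← hM, ← hu, adjugate_mul]

/-- An irreducible quadratic polynomial leaves no scalar block, and the class does not split. -/
theorem fullDet_of_irreducible [Fintype F] {n : ℕ} (A : GL (Fin n) F)
    (h2 : (minpoly F (A : Matrix (Fin n) (Fin n) F)).natDegree = 2)
    (hroot : ∀ x : F, ¬ (minpoly F (A : Matrix (Fin n) (Fin n) F)).IsRoot x) : FullDet A := by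
  obtain ⟨k, m, C, K, e, g, hA, -, hk, hchar, -⟩ := exists_block_decomp A
  obtain rfl : k = 2 := hk.trans h2
  rw [fullDet_iff_detCent]
  intro δ
  by_contra hδ
  have hle : detCent C ≤ detCent A := by
    rw [hA, detCent_conj]
    exact (detCent_blockGL_left C K).trans (detCent_reindex e _)
  obtain ⟨h20, htr⟩ := two_block_shape C hle ⟨δ, hδ⟩
  refine hroot ((C : Matrix (Fin 2) (Fin 2) F).trace / 2) ?_
  rw [← hchar, charpoly_fin_two, IsRoot, eval_add, eval_sub, eval_pow, eval_mul, eval_X, eval_C,
    eval_C]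
  field_simp
  linear_combination -htr

/-- The chain of a matrix without rational roots has no scalar block. -/
theorem exists_chain_of_noRoot {n : ℕ} (A : GL (Fin n) F)
    (h2 : 2 ≤ (minpoly F (A : Matrix (Fin n) (Fin n) F)).natDegree)
    (hroot : ∀ x : F, ¬ (minpoly F (A : Matrix (Fin n) (Fin n) F)).IsRoot x) :
    ∃ (K : GL (Fin n) F) (e : Fin n ≃ Fin n) (g : GL (Fin n) F),
      A = g * reindexGL e K * g⁻¹ ∧
        IsChain F K (minpoly F (A : Matrix (Fin n) (Fin n) F)) := by
  obtain ⟨k, d, K, μ, a, e, g, hA, hch, hμ, -⟩ := exists_chain_scalar A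
  obtain rfl : d = 0 := by
    by_contra hd
    refine hroot (a : F) ?_
    have h1 := minpoly.aeval F (fromBlocks (K : Matrix (Fin k) (Fin k) F) 0 0
      ((scalarGL (Fin d) a : GL (Fin d) F) : Matrix (Fin d) (Fin d) F))
    have e1 : minpoly F (fromBlocks (K : Matrix (Fin k) (Fin k) F) 0 0
        ((scalarGL (Fin d) a : GL (Fin d) F) : Matrix (Fin d) (Fin d) F)) =
        minpoly F (A : Matrix (Fin n) (Fin n) F) := by
      rw [hA, minpoly_conj, coe_reindexGL, minpoly_reindex, coe_blockGL]
    rw [e1, aeval_fromBlocks_diag] at h1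
    have h3 := congrArg Matrix.toBlocks₂₂ h1
    simp only [toBlocks_fromBlocks₂₂, coe_scalarGL, ← Algebra.algebraMap_eq_smul_one,
      aeval_algebraMap_apply] at h3
    have := congrFun (congrFun h3 ⟨0, by omega⟩) ⟨0, by omega⟩
    simpa [Matrix.algebraMap_eq_diagonal, coe_aeval_eq_eval, Matrix.toBlocks₂₂, IsRoot] using this
  obtain rfl : k = n := by simpa using Fintype.card_congr e
  let e' : Fin k ≃ Fin k := (Equiv.sumEmpty (Fin k) (Fin 0)).symm.trans e
  have hb : reindexGL e (blockGL K (scalarGL (Fin 0) a)) = reindexGL e' K := by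
    refine Units.ext ?_
    ext i j
    rcases hx : e.symm i with i1 | i2
    · rcases hy : e.symm j with j1 | j2
      · simp [e', hx, hy]
      · exact j2.elim0
    · exact i2.elim0
  exact ⟨K, e', g, by rw [hA, hb], hμ h2 ▸ hch⟩

/-- Irreducible quadratic minimal polynomial: four conjugates cover the non-scalar matrices and, in
dimension four, give a scalar. -/
theorem covS_of_irreducible [Fintype F] (hq : 4 ≤ Fintype.card F) {n : ℕ} (hn : 3 ≤ n)
    (A : GL (Fin n) F) (h2 : (minpoly F (A : Matrix (Fin n) (Fin n) F)).natDegree = 2)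
    (hroot : ∀ x : F, ¬ (minpoly F (A : Matrix (Fin n) (Fin n) F)).IsRoot x) :
    4 ≤ n ∧
      (∀ B, NonScalar B → GeneralLinearGroup.det B = GeneralLinearGroup.det A ^ 4 → CovS 4 A B) ∧
      (n = 4 → ∃ (z : F) (Z : GL (Fin n) F),
        (Z : Matrix (Fin n) (Fin n) F) = z • 1 ∧ CovS n A Z) := by
  have hfull := fullDet_of_irreducible A h2 hroot
  obtain ⟨K, e, g, hA, hch⟩ := exists_chain_of_noRoot A (by omega) hroot
  refine ⟨?_, fun B hB hdet => ?_, ?_⟩
  · generalize hμ : minpoly F (A : Matrix (Fin n) (Fin n) F) = μ at hch h2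
    cases hch with
    | nil => omega
    | @cons k m _ C K' μ' _ e1 g1 hC hK hdvd hA1 =>
      have hc := Fintype.card_congr e1
      simp only [Fintype.card_sum, Fintype.card_fin] at hc
      have hk : (C : Matrix (Fin (k + 2)) (Fin (k + 2)) F).charpoly.natDegree = k + 2 := by
        simp [charpoly_natDegree_eq_dim]
      have := hK.size_ne_one
      omega
  · obtain ⟨γ, hγ0, hγ1, hγ2⟩ :=
      exists_gamma hq 1 ((minpoly F (A : Matrix (Fin n) (Fin n) F)).coeff 0 ^ 2) one_ne_zero
    obtain ⟨P, Q, h, hp, hnz, -, -, -⟩ :=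
      chain_pair hq hch 1 one_ne_zero γ (fun _ => ⟨hγ0, hγ1, hγ2⟩)
    have hp' := isPair_reindex hp e g
    rw [← hA] at hp'
    obtain ⟨⟨g1, h1⟩, ⟨g2, h2'⟩, hs⟩ := hp'
    have hX : Cov 2 A (reindexGL e P * reindexGL e Q) := by
      rw [h1, h2']
      exact (cov_one A g1).mul (cov_one A g2)
    exact (cov_double hq hn hX (fun i => hnz _) hs B hB hdet).covS hfull
  · intro h4
    subst h4
    generalize hμ : minpoly F (A : Matrix (Fin 4) (Fin 4) F) = μ at hch h2
    cases hch with
    | @cons k m _ C K' μ' _ e1 g1 hC hK hdvd hA1 =>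
      have hc := Fintype.card_congr e1
      simp only [Fintype.card_sum, Fintype.card_fin] at hc
      rw [charpoly_natDegree_eq_dim, Fintype.card_fin] at h2
      obtain rfl : k = 0 := by omega
      obtain rfl : m = 2 := by omega
      cases hK with
      | @cons k' m' _ C' K'' μ'' _ e2 g2 hC' hK'' hdvd' hA2 =>
        have hc' := Fintype.card_congr e2
        simp only [Fintype.card_sum, Fintype.card_fin] at hc'
        obtain rfl : k' = 0 := by omega
        obtain rfl : m' = 0 := by omega
        have heq : (C' : Matrix (Fin 2) (Fin 2) F).charpoly = (C : Matrix (Fin 2) (Fin 2) F).charpoly :=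
          (eq_of_monic_of_dvd_of_natDegree_le (charpoly_monic _) (charpoly_monic _) hdvd
            (le_of_eq (by simp [charpoly_natDegree_eq_dim]))).symm
        let e3 : Fin 2 ≃ Fin 2 := (Equiv.sumEmpty (Fin 2) (Fin 0)).symm.trans e2
        have hb : reindexGL e2 (blockGL C' K'') = reindexGL e3 C' := by
          refine Units.ext ?_
          ext i j
          rcases hx : e2.symm i with i1 | i2
          · rcases hy : e2.symm j with j1 | j2
            · simp [e3, hx, hy]
            · exact j2.elim0
          · exact i2.elim0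
        have hcyc : HasCyclic (K' : Matrix (Fin 2) (Fin 2) F) := by
          rw [hA2, hb, Units.val_mul, Units.val_mul]
          exact (hC'.reindex e3).conj g2
        have hdetK : (K' : Matrix (Fin 2) (Fin 2) F).det = (C : Matrix (Fin 2) (Fin 2) F).det := by
          have h1 : (K' : Matrix (Fin 2) (Fin 2) F).det = (C' : Matrix (Fin 2) (Fin 2) F).det := by
            rw [hA2, hb, Units.val_mul, Units.val_mul, Matrix.det_units_conj, coe_reindexGL,
              det_reindex_self]
          rw [h1, det_eq_sign_charpoly_coeff, det_eq_sign_charpoly_coeff, heq]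
        obtain ⟨u, hu⟩ := exists_conj_mul_two C hC
        obtain ⟨v, hv⟩ := exists_conj_mul_two K' hcyc
        set Z := reindexGL e1 (blockGL (u * C * u⁻¹ * C) (v * K' * v⁻¹ * K')) with hZ
        have hZs : (Z : Matrix (Fin 4) (Fin 4) F) = (C : Matrix (Fin 2) (Fin 2) F).det • 1 := by
          rw [hZ, coe_reindexGL, coe_blockGL, hu, hv, hdetK]
          have : fromBlocks ((C : Matrix (Fin 2) (Fin 2) F).det • (1 : Matrix (Fin 2) (Fin 2) F)) 0 0
              ((C : Matrix (Fin 2) (Fin 2) F).det • 1) =
              (C : Matrix (Fin 2) (Fin 2) F).det • (1 : Matrix (Fin 2 ⊕ Fin 2) (Fin 2 ⊕ Fin 2) F) := by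
            rw [← fromBlocks_one, fromBlocks_smul, smul_zero]
          rw [this]
          ext i j
          simp [Matrix.one_apply]
        let ψ : GL (Fin 2 ⊕ Fin 2) F →* GL (Fin 4) F :=
          (MulAut.conj g).toMonoidHom.comp ((reindexGL e).toMonoidHom.comp
            ((MulAut.conj g1).toMonoidHom.comp (reindexGL e1).toMonoidHom))
        have hψ : ∀ x, ψ x = g * reindexGL e (g1 * reindexGL e1 x * g1⁻¹) * g⁻¹ := fun x => rfl
        have hAψ : A = ψ (blockGL C K') := by rw [hψ, ← hA1, ← hA]
        have h22 : Cov 2 A (ψ (blockGL u v * blockGL C K' * (blockGL u v)⁻¹ * blockGL C K')) := by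
          rw [map_mul, map_mul, map_mul, map_inv, ← hAψ]
          exact (cov_one A _).mul (by simpa using cov_one A 1)
        set Y := ψ (blockGL u v * blockGL C K' * (blockGL u v)⁻¹ * blockGL C K') with hY
        have hYs : (Y : Matrix (Fin 4) (Fin 4) F) = (C : Matrix (Fin 2) (Fin 2) F).det • 1 := by
          rw [hY, ← blockGL_conj, blockGL_mul, hψ, ← hZ]
          simp only [Units.val_mul, coe_reindexGL, hZs]
          rw [Matrix.mul_smul, mul_one, Matrix.smul_mul, ← Units.val_mul, mul_inv_cancel,
            Units.val_one, reindex_apply, submatrix_smul, Pi.smul_apply, Pi.smul_apply,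
            submatrix_one_equiv, Matrix.mul_smul, mul_one, Matrix.smul_mul, ← Units.val_mul,
            mul_inv_cancel, Units.val_one]
        exact ⟨(C : Matrix (Fin 2) (Fin 2) F).det * (C : Matrix (Fin 2) (Fin 2) F).det, Y * Y,
          by rw [Units.val_mul, hYs, smul_mul_smul_comm, one_mul], (h22.mul h22).covS hfull⟩

end CfsgLib.PSLCover
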