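import Cfsg.Agent.Lib.PSLCover.QuadReflect

/-!
Scalar products of `n` conjugates of `1 + D` with `D * D = γ • D`, in the cases where padding gives
none.
-/

set_option autoImplicit false
set_option linter.unusedSectionVars false

namespace CfsgLib.PSLCover

open Matrix

variable {F : Type*} [Field F] {n r : ℕ} {A : GL (Fin n) F} {γ : F}

/-- Diagonal shifts give a scalar for `γ ≠ 0`. -/
theorem IsSq.exists_scalar_shift (hA : IsSq A γ r) (hγ : γ ≠ 0) (hr : r ≠ 0) (hrn : r < n) :
    ∃ (z : F) (Z : GL (Fin n) F),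
      (Z : Matrix (Fin n) (Fin n) F) = z • 1 ∧ CovS n A Z := by
  classical
  have : NeZero n := ⟨by omega⟩
  let I : Fin n → Finset (Fin n) := fun k => Finset.univ.filter fun i => (i - k).val < r
  have hI : ∀ k, (I k).card = r := fun k => by
    rw [← Finset.card_map (Equiv.subRight k).toEmbedding]
    trans (Finset.univ.filter fun i : Fin n => i.val < r).card
    · congr 1
      ext i
      simp only [I, Finset.mem_map_equiv, Finset.mem_filter, Finset.mem_univ, true_and,
        Equiv.subRight_symm_apply, add_sub_cancel_right]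
    · rw [Fin.card_filter_val_lt, min_eq_right hrn.le]
  let D : Fin n → Matrix (Fin n) (Fin n) F := fun k => tpl γ (I k) (fun _ => 0) id
  have hs : ∀ k, ∀ i ∈ I k, (fun _ : Fin n => (0 : F)) i ≠ 0 → id i ∉ I k :=
    fun _ _ _ h => absurd rfl h
  have h1 := hA.add_one_ne_zero hr
  have hy : ∀ k, IsSq (sqUnit (D k) (tpl_sq (hs k)) h1) γ r := fun k => by
    have := isSq_sqUnit_tpl (γ := γ) (Or.inl ⟨hγ, hs k⟩) (tpl_sq (hs k)) h1
    rwa [hI] at this
  choose g hg using fun k => hA.exists_conj (hy k)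
  refine ⟨(1 + γ) ^ r, (List.ofFn fun k => g k * A * (g k)⁻¹).prod, ?_,
    Cov.covS ⟨g, rfl⟩ (hA.fullDet hr (Or.inl ⟨hγ, hrn⟩))⟩
  let v : Fin n → Fin n → F := fun k i => if i ∈ I k then 1 + γ else 1
  have e : ∀ k, ((g k * A * (g k)⁻¹ : GL (Fin n) F) : Matrix (Fin n) (Fin n) F) = diagonal (v k) := by
    intro k
    rw [← hg, coe_sqUnit, ← diagonal_one]
    ext i j
    by_cases hij : i = j
    · subst hij
      by_cases hi : i ∈ I k <;> simp [D, v, tpl, hi]
    · by_cases hi : i ∈ I k <;> simp [D, v, tpl, hi, hij, Ne.symm hij]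
  have hprod : (((List.ofFn fun k => g k * A * (g k)⁻¹).prod : GL (Fin n) F) :
      Matrix (Fin n) (Fin n) F) = diagonalRingHom (Fin n) F (List.ofFn v).prod := by
    rw [map_list_prod, List.map_ofFn, ← Units.coeHom_apply, map_list_prod, List.map_ofFn]
    congr 2
    funext k
    exact e k
  rw [hprod, List.prod_ofFn, diagonalRingHom_apply, smul_one_eq_diagonal]
  congr 1
  funext i
  rw [Finset.prod_apply, Finset.prod_ite, Finset.prod_const_one, mul_one, Finset.prod_const]
  congr 1
  rw [← Finset.card_map (Equiv.subLeft i).toEmbedding]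
  trans (Finset.univ.filter fun k : Fin n => k.val < r).card
  · congr 1
    ext k
    simp only [I, Finset.mem_map_equiv, Finset.mem_filter, Finset.mem_univ, true_and,
      Equiv.subLeft_symm_apply]
    simp
  · rw [Fin.card_filter_val_lt, min_eq_right hrn.le]

/-- For `γ = 0` below half rank the identity is a product. -/
theorem IsSq.covS_one_split (hA : IsSq A 0 r) (hr : r ≠ 0) (hrn : 2 * r < n)
    (hF : ∃ c : F, c ≠ 0 ∧ c ≠ 1) (hn : 2 ≤ n) : CovS n A 1 := by
  obtain ⟨hsq, hrk⟩ := hA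
  have h0 : (1 : F) + 0 ≠ 0 := by simp
  have hinv : IsSq A⁻¹ 0 r := by
    set D := (A : Matrix (Fin n) (Fin n) F) - 1 with hD
    rw [zero_smul] at hsq
    have e : ((A⁻¹ : GL (Fin n) F) : Matrix (Fin n) (Fin n) F) = 1 - D := by
      rw [Matrix.coe_units_inv]
      refine Matrix.inv_eq_left_inv ?_
      rw [show (A : Matrix (Fin n) (Fin n) F) = 1 + D by rw [hD, add_sub_cancel], sub_mul, one_mul,
        mul_add, mul_one, hsq, add_zero, add_sub_cancel_right]
    have e' : ((A⁻¹ : GL (Fin n) F) : Matrix (Fin n) (Fin n) F) - 1 = (-1 : F) • D := by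
      rw [e, neg_one_smul]; abel
    refine ⟨?_, ?_⟩
    · rw [e', smul_mul_smul_comm, hsq, smul_zero, zero_smul]
    · rw [e', mrank_smul _ (by simp), hrk]
  have hA' : IsSq A 0 r := ⟨hsq, hrk⟩
  have h := (PSLCover.cov_one A 1).mul (hA'.cov_split hF (n - 2) A⁻¹ hinv)
  rw [show 1 + (n - 2 + 1) = n by omega] at h
  simpa using h.covS (hA'.fullDet hr (Or.inr hrn))

/-- For `n = 4` and `γ = 0`, `A` is conjugate to its inverse under determinant one. -/
theorem IsSq.covS_one_four {A : GL (Fin 4) F} (hA : IsSq A 0 2) : CovS 4 A 1 := by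
  classical
  let I : Finset (Fin 4) := {0, 1}
  let c : Fin 4 → Fin 4 := ![2, 3, 2, 3]
  have hc : ∀ i ∈ I, (fun _ : Fin 4 => (1 : F)) i ≠ 0 ∧ c i ∉ I := fun i hi => by
    refine ⟨one_ne_zero, ?_⟩
    fin_cases i <;> simp [I, c] at hi ⊢
  have hinj : Set.InjOn c I := by
    intro i hi j hj e
    fin_cases i <;> fin_cases j <;> simp [I, c] at hi hj e ⊢
  have hsq : tpl (0 : F) I (fun _ => 1) c * tpl (0 : F) I (fun _ => 1) c =
      (0 : F) • tpl (0 : F) I (fun _ => 1) c := tpl_sq fun i hi _ => (hc i hi).2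
  have h1 : (1 : F) + 0 ≠ 0 := by simp
  have hy := isSq_sqUnit_tpl (Or.inr ⟨hc, hinj⟩) hsq h1
  rw [show I.card = 2 from rfl] at hy
  obtain ⟨g, hg⟩ := hA.exists_conj hy
  let y := sqUnit _ hsq h1
  let v : Fin 4 → F := ![-1, -1, 1, 1]
  have hv : (diagonal v).det = (1 : F) := by simp [det_diagonal, Fin.prod_univ_four, v]
  let d : GL (Fin 4) F := GeneralLinearGroup.mkOfDetNeZero (diagonal v) (by rw [hv]; exact one_ne_zero)
  have hd : GeneralLinearGroup.det d = 1 := Units.ext hv
  have key : d * y = y⁻¹ * d := by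
    refine Units.ext ?_
    show diagonal v * (1 + tpl (0 : F) I (fun _ => 1) c) =
      (1 - (1 + (0 : F))⁻¹ • tpl (0 : F) I (fun _ => 1) c) * diagonal v
    rw [add_zero, inv_one, one_smul, mul_add, sub_mul, mul_one, one_mul, sub_eq_add_neg,
      add_right_inj]
    ext i j
    rw [Matrix.neg_apply, diagonal_mul, mul_diagonal]
    fin_cases i <;> fin_cases j <;> simp [tpl, I, c, v]
  set h : GL (Fin 4) F := g⁻¹ * d * g with hh
  have hh1 : GeneralLinearGroup.det h = 1 := by simp [hh, hd]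
  have hinv : h * A * h⁻¹ = A⁻¹ := by
    have hgy : A = g⁻¹ * y * g := by rw [show y = g * A * g⁻¹ from hg]; group
    rw [mul_inv_eq_iff_eq_mul, hh, hgy]
    calc g⁻¹ * d * g * (g⁻¹ * y * g) = g⁻¹ * (d * y) * g := by group
      _ = (g⁻¹ * y * g)⁻¹ * (g⁻¹ * d * g) := by rw [key]; group
  have h2 : CovS 2 A 1 := by
    have := (PSLCover.covS_one A 1 (map_one _)).mul (PSLCover.covS_one A h hh1)
    rw [hinv] at this
    simpa using this
  simpa using h2.mul h2

end CfsgLib.PSLCover
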