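import Cfsg.Agent.Lib.PSLCover.QuadBasic

/-!
`1 + D` with `D * D = 0` of rank `n / 2`: two factors give a split cyclic element with a simple root.
-/

set_option autoImplicit false
set_option linter.unusedSectionVars false

namespace CfsgLib.PSLCover

open Matrix

variable {F : Type*} [Field F] {n : ℕ}

/-- A split cyclic element reached by `j` factors whose centraliser has all determinants gives every
one with the same roots. -/
theorem covS_of_splitCyc' {A : GL (Fin n) F} {j : ℕ} {L₀ L : GL (Fin n) F} (h : CovS j A L₀)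
    (hc : FullDet L₀) {β : Fin n → F} (h₀ : SplitCyc (L₀ : Matrix (Fin n) (Fin n) F) β)
    (hL : SplitCyc (L : Matrix (Fin n) (Fin n) F) β) : CovS j A L := by
  obtain ⟨P, hP⟩ := exists_conj_of_hasCyclic (L : Matrix (Fin n) (Fin n) F) _ hL.1 h₀.1
    (hL.2.trans h₀.2.symm)
  obtain rfl : L = P * L₀ * P⁻¹ := Units.ext (by rw [hP]; simp)
  obtain ⟨c, hc', hd⟩ := hc (GeneralLinearGroup.det P)⁻¹
  have e : P * L₀ * P⁻¹ = P * c * L₀ * (P * c)⁻¹ := by
    rw [mul_assoc P c L₀, hc']; group
  rw [e]
  exact h.conj _ (by rw [map_mul, hd, mul_inv_cancel])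

/-- A unit diagonal matrix with `x` at the places in `S` and one elsewhere. -/
def dOn (S : Finset (Fin n)) (x : Fˣ) : GL (Fin n) F where
  val := diagonal fun i => if i ∈ S then (x : F) else 1
  inv := diagonal fun i => if i ∈ S then ((x⁻¹ : Fˣ) : F) else 1
  val_inv := by
    rw [diagonal_mul_diagonal, ← diagonal_one]
    congr 1; funext i; split <;> simp
  inv_val := by
    rw [diagonal_mul_diagonal, ← diagonal_one]
    congr 1; funext i; split <;> simp

theorem det_dOn (S : Finset (Fin n)) (x : Fˣ) :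
    GeneralLinearGroup.det (dOn S x) = x ^ S.card := by
  refine Units.ext ?_
  show (diagonal fun i => if i ∈ S then (x : F) else 1).det = ((x ^ S.card : Fˣ) : F)
  rw [det_diagonal, Finset.prod_ite, Finset.prod_const_one, mul_one, Finset.prod_const,
    Units.val_pow_eq_pow_val]
  congr 2
  ext i; simp

/-- Scaling one entry of a square zero template inside the class under determinant one. -/
theorem exists_covS_scaled {A : GL (Fin n) F} {r : ℕ} (hA : IsSq A 0 r) {I : Finset (Fin n)}
    {s : Fin n → F} {c : Fin n → Fin n} (hc : ∀ i ∈ I, s i ≠ 0 ∧ c i ∉ I)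
    (hinj : Set.InjOn c (I : Set (Fin n))) (hI : I.card = r) {i₀ : Fin n} (hi₀ : i₀ ∈ I) :
    ∃ δ : F, δ ≠ 0 ∧ ∀ u : F, u ≠ 0 → ∃ y : GL (Fin n) F, CovS 1 A y ∧
      (y : Matrix (Fin n) (Fin n) F) =
        1 + tpl 0 I (Function.update s i₀ (δ * u ^ 2 * s i₀)) c := by
  classical
  have hsq : tpl 0 I s c * tpl 0 I s c = (0 : F) • tpl 0 I s c :=
    tpl_sq fun i hi _ => (hc i hi).2
  have h1 : (1 : F) + 0 ≠ 0 := by simp
  have hy := isSq_sqUnit_tpl (Or.inr ⟨hc, hinj⟩) hsq h1
  rw [hI] at hy
  obtain ⟨g, hg⟩ := hA.exists_conj hy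
  set y₀ := sqUnit (tpl 0 I s c) hsq h1 with hy₀
  set D := (GeneralLinearGroup.det g)⁻¹ with hD
  refine ⟨D, Units.ne_zero _, fun u hu => ?_⟩
  let U : Fˣ := Units.mk0 u hu
  -- `z` commutes with `y₀`
  let z : GL (Fin n) F := dOn {i₀, c i₀} U⁻¹
  have hne : i₀ ≠ c i₀ := fun e => (hc i₀ hi₀).2 (e ▸ hi₀)
  have hz : z * y₀ * z⁻¹ = y₀ := by
    rw [mul_inv_eq_iff_eq_mul]
    refine Units.ext ?_
    show diagonal _ * (1 + tpl 0 I s c) = (1 + tpl 0 I s c) * diagonal _
    rw [mul_add, add_mul, one_mul, mul_one, add_right_inj]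
    ext i l
    rw [diagonal_mul, mul_diagonal]
    by_cases hi : i ∈ I
    · by_cases hl : l = c i
      · have h2 : (i ∈ ({i₀, c i₀} : Finset (Fin n))) ↔ l ∈ ({i₀, c i₀} : Finset (Fin n)) := by
          simp only [Finset.mem_insert, Finset.mem_singleton, hl]
          constructor
          · rintro (rfl | e)
            · exact Or.inr rfl
            · exact absurd (e ▸ hi) (hc i₀ hi₀).2
          · rintro (e | e)
            · exact absurd (e ▸ hi₀) (hc i hi).2
            · exact Or.inl (hinj hi hi₀ e)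
        simp only [h2]
        ring
      · simp [tpl, hi, hl]
    · simp [tpl, hi]
  let d : GL (Fin n) F := dOn {i₀} (D * U ^ 2)
  refine ⟨d * y₀ * d⁻¹, ?_, ?_⟩
  · have : d * y₀ * d⁻¹ = d * z * g * A * (d * z * g)⁻¹ := by
      conv_lhs => rw [← hz, hg]
      group
    rw [this]
    refine covS_one A _ ?_
    rw [map_mul, map_mul, det_dOn, det_dOn, Finset.card_singleton, Finset.card_pair hne, pow_one,
      inv_pow, mul_inv_cancel_right, hD, inv_mul_cancel]
  · show diagonal (fun i => if i ∈ ({i₀} : Finset (Fin n)) then ((D * U ^ 2 : Fˣ) : F) else 1) *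
      (1 + tpl 0 I s c) * diagonal (fun i => if i ∈ ({i₀} : Finset (Fin n)) then
        (((D * U ^ 2)⁻¹ : Fˣ) : F) else 1) = _
    rw [mul_add, mul_one, add_mul, diagonal_mul_diagonal]
    congr 1
    · rw [← diagonal_one]
      congr 1; funext i; split
      · exact Units.mul_inv _
      · exact one_mul _
    · ext i l
      rw [mul_diagonal, diagonal_mul]
      by_cases hi : i ∈ I
      · by_cases hl : l = c i
        · have : l ≠ i₀ := fun e => (hc i hi).2 (by rw [← hl, e]; exact hi₀)
          subst hl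
          by_cases hii : i = i₀
          · subst hii
            simp [tpl, hi, this, U, mul_assoc]
          · simp [tpl, hi, this, hii]
        · simp [tpl, hi, hl]
      · simp [tpl, hi]

namespace Square

variable {r : ℕ}

/-- The columns of the first factor. -/
def c₁ (hn : n = 2 * r) (i : Fin n) : Fin n :=
  ⟨if i.val % 2 = 0 then i.val + 1 else i.val, by have := i.2; split <;> omega⟩

/-- The columns of the second factor. -/
def c₂ (hn : n = 2 * r) (i : Fin n) : Fin n :=
  ⟨if i.val = 0 then n - 3 else if i.val + 1 = n then n - 2 else min (i.val + 1) (n - 1), by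
    have := i.2; split_ifs <;> omega⟩

/-- The rows of the first factor. -/
def I₁ (n : ℕ) : Finset (Fin n) := Finset.univ.filter fun i => i.val % 2 = 0

/-- The rows of the second factor. -/
def I₂ (n : ℕ) : Finset (Fin n) :=
  Finset.univ.filter fun i => i.val = 0 ∨ i.val + 1 = n ∨ (i.val % 2 = 1 ∧ i.val + 3 < n)

theorem card_I₁ (hn : n = 2 * r) : (I₁ n).card = r := by
  refine (Finset.card_bij' (t := Finset.range r) (fun i _ => i.val / 2)
    (fun j hj => (⟨2 * j, by rw [Finset.mem_range] at hj; omega⟩ : Fin n)) ?_ ?_ ?_ ?_).trans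
    (Finset.card_range r)
  all_goals intro a ha
  all_goals simp only [I₁, Finset.mem_filter, Finset.mem_univ, true_and, Finset.mem_range] at ha ⊢
  all_goals try (refine Fin.ext ?_)
  all_goals try simp only [] at *
  all_goals have := hn
  all_goals omega

theorem card_I₂ (hn : n = 2 * r) (hr : 2 ≤ r) : (I₂ n).card = r := by
  refine (Finset.card_bij' (t := Finset.range r)
    (fun i _ => if i.val + 1 = n then r - 1 else (i.val + 1) / 2)
    (fun j hj => (⟨if j = 0 then 0 else if j + 1 = r then n - 1 else 2 * j - 1, by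
      rw [Finset.mem_range] at hj; split_ifs <;> omega⟩ : Fin n)) ?_ ?_ ?_ ?_).trans
    (Finset.card_range r)
  · intro a ha
    simp only [I₂, Finset.mem_filter, Finset.mem_univ, true_and, Finset.mem_range] at ha ⊢
    split_ifs <;> omega
  · intro j hj
    simp only [I₂, Finset.mem_filter, Finset.mem_univ, true_and, Finset.mem_range] at hj ⊢
    split_ifs <;> omega
  · intro a ha
    simp only [I₂, Finset.mem_filter, Finset.mem_univ, true_and] at ha
    refine Fin.ext ?_
    simp only []
    have := a.2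
    split_ifs <;> omega
  · intro j hj
    simp only [Finset.mem_range] at hj
    simp only []
    split_ifs <;> omega

theorem tpl_zero_apply (I : Finset (Fin n)) (s : Fin n → F) (c : Fin n → Fin n) (i j : Fin n) :
    tpl 0 I s c i j = if i ∈ I ∧ j = c i then s i else 0 := by
  by_cases hi : i ∈ I <;> simp [tpl, hi]

theorem tpl_I₁ (hn : n = 2 * r) (S : Fin n → F) (i j : Fin n) :
    tpl 0 (I₁ n) S (c₁ hn) i j = if i.val % 2 = 0 ∧ j.val = i.val + 1 then S i else 0 := by
  rw [tpl_zero_apply]
  refine if_congr ?_ rfl rfl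
  simp only [I₁, Finset.mem_filter, Finset.mem_univ, true_and, c₁, Fin.ext_iff]
  constructor
  · rintro ⟨h1, h2⟩
    rw [if_pos h1] at h2
    exact ⟨h1, h2⟩
  · rintro ⟨h1, h2⟩
    rw [if_pos h1]
    exact ⟨h1, h2⟩

theorem tpl_I₂ (hn : n = 2 * r) (hr : 2 ≤ r) (S : Fin n → F) {i : Fin n} (hi : i.val + 1 < n) (j : Fin n) :
    tpl 0 (I₂ n) S (c₂ hn) i j = if (i.val = 0 ∧ j.val + 3 = n ∧ 3 ≤ n) ∨
      (i.val % 2 = 1 ∧ i.val + 3 < n ∧ j.val = i.val + 1) then S i else 0 := by
  rw [tpl_zero_apply]
  refine if_congr ?_ rfl rfl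
  simp only [I₂, Finset.mem_filter, Finset.mem_univ, true_and, c₂, Fin.ext_iff]
  have := j.2
  split_ifs
  all_goals simp_all
  all_goals omega

theorem tpl_I₂_c₁ (hn : n = 2 * r) (S : Fin n → F) {i : Fin n} (hi : i.val % 2 = 0)
    (hi' : i.val + 2 < n) (j : Fin n) :
    tpl 0 (I₂ n) S (c₂ hn) (c₁ hn i) j =
      if i.val + 4 < n ∧ j.val = i.val + 2 then S (c₁ hn i) else 0 := by
  rw [tpl_zero_apply]
  refine if_congr ?_ rfl rfl
  simp only [I₂, Finset.mem_filter, Finset.mem_univ, true_and, c₂, c₁, Fin.ext_iff, hi, if_true]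
  have := j.2
  split_ifs
  all_goals simp_all
  all_goals omega

end Square

open Square in
/-- For `D * D = 0` of rank `n / 2` two factors give a split cyclic element with a simple root. -/
theorem exists_splitCyc_square {A : GL (Fin n) F} {r : ℕ} (hA : IsSq A 0 r) (hn : n = 2 * r)
    (hr : 2 ≤ r) (hF : ∃ u : F, u ≠ 0 ∧ u ^ 2 ≠ 1) :
    ∃ (L : GL (Fin n) F) (β : Fin n → F), CovS 2 A L ∧ FullDet L ∧
      SplitCyc (L : Matrix (Fin n) (Fin n) F) β := by
  classical
  obtain ⟨l, hl0, hl1⟩ := hF
  let o : Fin n := ⟨0, by omega⟩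
  let a : Fin n := ⟨n - 2, by omega⟩
  let b : Fin n := ⟨n - 1, by omega⟩
  have hab : b ≠ a := fun e => by simp [a, b] at e; omega
  set t : F := (l - 1) ^ 2 / l with ht
  have ht0 : t ≠ 0 := div_ne_zero (pow_ne_zero _ (sub_ne_zero.2 fun e => hl1 (by rw [e, one_pow]))) hl0
  let s₁ : Fin n → F := fun _ => 1
  let s₂ : Fin n → F := fun i => if i = b then t else 1
  have hc1 : ∀ i ∈ I₁ n, s₁ i ≠ 0 ∧ c₁ hn i ∉ I₁ n := fun i hi => by
    refine ⟨one_ne_zero, fun h => ?_⟩
    simp only [I₁, Finset.mem_filter, Finset.mem_univ, true_and, c₁] at hi h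
    split_ifs at h <;> omega
  have hc2 : ∀ i ∈ I₂ n, s₂ i ≠ 0 ∧ c₂ hn i ∉ I₂ n := fun i hi => by
    refine ⟨by simp only [s₂]; split <;> simp [ht0], fun h => ?_⟩
    simp only [I₂, Finset.mem_filter, Finset.mem_univ, true_and, c₂] at hi h
    split_ifs at h <;> omega
  have hi1 : Set.InjOn (c₁ hn) (I₁ n : Set (Fin n)) := fun i hi j hj e => by
    simp only [I₁, Finset.coe_filter, Finset.mem_univ, true_and, Set.mem_ofPred_eq] at hi hj
    simp only [c₁, Fin.ext_iff, hi, hj, if_true] at e ⊢
    omega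
  have hi2 : Set.InjOn (c₂ hn) (I₂ n : Set (Fin n)) := fun i hi j hj e => by
    simp only [I₂, Finset.coe_filter, Finset.mem_univ, true_and, Set.mem_ofPred_eq] at hi hj
    simp only [c₂, Fin.ext_iff] at e ⊢
    split_ifs at e <;> omega
  obtain ⟨δ₁, hδ₁, h1⟩ := exists_covS_scaled hA hc1 hi1 (card_I₁ hn) (i₀ := o)
    (by simp [I₁, o])
  obtain ⟨δ₂, hδ₂, h2⟩ := exists_covS_scaled hA hc2 hi2 (card_I₂ hn hr) (i₀ := o)
    (by simp [I₂, o])
  obtain ⟨u, hu, hu2⟩ : ∃ u : F, u ≠ 0 ∧ δ₁ + δ₂ * u ^ 2 ≠ 0 := by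
    by_cases h : δ₁ + δ₂ = 0
    · refine ⟨l, hl0, fun e => hl1 ?_⟩
      refine mul_left_cancel₀ hδ₂ ?_
      linear_combination e - h
    · exact ⟨1, one_ne_zero, by simpa using h⟩
  obtain ⟨y₁, hy1, e1⟩ := h1 1 one_ne_zero
  obtain ⟨y₂, hy2, e2⟩ := h2 u hu
  set S₁ := Function.update s₁ o (δ₁ * 1 ^ 2 * s₁ o)
  set S₂ := Function.update s₂ o (δ₂ * u ^ 2 * s₂ o)
  have hS1 : ∀ i, S₁ i = if i = o then δ₁ else 1 := fun i => by
    by_cases h : i = o <;> simp [S₁, s₁, h]
  have hS2 : ∀ i, S₂ i = if i = o then δ₂ * u ^ 2 else if i = b then t else 1 := fun i => by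
    by_cases h : i = o
    · subst h
      have : o ≠ b := fun e => by simp [o, b] at e; omega
      simp [S₂, s₂, this]
    · simp [S₂, s₂, h]
  set L := y₁ * y₂ with hL
  set M := (L : Matrix (Fin n) (Fin n) F) with hM
  -- the entries of the product
  have hmul : ∀ i j, M i j = (if i = j then 1 else 0) + tpl 0 (I₁ n) S₁ (c₁ hn) i j +
      tpl 0 (I₂ n) S₂ (c₂ hn) i j +
      (if i ∈ I₁ n then S₁ i * tpl 0 (I₂ n) S₂ (c₂ hn) (c₁ hn i) j else 0) := by
    intro i j
    rw [hM, hL, Units.val_mul, e1, e2, add_mul, one_mul, mul_add, mul_one, Matrix.add_apply,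
      Matrix.add_apply, Matrix.add_apply, Matrix.one_apply, Matrix.mul_apply]
    have : (∑ k, tpl 0 (I₁ n) S₁ (c₁ hn) i k * tpl 0 (I₂ n) S₂ (c₂ hn) k j) =
        if i ∈ I₁ n then S₁ i * tpl 0 (I₂ n) S₂ (c₂ hn) (c₁ hn i) j else 0 := by
      by_cases hi : i ∈ I₁ n
      · rw [if_pos hi, Finset.sum_eq_single (c₁ hn i)]
        · simp [tpl, hi]
        · intro k _ hk; simp [tpl, hi, hk]
        · simp
      · simp [tpl, hi]
    rw [this]
    ring
  -- the corner conjugation
  let Q : GL (Fin n) F := GeneralLinearGroup.mkOfDetNeZero (transvection b a (l - 1))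
    (by rw [det_transvection_of_ne _ _ hab]; exact one_ne_zero)
  have hQi : (Q⁻¹ : GL (Fin n) F).val = transvection b a (-(l - 1)) := by
    rw [Matrix.coe_units_inv]
    refine Matrix.inv_eq_left_inv ?_
    show transvection b a (-(l - 1)) * transvection b a (l - 1) = 1
    rw [transvection_mul_transvection_same _ _ hab, neg_add_cancel, transvection_zero]
  set X := transvection b a (l - 1) * M * transvection b a (-(l - 1)) with hX
  have hXval : ((Q * L * Q⁻¹ : GL (Fin n) F) : Matrix (Fin n) (Fin n) F) = X := by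
    rw [Units.val_mul, Units.val_mul, hQi]; rfl
  have hXe : ∀ i j, X i j =
      (M i j + if i = b then (l - 1) * M a j else 0) -
        if j = a then (l - 1) * (M i b + if i = b then (l - 1) * M a b else 0) else 0 := by
    intro i j
    rw [hX]
    have hleft : ∀ i' j', (transvection b a (l - 1) * M) i' j' =
        M i' j' + if i' = b then (l - 1) * M a j' else 0 := by
      intro i' j'
      by_cases h : i' = b
      · subst h; rw [transvection_mul_apply_same, if_pos rfl]
      · rw [transvection_mul_apply_of_ne _ _ _ _ h, if_neg h, add_zero]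
    by_cases h : j = a
    · subst h
      rw [mul_transvection_apply_same, hleft, hleft, if_pos rfl]
      ring
    · rw [mul_transvection_apply_of_ne _ _ _ _ h, hleft, if_neg h, sub_zero]
  -- values
  have hev : (n - 2) % 2 = 0 ∧ (n - 1) % 2 = 1 := by omega
  have hMa : ∀ j, M a j = (if a = j then 1 else 0) + (if j = b then 1 else 0) +
      (if j = a then t else 0) := by
    intro j
    have h1 : a ∈ I₁ n := by simp [I₁, a, hev.1]
    have h2 : a ∉ I₂ n := by simp [I₂, a]; omega
    have h3 : c₁ hn a = b := Fin.ext (by simp [c₁, a, b, hev.1]; omega)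
    have h4 : b ∈ I₂ n := by simp [I₂, b]; omega
    have h5 : c₂ hn b = a := Fin.ext (by simp [c₂, a, b]; split_ifs <;> omega)
    have h6 : a ≠ o := fun e => by simp [a, o] at e; omega
    have h7 : b ≠ o := fun e => by simp [b, o] at e; omega
    rw [hmul]
    simp [tpl, h1, h2, h3, h4, h5, hS1, hS2, h6, h7]
  have hMb : ∀ j, M b j = (if b = j then 1 else 0) + (if j = a then t else 0) := by
    intro j
    have h1 : b ∉ I₁ n := by simp [I₁, b, hev.2]
    have h4 : b ∈ I₂ n := by simp [I₂, b]; omega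
    have h5 : c₂ hn b = a := Fin.ext (by simp [c₂, a, b]; split_ifs <;> omega)
    have h7 : b ≠ o := fun e => by simp [b, o] at e; omega
    rw [hmul]
    simp [tpl, h1, h4, h5, hS2, h7]
  have hMlow : ∀ i j : Fin n, i ≠ a → i ≠ b →
      (j.val + 2 ≥ n → M i j = 0) ∧ (j < i → M i j = 0) ∧ (i = j → M i j = 1) ∧
      (i.val + 1 = j.val → j.val + 2 < n → M i j ≠ 0) := by
    intro i j hia hib
    have hi' : i.val + 2 < n := by
      have := i.2
      simp only [a, b, ne_eq, Fin.ext_iff] at hia hib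
      omega
    have e4 : M i j = (if i = j then (1 : F) else 0) +
        (if i.val % 2 = 0 ∧ j.val = i.val + 1 then S₁ i else 0) +
        (if (i.val = 0 ∧ j.val + 3 = n ∧ 3 ≤ n) ∨
          (i.val % 2 = 1 ∧ i.val + 3 < n ∧ j.val = i.val + 1) then S₂ i else 0) +
        (if i.val % 2 = 0 ∧ i.val + 4 < n ∧ j.val = i.val + 2 then S₁ i else 0) := by
      rw [hmul, tpl_I₁ hn, tpl_I₂ hn hr S₂ (by omega)]
      congr 1
      by_cases hi : i.val % 2 = 0
      · have hmem : i ∈ I₁ n := by simp [I₁, hi]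
        have hne0 : c₁ hn i ≠ o := fun e => by simp [c₁, o, hi] at e
        have hneb : c₁ hn i ≠ b := fun e => by simp [c₁, b, hi] at e; omega
        rw [if_pos hmem, tpl_I₂_c₁ hn S₂ hi hi', hS2, if_neg hne0, if_neg hneb, mul_ite, mul_one,
          mul_zero]
        simp only [hi, true_and]
      · have hmem : i ∉ I₁ n := by simp [I₁, hi]
        rw [if_neg hmem, if_neg (fun e => hi e.1)]
    refine ⟨fun hj => ?_, fun hj => ?_, fun hij => ?_, fun hij hj => ?_⟩
    · rw [e4, if_neg (fun e => by rw [e] at hi'; omega), if_neg (by omega), if_neg (by omega),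
        if_neg (by omega)]
      simp
    · have := Fin.lt_def.1 hj
      rw [e4, if_neg (fun e => by rw [e] at this; omega), if_neg (by omega), if_neg (by omega),
        if_neg (by omega)]
      simp
    · subst hij
      rw [e4, if_pos rfl, if_neg (by omega), if_neg (by omega), if_neg (by omega)]
      simp
    · rw [e4, if_neg (fun e => by rw [e] at hij; omega)]
      rw [if_neg (c := i.val % 2 = 0 ∧ i.val + 4 < n ∧ j.val = i.val + 2) (by omega)]
      by_cases hodd : i.val % 2 = 1
      · rw [if_neg (by omega), if_pos (Or.inr ⟨hodd, by omega, hij.symm⟩), hS2,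
          if_neg (fun e => by simp [o, e] at hodd), if_neg hib]
        simp
      · rw [if_pos ⟨by omega, hij.symm⟩, hS1]
        by_cases h0 : i = o
        · subst h0
          by_cases h4 : j.val + 3 = n
          · rw [if_pos rfl, if_pos (Or.inl ⟨rfl, h4, by omega⟩), hS2, if_pos rfl]
            simpa using hu2
          · rw [if_pos rfl, if_neg (by simp only [o]; omega)]
            simpa using hδ₁
        · rw [if_neg h0, if_neg (by simp only [o, Fin.ext_iff] at h0; omega)]
          simp
  have ht1 : 1 + t - (l - 1) = l⁻¹ := by rw [ht]; field_simp; ring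
  have hXa : X a a = l⁻¹ ∧ X a b = 1 := by
    constructor
    · rw [hXe, if_pos rfl, if_neg hab.symm, if_neg hab.symm, hMa, hMa]
      simp [hab, hab.symm]
      linear_combination ht1
    · rw [hXe, if_neg hab, if_neg hab.symm, hMa]
      simp [hab, hab.symm]
  have hXb : X b a = 0 ∧ X b b = l := by
    constructor
    · rw [hXe, if_pos rfl, if_pos rfl, if_pos rfl, hMb, hMa, hMb, hMa]
      simp [hab, hab.symm, ht]
      field_simp
      ring
    · rw [hXe, if_pos rfl, if_neg hab, hMb, hMa]
      simp [hab, hab.symm]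
  have hrows : ∀ i j : Fin n, i ≠ a → i ≠ b → X i j = M i j := fun i j hia hib => by
    rw [hXe, if_neg hib, add_zero, sub_eq_self]
    split_ifs with h
    · rw [(hMlow i b hia hib).1 (by simp [b]; omega)]; simp
    · rfl
  have hXrow : ∀ j, j ≠ a → j ≠ b → X a j = 0 ∧ X b j = 0 := fun j hja hjb => by
    constructor
    · rw [hXe, if_neg hab.symm, if_neg hja, hMa]; simp [hja, hjb, Ne.symm hja]
    · rw [hXe, if_pos rfl, if_neg hja, hMb, hMa]; simp [hja, hjb, Ne.symm hja, Ne.symm hjb]
  have hlinv : l⁻¹ ≠ 1 := fun e => hl1 (by rw [inv_eq_one.1 e, one_pow])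
  have hl' : l ≠ 1 := fun e => hl1 (by rw [e, one_pow])
  have hll : l⁻¹ ≠ l := fun e => hl1 (by rw [sq]; nth_rw 1 [← e]; exact inv_mul_cancel₀ hl0)
  have hdiag : ∀ i, X i i = if i = a then l⁻¹ else if i = b then l else 1 := fun i => by
    by_cases h1 : i = a
    · subst h1; rw [if_pos rfl]; exact hXa.1
    by_cases h2 : i = b
    · subst h2; rw [if_neg h1, if_pos rfl]; exact hXb.2
    rw [hrows i i h1 h2, if_neg h1, if_neg h2]
    exact (hMlow i i h1 h2).2.2.1 rfl
  have hUT : ∀ i j, j < i → X i j = 0 := fun i j hji => by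
    have h' := Fin.lt_def.1 hji
    by_cases h1 : i = a
    · subst h1
      exact (hXrow j hji.ne (fun e => by simp [a, b, e] at h'; omega)).1
    by_cases h2 : i = b
    · subst h2
      by_cases h3 : j = a
      · subst h3; exact hXb.1
      · exact (hXrow j h3 hji.ne).2
    rw [hrows i j h1 h2]
    exact (hMlow i j h1 h2).2.1 hji
  have hX' : SplitCyc X fun i => X i i := by
    refine splitCyc_of_upperTri X hUT fun i j hij e => ?_
    rw [hdiag, hdiag] at e
    have h' := Fin.lt_def.1 hij
    have hja : j ≠ a := by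
      rintro rfl
      have hia : i ≠ a := hij.ne
      have hib : i ≠ b := fun e' => by simp [a, b, e'] at h'; omega
      rw [if_neg hia, if_neg hib, if_pos rfl] at e
      exact hlinv e.symm
    have hjb : j ≠ b := by
      rintro rfl
      rw [if_neg hab, if_pos rfl] at e
      by_cases hia : i = a
      · rw [if_pos hia] at e; exact hll e
      · rw [if_neg hia, if_neg hij.ne] at e; exact hl' e.symm
    have hj2 : j.val + 2 < n := by
      have := j.2
      simp only [a, b, ne_eq, Fin.ext_iff] at hja hjb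
      omega
    let k : Fin n := ⟨j.val - 1, by have := j.2; omega⟩
    have hk : k.val + 1 = j.val := by simp only [k]; omega
    have hka : k ≠ a := fun e' => by simp [k, a] at e'; omega
    have hkb : k ≠ b := fun e' => by simp [k, b] at e'; omega
    refine ⟨k, hk, by rw [hdiag, hdiag, if_neg hka, if_neg hkb, if_neg hja, if_neg hjb], ?_⟩
    rw [hrows k j hka hkb]
    exact (hMlow k j hka hkb).2.2.2 hk hj2
  have hfull : FullDet (Q * L * Q⁻¹) := by
    intro δ
    have hden : l - l⁻¹ ≠ 0 := sub_ne_zero.2 (Ne.symm hll)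
    let v : Fin n → F := fun i => if i = b then 1 else if i = a then (l - l⁻¹)⁻¹ else 0
    let φ : Fin n → F := fun i => if i = b then 1 else 0
    have hXv : X *ᵥ v = l • v := by
      funext i
      rw [mulVec, dotProduct, ← Finset.sum_subset (s₁ := {a, b}) (Finset.subset_univ _)
        (fun k _ hk => by
          simp only [Finset.mem_insert, Finset.mem_singleton, not_or] at hk
          simp [v, hk.1, hk.2]), Finset.sum_pair hab.symm]
      by_cases h1 : i = a
      · subst h1
        simp only [v, hXa, if_true, hab.symm, if_false, Pi.smul_apply, smul_eq_mul]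
        field_simp [hden]
        ring
      by_cases h2 : i = b
      · subst h2
        simp [v, hXb, hab.symm]
      rw [hrows i a h1 h2, hrows i b h1 h2, (hMlow i a h1 h2).1 (by simp [a]; omega),
        (hMlow i b h1 h2).1 (by simp [b]; omega)]
      simp [v, h1, h2]
    have hφX : φ ᵥ* X = l • φ := by
      funext j
      rw [vecMul, dotProduct, Finset.sum_eq_single b (fun k _ hk => by simp [φ, hk]) (by simp)]
      by_cases h2 : j = b
      · subst h2; simp [φ, hXb]
      by_cases h1 : j = a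
      · subst h1; simp [φ, hXb, hab.symm]
      simp [φ, h2, (hXrow j h1 h2).2]
    have hdet : (1 + ((δ : F) - 1) • vecMulVec v φ).det = δ := by
      rw [← smul_vecMulVec, vecMulVec_eq Unit, det_one_add_replicateCol_mul_replicateRow]
      rw [dotProduct, Finset.sum_eq_single b (fun k _ hk => by simp [φ, hk]) (by simp)]
      simp [φ, v]
    have hd0 : (1 + ((δ : F) - 1) • vecMulVec v φ).det ≠ 0 := by rw [hdet]; exact δ.ne_zero
    refine ⟨GeneralLinearGroup.mkOfDetNeZero _ hd0, Units.ext ?_, Units.ext hdet⟩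
    rw [Units.val_mul, Units.val_mul (Q * L * Q⁻¹), hXval]
    show (1 + ((δ : F) - 1) • vecMulVec v φ) * X = X * (1 + ((δ : F) - 1) • vecMulVec v φ)
    rw [add_mul, mul_add, one_mul, mul_one, Matrix.smul_mul, Matrix.mul_smul, vecMulVec_mul, hφX,
      mul_vecMulVec, hXv, vecMulVec_smul, smul_vecMulVec]
  have hback : Q⁻¹ * (Q * L * Q⁻¹) * Q⁻¹⁻¹ = L := by group
  refine ⟨L, fun i => X i i, hy1.mul hy2, ?_, ?_⟩
  · have := fullDet_conj Q⁻¹ hfull
    rwa [hback] at this
  · have := hX'.conj Q⁻¹
    rw [← hXval, ← Units.val_mul, ← Units.val_mul, hback] at this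
    rw [← hXval]
    exact this

/-- Four factors cover the non-scalar elements. -/
theorem covS_four_square {A : GL (Fin n) F} {r : ℕ} (hSour : SourourCyc F n) (hA : IsSq A 0 r)
    (hn : n = 2 * r) (hr : 2 ≤ r) (hF : ∃ u : F, u ≠ 0 ∧ u ^ 2 ≠ 1) (B : GL (Fin n) F)
    (hB : NonScalar B) (hdet : GeneralLinearGroup.det B = GeneralLinearGroup.det A ^ 4) :
    CovS 4 A B := by
  obtain ⟨L₀, β, h, hc, h₀⟩ := exists_splitCyc_square hA hn hr hF
  have hdet0 : (L₀ : Matrix (Fin n) (Fin n) F).det = ∏ i, β i := by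
    rw [det_eq_sign_charpoly_coeff, h₀.2, Polynomial.coeff_zero_eq_eval_zero, Polynomial.eval_prod]
    simp [Finset.prod_neg, ← mul_assoc, ← pow_add, Fintype.card_fin]
  have hβ : ∀ i, β i ≠ 0 := fun i e => by
    refine (GeneralLinearGroup.det L₀).ne_zero ?_
    show (L₀ : Matrix (Fin n) (Fin n) F).det = 0
    rw [hdet0]
    exact Finset.prod_eq_zero (Finset.mem_univ i) e
  obtain ⟨L, U, rfl, hL, hU⟩ := hSour B hB β β hβ hβ (by
    have h1 := congrArg (fun v : Fˣ => (v : F)) hdet
    rw [show (4 : ℕ) = 2 + 2 from rfl, pow_add, ← h.cov.det_eq] at h1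
    simpa [hdet0] using h1)
  exact (covS_of_splitCyc' h hc h₀ hL).mul (covS_of_splitCyc' h hc h₀ hU)

end CfsgLib.PSLCover
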