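import Cfsg.Agent.Lib.PSLCover.QuadBasic

/-!
A split cyclic product of `(n - 2) / r + 1` conjugates of `1 + D`, for `2 ≤ r ≤ n / 2`, outside the case
`D * D = 0`, `n = 2 r`.
-/

set_option autoImplicit false
set_option linter.unusedSectionVars false

namespace CfsgLib.PSLCover

open Matrix

variable {F : Type*} [Field F] [DecidableEq F]

namespace Template

variable (n r : ℕ)

/-- The factors before the last. -/
def m : ℕ := (n - 2) / r

/-- The superdiagonal places of the last factor. -/
def p : ℕ := n - 1 - m n r * r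

/-- The places of the earlier factors, increasing. -/
def pos (t : ℕ) : ℕ :=
  if t < n - 1 - 2 * p n r then t else n - 2 * p n r + 2 * (t - (n - 1 - 2 * p n r))

/-- The `t`-th place of factor `k`. -/
def place (k t : ℕ) : ℕ := pos n r (k + t * m n r)

variable {n r}

structure Range (n r : ℕ) : Prop where
  two : 2 ≤ r
  le : 2 * r ≤ n

theorem Range.facts (h : Range n r) : 1 ≤ m n r ∧ 1 ≤ p n r ∧ p n r ≤ r ∧
    m n r * r + p n r = n - 1 ∧ 2 * p n r ≤ n - 1 ∧ (m n r = 1 → n - 1 - 2 * p n r ≤ 1) := by
  have h1 := h.two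
  have h2 := h.le
  have h3 := Nat.div_add_mod (n - 2) r
  have h4 := Nat.mod_lt (n - 2) (by omega : r > 0)
  have hm : 1 ≤ m n r := Nat.div_pos (by omega) (by omega)
  have hmr : r ≤ m n r * r := Nat.le_mul_of_pos_left _ hm
  rw [Nat.mul_comm] at h3
  simp only [m, p] at *
  refine ⟨hm, by omega, by omega, by omega, by omega, fun e => ?_⟩
  rw [e, one_mul] at h3 ⊢
  omega

theorem Range.pos_mono (h : Range n r) {a b : ℕ} (hab : a < b) : pos n r a < pos n r b := by
  obtain ⟨_, _, _, _, _, _⟩ := h.facts
  unfold pos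
  split_ifs <;> omega

theorem Range.pos_gap (h : Range n r) {a : ℕ} {d : ℕ} (hd : 1 ≤ d)
    (hd' : d = 1 → n - 1 - 2 * p n r ≤ 1) : pos n r a + 2 ≤ pos n r (a + d) := by
  obtain ⟨_, _, _, _, _, _⟩ := h.facts
  unfold pos
  split_ifs <;> omega

theorem Range.pos_lt (h : Range n r) {a : ℕ} (ha : a < m n r * r) : pos n r a + 2 ≤ n := by
  obtain ⟨_, _, _, _, _, _⟩ := h.facts
  unfold pos
  split_ifs <;> omega

theorem Range.place_gap (h : Range n r) {k t t' : ℕ} (ht : t < t') :
    place n r k t + 2 ≤ place n r k t' := by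
  obtain ⟨hm, -, -, -, -, h1⟩ := h.facts
  obtain ⟨d, rfl⟩ : ∃ d, t' = t + 1 + d := ⟨t' - t - 1, by omega⟩
  rw [place, place, show k + (t + 1 + d) * m n r = k + t * m n r + (m n r + d * m n r) by ring]
  refine h.pos_gap (by omega) fun e => h1 ?_
  omega

theorem Range.place_lt (h : Range n r) {k t : ℕ} (hk : k < m n r) (ht : t < r) :
    place n r k t + 2 ≤ n :=
  h.pos_lt (by
    calc k + t * m n r < m n r + t * m n r := Nat.add_lt_add_right hk _
      _ = (t + 1) * m n r := by ring
      _ ≤ r * m n r := Nat.mul_le_mul_right _ ht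
      _ = m n r * r := Nat.mul_comm _ _)

/-- The places of the last factor that no earlier factor has. -/
def InTop (n r i : ℕ) : Prop := ∃ t, 1 ≤ t ∧ t ≤ p n r ∧ i + 1 + 2 * t = n

theorem Range.cover (h : Range n r) {i : ℕ} (hi : i + 2 ≤ n) (hP : ¬ InTop n r i) :
    ∃ k t, k < m n r ∧ t < r ∧ place n r k t = i ∧
      ∀ k' t', k' < m n r → t' < r → place n r k' t' = i → k' = k := by
  obtain ⟨hm, hp, -, he, hp2, -⟩ := h.facts
  obtain ⟨a, ha, hai⟩ : ∃ a, a < m n r * r ∧ pos n r a = i := by
    by_cases h1 : i < n - 1 - 2 * p n r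
    · exact ⟨i, by omega, by rw [pos, if_pos h1]⟩
    · have hev : (n - i) % 2 = 0 := by
        by_contra hodd
        exact hP ⟨(n - i - 1) / 2, by omega, by omega, by omega⟩
      refine ⟨n - 1 - 2 * p n r + (i - (n - 2 * p n r)) / 2, by omega, ?_⟩
      rw [pos, if_neg (by omega)]
      omega
  refine ⟨a % m n r, a / m n r, Nat.mod_lt _ hm, Nat.div_lt_of_lt_mul ha, ?_, fun k' t' hk' _ he' => ?_⟩
  · rw [place, Nat.mul_comm (a / m n r), Nat.mod_add_div, hai]
  · have : k' + t' * m n r = a := by
      rcases lt_trichotomy (k' + t' * m n r) a with h1 | h1 | h1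
      · exact absurd (he'.trans hai.symm) (h.pos_mono h1).ne
      · exact h1
      · exact absurd (he'.trans hai.symm) (h.pos_mono h1).ne'
    rw [← this, Nat.add_mul_mod_self_right, Nat.mod_eq_of_lt hk']

theorem Range.not_top (h : Range n r) {k t : ℕ} : ¬ InTop n r (place n r k t) := by
  rintro ⟨u, hu, hup, he⟩
  obtain ⟨_, _, _, _, _, _⟩ := h.facts
  unfold place pos at he
  split_ifs at he <;> omega

variable (n r)

/-- The rows of the last factor. -/
def lastRow (γ : F) (t : ℕ) : ℕ :=
  if γ = 0 ∨ t < p n r then n - 3 - 2 * t else if t = p n r then n - 1 else t - p n r - 1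

variable {n r}

theorem Range.lastRow_lt (h : Range n r) (γ : F) {t : ℕ} (ht : t < r) : lastRow n r γ t < n := by
  obtain ⟨_, _, _, _, _, _⟩ := h.facts
  have := h.two
  have := h.le
  unfold lastRow
  split_ifs <;> omega

theorem Range.lastRow_inj (h : Range n r) {γ : F} (hγ : γ = 0 → 2 * r < n) {t t' : ℕ} (ht : t < r)
    (ht' : t' < r) (e : lastRow n r γ t = lastRow n r γ t') : t = t' := by
  obtain ⟨_, _, _, _, _, _⟩ := h.facts
  have := h.two
  have := h.le
  by_cases hg : γ = 0
  · have := hγ hg
    simp only [lastRow, hg, true_or, if_true] at e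
    omega
  · simp only [lastRow, hg, false_or] at e
    split_ifs at e <;> omega

/-- The row set of factor `k`. -/
noncomputable def rows (h : Range n r) (γ : F) (k : Fin (m n r + 1)) : Finset (Fin n) :=
  Finset.univ.image fun t : Fin r =>
    if hk : k.val < m n r then ⟨place n r k t, by have := h.place_lt hk t.2; omega⟩
    else ⟨lastRow n r γ t, h.lastRow_lt γ t.2⟩

theorem mem_rows {h : Range n r} {γ : F} {k : Fin (m n r + 1)} {i : Fin n} :
    i ∈ rows h γ k ↔ ∃ t, t < r ∧
      (if k.val < m n r then place n r k t else lastRow n r γ t) = i.val := by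
  simp only [rows, Finset.mem_image, Finset.mem_univ, true_and]
  constructor
  · rintro ⟨t, rfl⟩
    refine ⟨t, t.2, ?_⟩
    split <;> rfl
  · rintro ⟨t, ht, e⟩
    refine ⟨⟨t, ht⟩, Fin.ext ?_⟩
    rw [← e]
    split <;> rfl

theorem card_rows (h : Range n r) {γ : F} (hγ : γ = 0 → 2 * r < n) (k : Fin (m n r + 1)) :
    (rows h γ k).card = r := by
  rw [rows, Finset.card_image_of_injective, Finset.card_univ, Fintype.card_fin]
  intro t t' e
  by_cases hk : k.val < m n r
  · simp only [dif_pos hk, Fin.mk.injEq] at e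
    refine Fin.ext ?_
    rcases lt_trichotomy t.val t'.val with h1 | h1 | h1
    · have := h.place_gap (k := k.val) h1; omega
    · exact h1
    · have := h.place_gap (k := k.val) h1; omega
  · simp only [dif_neg hk, Fin.mk.injEq] at e
    exact Fin.ext (h.lastRow_inj hγ t.2 t'.2 e)

/-- The entry beside row `i` in factor `k`. -/
noncomputable def val (n r : ℕ) (γ w : F) (k : Fin (m n r + 1)) (i : Fin n) : F := by
  classical
  exact if k.val < m n r then 1 else if InTop n r i then 1 else if γ = 0 then w else 0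

/-- The next index. -/
def nxt (i : Fin n) : Fin n := ⟨min (i.val + 1) (n - 1), by have := i.2; omega⟩

theorem val_ne_zero_top {γ w : F} {k : Fin (m n r + 1)} {i : Fin n} (hγ : γ ≠ 0)
    (hk : ¬ k.val < m n r) (hne : val n r γ w k i ≠ 0) : InTop n r i := by
  classical
  by_contra h
  simp [val, hk, h, hγ] at hne

theorem row_cases (h : Range n r) {γ w : F} (hγ : γ = 0 → 2 * r < n) {k : Fin (m n r + 1)}
    {i : Fin n} (hi : i ∈ rows h γ k) :
    val n r γ w k i = 0 ∨ i.val + 2 ≤ n ∧ nxt i ∉ rows h γ k := by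
  classical
  obtain ⟨_, _, _, _, _, _⟩ := h.facts
  obtain ⟨t, ht, hti⟩ := mem_rows.1 hi
  by_cases hk : k.val < m n r
  · rw [if_pos hk] at hti
    have hlt := h.place_lt hk ht
    refine Or.inr ⟨by omega, fun hc => ?_⟩
    obtain ⟨t', ht', hti'⟩ := mem_rows.1 hc
    rw [if_pos hk] at hti'
    simp only [nxt] at hti'
    rcases lt_trichotomy t t' with h1 | h1 | h1
    · have := h.place_gap (k := k.val) h1; omega
    · subst h1; omega
    · have := h.place_gap (k := k.val) h1; omega
  · rw [if_neg hk] at hti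
    by_cases hne : val n r γ w k i = 0
    · exact Or.inl hne
    by_cases hg : γ = 0
    · subst hg
      have := hγ rfl
      simp only [lastRow, true_or, if_true] at hti
      refine Or.inr ⟨by omega, fun hc => ?_⟩
      obtain ⟨t', ht', hti'⟩ := mem_rows.1 hc
      rw [if_neg hk] at hti'
      simp only [nxt, lastRow, true_or, if_true] at hti'
      omega
    · obtain ⟨u, hu1, hu2, hu3⟩ := val_ne_zero_top hg hk hne
      refine Or.inr ⟨by omega, fun hc => ?_⟩
      obtain ⟨t', ht', hti'⟩ := mem_rows.1 hc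
      rw [if_neg hk] at hti'
      simp only [nxt, lastRow, hg, false_or] at hti'
      have := h.le
      split_ifs at hti' <;> omega

theorem nxt_eq {i i' : Fin n} (h : i.val + 1 = i'.val) : nxt i = i' :=
  Fin.ext (by simp only [nxt]; have := i'.2; omega)

theorem nxt_injOn {i i' : Fin n} (h : i.val + 2 ≤ n) (h' : i'.val + 2 ≤ n) (e : nxt i = nxt i') :
    i = i' := by
  simp only [nxt, Fin.ext_iff] at e ⊢
  omega

theorem mem_top (h : Range n r) {γ : F} {i : Fin n} (hP : InTop n r i.val) {k : Fin (m n r + 1)} :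
    i ∈ rows h γ k ↔ ¬ k.val < m n r := by
  obtain ⟨_, _, _, _, _, _⟩ := h.facts
  constructor
  · intro hi hk
    obtain ⟨t, -, e⟩ := mem_rows.1 hi
    rw [if_pos hk] at e
    exact h.not_top (e ▸ hP)
  · intro hk
    obtain ⟨u, hu1, hu2, hu3⟩ := hP
    refine mem_rows.2 ⟨u - 1, by omega, ?_⟩
    rw [if_neg hk, lastRow, if_pos (Or.inr (by omega))]
    omega

/-- A split cyclic element reached by `(n - 2) / r + 1` factors. -/
theorem exists_splitCyc {A : GL (Fin n) F} {γ : F} (hA : IsSq A γ r) (h : Range n r)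
    (hγ : γ = 0 → 2 * r < n) (hF : ∃ w : F, w ≠ 0 ∧ 1 + w ≠ 0) :
    ∃ (L : GL (Fin n) F) (β : Fin n → F), Cov ((n - 2) / r + 1) A L ∧
      SplitCyc (L : Matrix (Fin n) (Fin n) F) β := by
  classical
  obtain ⟨w, hw, hw1⟩ := hF
  have hγ1 : 1 + γ ≠ 0 := hA.add_one_ne_zero (by have := h.two; omega)
  obtain ⟨-, hp1, hpr, hmp, hp2, -⟩ := h.facts
  set M := m n r with hM
  have hsep : ∀ (k : Fin (M + 1)), ∀ i ∈ rows h γ k, val n r γ w k i ≠ 0 → nxt i ∉ rows h γ k :=
    fun k i hi hne => ((row_cases h hγ hi).resolve_left hne).2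
  have hval0 : γ = 0 → ∀ (k : Fin (M + 1)) i, val n r γ w k i ≠ 0 := fun hg k i => by
    unfold val
    split_ifs <;> first | exact one_ne_zero | exact hw
  have hcond : ∀ k : Fin (M + 1),
      γ ≠ 0 ∧ (∀ i ∈ rows h γ k, val n r γ w k i ≠ 0 → nxt i ∉ rows h γ k) ∨
      (∀ i ∈ rows h γ k, val n r γ w k i ≠ 0 ∧ nxt i ∉ rows h γ k) ∧ Set.InjOn nxt (rows h γ k : Set (Fin n)) := by
    intro k
    by_cases hg : γ = 0
    · refine Or.inr ⟨fun i hi => ⟨hval0 hg k i, hsep k i hi (hval0 hg k i)⟩, fun a ha b hb e => ?_⟩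
      exact nxt_injOn ((row_cases h hγ ha).resolve_left (hval0 hg k a)).1
        ((row_cases h hγ hb).resolve_left (hval0 hg k b)).1 e
    · exact Or.inl ⟨hg, hsep k⟩
  let y : Fin (M + 1) → GL (Fin n) F := fun k => sqUnit _ (tpl_sq (hsep k)) hγ1
  have hy : ∀ k, IsSq (y k) γ r := fun k => by
    have := isSq_sqUnit_tpl (hcond k) (tpl_sq (hsep k)) hγ1
    rwa [card_rows h hγ k] at this
  choose g hg using fun k => hA.exists_conj (hy k)
  let f : Fin (M + 1) → Matrix (Fin n) (Fin n) F := fun k =>
    1 + tpl γ (rows h γ k) (val n r γ w k) nxt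
  have hL : (((List.ofFn y).prod : GL (Fin n) F) : Matrix (Fin n) (Fin n) F) = (List.ofFn f).prod := by
    have h1 := map_list_prod (Units.coeHom (Matrix (Fin n) (Fin n) F)) (List.ofFn y)
    rw [List.map_ofFn] at h1
    exact h1
  -- the entries of the factors
  have fdiag : ∀ k l, f k l l = 1 + if l ∈ rows h γ k then γ else 0 := by
    intro k l
    simp only [f, Matrix.add_apply, Matrix.one_apply_eq, tpl, of_apply]
    by_cases hl : l ∈ rows h γ k
    · simp only [if_pos hl, if_true]
      by_cases hc : l = nxt l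
      · rw [if_pos hc]
        by_cases hv : val n r γ w k l = 0
        · rw [hv, add_zero]
        · exact absurd hl (hc ▸ hsep k l hl hv)
      · rw [if_neg hc, add_zero]
    · rw [if_neg hl, if_neg hl]
  have fut : ∀ k, IsUT (f k) := fun k i j hij => by
    simp only [f, Matrix.add_apply, Matrix.one_apply_ne hij.ne', zero_add, tpl, of_apply]
    by_cases hi : i ∈ rows h γ k
    · rw [if_pos hi, if_neg hij.ne, zero_add, if_neg]
      intro e
      have h1 := Fin.lt_def.1 hij
      have h2 := i.2
      simp only [e, nxt] at h1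
      omega
    · rw [if_neg hi]
  have fsup : ∀ k (i i' : Fin n), i.val + 1 = i'.val →
      f k i i' = if i ∈ rows h γ k then val n r γ w k i else 0 := by
    intro k i i' hii
    have hne : i ≠ i' := fun e => by rw [e] at hii; omega
    simp only [f, Matrix.add_apply, Matrix.one_apply_ne hne, zero_add, tpl, of_apply,
      if_neg (Ne.symm hne), nxt_eq hii, if_true]
  -- which factors contain a row
  have hone : ∀ i : Fin n, i.val + 2 ≤ n → ¬ InTop n r i → ∃ k₀ : Fin (M + 1), k₀.val < M ∧
      ∀ k : Fin (M + 1), k.val < M → (i ∈ rows h γ k ↔ k = k₀) := by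
    intro i hi hP
    obtain ⟨k, t, hk, ht, hkt, huniq⟩ := h.cover hi hP
    refine ⟨⟨k, by omega⟩, hk, fun k' hk' => ⟨fun hmem => ?_, ?_⟩⟩
    · obtain ⟨t', ht', hti⟩ := mem_rows.1 hmem
      rw [if_pos hk'] at hti
      exact Fin.ext (huniq _ t' hk' ht' hti)
    · rintro rfl
      exact mem_rows.2 ⟨t, ht, by rw [if_pos hk']; exact hkt⟩
  have hlast : ∀ k : Fin (M + 1), ¬ k.val < M → k = Fin.last M := fun k hk =>
    Fin.ext (by simp only [Fin.val_last]; have := k.2; omega)
  -- a superdiagonal entry is not zero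
  have hsuper : ∀ i i' : Fin n, i.val + 1 = i'.val → (List.ofFn f).prod i i' ≠ 0 := by
    intro i i' hii
    have hi : i.val + 2 ≤ n := by have := i'.2; omega
    obtain ⟨-, -, -, h4, h5⟩ := isUT_prod i i' hii (M + 1) f fut
    by_cases hg0 : γ = 0
    · rw [h4 fun a => ⟨by simp [fdiag, hg0], by simp [fdiag, hg0]⟩]
      by_cases hP : InTop n r i
      · rw [Finset.sum_eq_single (Fin.last M)]
        · rw [fsup _ _ _ hii, if_pos ((mem_top h hP).2 (by simp [hM]))]
          exact hval0 hg0 _ _
        · intro k _ hk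
          rw [fsup _ _ _ hii, if_neg fun e => hk (hlast k ((mem_top h hP).1 e))]
        · simp
      · obtain ⟨k₀, hk₀, hkk⟩ := hone i hi hP
        have hne : k₀ ≠ Fin.last M := fun e => by rw [e] at hk₀; simp at hk₀
        rw [← Finset.sum_subset (s₁ := {k₀, Fin.last M}) (Finset.subset_univ _),
          Finset.sum_pair hne, fsup _ _ _ hii, fsup _ _ _ hii, if_pos ((hkk k₀ hk₀).2 rfl)]
        · have e1 : val n r γ w k₀ i = 1 := by simp [val, ← hM, hk₀]
          have e2 : val n r γ w (Fin.last M) i = w := by simp [val, ← hM, hP, hg0]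
          rw [e1, e2]
          split_ifs
          · exact hw1
          · simp
        · intro k _ hk
          simp only [Finset.mem_insert, Finset.mem_singleton, not_or] at hk
          rw [fsup _ _ _ hii, if_neg]
          exact fun e => hk.1 ((hkk k (by by_contra h'; exact hk.2 (hlast k h'))).1 e)
    · refine h5 (fun a l => ?_) ?_
      · rw [fdiag]; split_ifs <;> simp [hγ1]
      · by_cases hP : InTop n r i
        · refine ⟨Fin.last M, ?_, fun k hk => ?_⟩
          · show f _ i i' ≠ 0
            rw [fsup _ _ _ hii, if_pos ((mem_top h hP).2 (by simp [hM]))]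
            simp [val, ← hM, hP]
          · refine hlast k ((mem_top (γ := γ) h hP).1 ?_)
            by_contra e
            exact hk (by show f k i i' = 0; rw [fsup _ _ _ hii, if_neg e])
        · obtain ⟨k₀, hk₀, hkk⟩ := hone i hi hP
          refine ⟨k₀, ?_, fun k hk => ?_⟩
          · show f _ i i' ≠ 0
            rw [fsup _ _ _ hii, if_pos ((hkk k₀ hk₀).2 rfl)]
            simp [val, ← hM, hk₀]
          · have hmem : i ∈ rows h γ k := by
              by_contra e
              exact hk (by show f k i i' = 0; rw [fsup _ _ _ hii, if_neg e])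
            replace hk : f k i i' ≠ 0 := hk
            rw [fsup _ _ _ hii, if_pos hmem] at hk
            exact (hkk k (by by_contra h'; exact hP (val_ne_zero_top hg0 h' hk))).1 hmem
  -- equal diagonal entries are contiguous
  let cnt : Fin n → ℕ := fun l =>
    if l.val + 2 ≤ n then (if l.val + 1 + p n r < r then 2 else 1) else (if p n r < r then 1 else 0)
  have hdiag : ∀ l, γ ≠ 0 → ∏ k, f k l l = (1 + γ) ^ cnt l := by
    intro l hg0
    simp only [fdiag]
    have e : ∀ k, (1 + if l ∈ rows h γ k then γ else 0) =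
        if l ∈ rows h γ k then 1 + γ else 1 := fun k => by split <;> simp
    rw [Finset.prod_congr rfl fun k _ => e k, Finset.prod_ite, Finset.prod_const_one, mul_one,
      Finset.prod_const]
    congr 1
    have hlm : l ∈ rows h γ (Fin.last M) ↔
        InTop n r l ∨ (p n r < r ∧ (l.val + 1 + p n r < r ∨ l.val + 1 = n)) := by
      rw [mem_rows]
      simp only [Fin.val_last, ← hM, lt_irrefl, if_false]
      simp only [lastRow, hg0, false_or]
      constructor
      · rintro ⟨t, ht, e⟩
        split_ifs at e with h1 h2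
        · exact Or.inl ⟨t + 1, by omega, by omega, by omega⟩
        · exact Or.inr ⟨by omega, Or.inr (by omega)⟩
        · exact Or.inr ⟨by omega, Or.inl (by omega)⟩
      · rintro (⟨u, hu1, hu2, hu3⟩ | ⟨h1, h2 | h2⟩)
        · exact ⟨u - 1, by omega, by rw [if_pos (by omega)]; omega⟩
        · exact ⟨l.val + 1 + p n r, by omega, by rw [if_neg (by omega), if_neg (by omega)]; omega⟩
        · exact ⟨p n r, h1, by rw [if_neg (lt_irrefl _), if_pos rfl]; omega⟩
    by_cases hl : l.val + 2 ≤ n
    · by_cases hP : InTop n r l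
      · have : ¬ l.val + 1 + p n r < r := by
          obtain ⟨u, hu1, hu2, hu3⟩ := hP
          have := h.le
          omega
        simp only [cnt, if_pos hl, if_neg this]
        rw [Finset.card_eq_one]
        refine ⟨Fin.last M, Finset.ext fun k => ?_⟩
        rw [Finset.mem_filter, Finset.mem_singleton]
        exact ⟨fun e => hlast k ((mem_top h hP).1 e.2), fun e => ⟨Finset.mem_univ _,
          e ▸ (mem_top h hP).2 (by simp [hM])⟩⟩
      · obtain ⟨k₀, hk₀, hkk⟩ := hone l hl hP
        have hne : k₀ ≠ Fin.last M := fun e => by rw [e] at hk₀; simp at hk₀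
        simp only [cnt, if_pos hl]
        by_cases h2 : l.val + 1 + p n r < r
        · rw [if_pos h2, Finset.card_eq_two]
          refine ⟨k₀, Fin.last M, hne, Finset.ext fun k => ?_⟩
          simp only [Finset.mem_filter, Finset.mem_univ, true_and, Finset.mem_insert,
            Finset.mem_singleton]
          refine ⟨fun e => ?_, ?_⟩
          · by_cases h' : k.val < M
            · exact Or.inl ((hkk k h').1 e)
            · exact Or.inr (hlast k h')
          · rintro (rfl | rfl)
            · exact (hkk _ hk₀).2 rfl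
            · exact hlm.2 (Or.inr ⟨by omega, Or.inl h2⟩)
        · rw [if_neg h2, Finset.card_eq_one]
          refine ⟨k₀, Finset.ext fun k => ?_⟩
          simp only [Finset.mem_filter, Finset.mem_univ, true_and, Finset.mem_singleton]
          refine ⟨fun e => ?_, fun e => e ▸ (hkk _ hk₀).2 rfl⟩
          by_cases h' : k.val < M
          · exact (hkk k h').1 e
          · rw [hlast k h'] at e
            rcases hlm.1 e with h3 | ⟨-, h3 | h3⟩
            exacts [absurd h3 hP, absurd h3 h2, absurd h3 (by omega)]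
    · have hl' : l.val + 1 = n := by have := l.2; omega
      have hnt : ¬ InTop n r l := by rintro ⟨u, hu1, hu2, hu3⟩; omega
      have hearly : ∀ k : Fin (M + 1), k.val < M → l ∉ rows h γ k := by
        intro k hk hmem
        obtain ⟨t, ht, e⟩ := mem_rows.1 hmem
        rw [if_pos hk] at e
        have := h.place_lt hk ht
        omega
      simp only [cnt, if_neg hl]
      by_cases h2 : p n r < r
      · rw [if_pos h2, Finset.card_eq_one]
        refine ⟨Fin.last M, Finset.ext fun k => ?_⟩
        simp only [Finset.mem_filter, Finset.mem_univ, true_and, Finset.mem_singleton]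
        refine ⟨fun e => hlast k fun h' => hearly k h' e, fun e => e ▸ hlm.2 (Or.inr ⟨h2, Or.inr hl'⟩)⟩
      · rw [if_neg h2, Finset.card_eq_zero, Finset.filter_eq_empty_iff]
        intro k _ e
        by_cases h' : k.val < M
        · exact hearly k h' e
        · rw [hlast k h'] at e
          rcases hlm.1 e with h3 | ⟨h3, -⟩
          exacts [hnt h3, h2 h3]
  have hnz : ∀ l l' : Fin n, l.val + 1 = l'.val → l'.val < n := fun l l' _ => l'.2
  have hlink : ∀ i j : Fin n, i < j →
      (List.ofFn f).prod i i = (List.ofFn f).prod j j → ∃ k : Fin n, k.val + 1 = j.val ∧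
        (List.ofFn f).prod k k = (List.ofFn f).prod j j ∧ (List.ofFn f).prod k j ≠ 0 := by
    intro i j hij e
    have hij' := Fin.lt_def.1 hij
    let k : Fin n := ⟨j.val - 1, by have := j.2; omega⟩
    have hk : k.val + 1 = j.val := by simp only [k]; omega
    refine ⟨k, hk, ?_, hsuper k j hk⟩
    obtain ⟨-, h2, -⟩ := isUT_prod k j hk (M + 1) f fut
    rw [h2, h2] at e ⊢
    by_cases hg0 : γ = 0
    · simp [fdiag, hg0]
    rw [hdiag _ hg0, hdiag _ hg0] at e ⊢
    have hstep : ∀ a : ℕ, (1 + γ) ^ (a + 1) = (1 + γ) ^ a → False := fun a ea => by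
      rw [pow_succ, mul_eq_left₀ (pow_ne_zero _ hγ1)] at ea
      exact hg0 (by linear_combination ea)
    have hj := j.2
    -- the counts are monotone and equal values are adjacent counts
    have hmono : cnt j ≤ cnt k ∧ cnt k ≤ cnt i ∧ cnt i ≤ cnt j + 1 := by
      have := h.le
      simp only [cnt, k]
      split_ifs <;> omega
    suffices hki : cnt i = cnt j by rw [show cnt k = cnt j by omega]
    by_contra hne
    exact hstep (cnt j) (by rw [show cnt j + 1 = cnt i by omega]; exact e)
  refine ⟨(List.ofFn y).prod, fun l => (List.ofFn f).prod l l, ⟨g, ?_⟩, ?_⟩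
  · congr 1
    exact congrArg List.ofFn (funext hg)
  · rw [hL]
    refine splitCyc_of_upperTri _ ?_ hlink
    have hn : 2 ≤ n := by have := h.two; have := h.le; omega
    exact (isUT_prod ⟨0, by omega⟩ ⟨1, by omega⟩ rfl (M + 1) f fut).1

end Template

end CfsgLib.PSLCover
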