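import Cfsg.Agent.Lib.PSLCover.Sourour
import Cfsg.Agent.Lib.PSLCover.QuadTemplate
import Cfsg.Agent.Lib.PSLCover.QuadSquare
import Cfsg.Agent.Lib.PSLCover.QuadScalar

/-!
Covering number for matrices with quadratic minimal polynomial split over the field.
-/

set_option autoImplicit false
set_option linter.unusedSectionVars false

namespace CfsgLib.PSLCover

open Matrix Module

variable {F : Type*} [Field F] {n : ℕ}

/-- The rank of `D` and of `D - γ` add up to `n`. -/
theorem mrank_sub_scalar {γ : F} (hγ : γ ≠ 0) {D : Matrix (Fin n) (Fin n) F} (h : D * D = γ • D) :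
    mrank D + mrank (D - γ • 1) = n := by
  have hsq : ∀ v, toLin' D (toLin' D v) = γ • toLin' D v := fun v => by
    rw [toLin'_apply, toLin'_apply, mulVec_mulVec, h, smul_mulVec]
  have hr : LinearMap.range (toLin' (D - γ • 1)) = LinearMap.ker (toLin' D) := by
    refine le_antisymm ?_ ?_
    · rintro _ ⟨v, rfl⟩
      simp [mulVec_sub, mulVec_mulVec, h, smul_mulVec, mulVec_smul]
    · intro v hv
      refine ⟨-γ⁻¹ • v, ?_⟩
      rw [LinearMap.mem_ker, toLin'_apply] at hv
      simp [hv, smul_smul, hγ, mulVec_neg, mulVec_smul]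
  rw [mrank, mrank, hr, LinearMap.finrank_range_add_finrank_ker, finrank_fin_fun]

theorem two_mrank_le {D : Matrix (Fin n) (Fin n) F} (h : D * D = 0) : 2 * mrank D ≤ n := by
  have hle : LinearMap.range (toLin' D) ≤ LinearMap.ker (toLin' D) := by
    rintro _ ⟨v, rfl⟩
    rw [LinearMap.mem_ker, toLin'_apply, toLin'_apply, mulVec_mulVec, h, zero_mulVec]
  have h1 := Submodule.finrank_mono hle
  have h2 := (toLin' D).finrank_range_add_finrank_ker
  rw [finrank_fin_fun] at h2
  rw [mrank]
  omega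

variable [Fintype F]

/-- The normalised statement. -/
theorem covS_of_isSq (h4 : 4 ≤ Fintype.card F) (hn : 3 ≤ n) {A : GL (Fin n) F} {γ : F} {r : ℕ}
    (hA : IsSq A γ r) (hns : NonScalar A) (hr : 1 ≤ r) (hrn : 2 * r ≤ n) :
    (∀ B, NonScalar B → GeneralLinearGroup.det B = GeneralLinearGroup.det A ^ n → CovS n A B) ∧
      ∃ (z : F) (Z : GL (Fin n) F),
        (Z : Matrix (Fin n) (Fin n) F) = z • 1 ∧ CovS n A Z := by
  classical
  have hSour : SourourCyc F n := fun B hB β δ hb hc hdet =>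
    exists_splitCyc_mul hn h4 B hB β δ hb hc hdet
  obtain ⟨c, hc0, hc1, hc2⟩ : ∃ c : F, c ≠ 0 ∧ c ≠ 1 ∧ c ≠ -1 := by
    by_contra! h
    have : (Finset.univ : Finset F) ⊆ {0, 1, -1} := fun x _ => by
      by_cases h0 : x = 0
      · simp [h0]
      by_cases h1 : x = 1
      · simp [h1]
      simp [h x h0 h1]
    have h3 := Finset.card_le_card this
    rw [Finset.card_univ] at h3
    have := Finset.card_le_three (a := (0 : F)) (b := 1) (c := -1)
    omega
  have hF : ∃ c : F, c ≠ 0 ∧ c ≠ 1 := ⟨c, hc0, hc1⟩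
  -- the scalar from padding
  have pad : ∀ k : ℕ, k < n →
      (∀ B, NonScalar B → GeneralLinearGroup.det B = GeneralLinearGroup.det A ^ k → CovS k A B) →
      ∃ (z : F) (Z : GL (Fin n) F),
        (Z : Matrix (Fin n) (Fin n) F) = z • 1 ∧ CovS n A Z := by
    intro k hk h
    let d := GeneralLinearGroup.det A
    refine ⟨(d : F), Units.map (algebraMap F (Matrix (Fin n) (Fin n) F)).toMonoidHom d,
      Algebra.algebraMap_eq_smul_one _, (covS_pad hns hk.le h).2 hk _ (Units.ext ?_)⟩
    show (algebraMap F (Matrix (Fin n) (Fin n) F) (d : F)).det = _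
    rw [Algebra.algebraMap_eq_smul_one, det_smul, Fintype.card_fin, det_one, mul_one,
      Units.val_pow_eq_pow_val]
  rcases Nat.lt_or_ge r 2 with h1 | h2
  · obtain rfl : r = 1 := by omega
    refine ⟨covS_reflect hn hA hF, ?_⟩
    by_cases hγ : γ = 0
    · subst hγ
      exact ⟨1, 1, by simp, hA.covS_one_split one_ne_zero (by omega) hF (by omega)⟩
    · exact hA.exists_scalar_shift hγ one_ne_zero (by omega)
  by_cases hsq : γ = 0 ∧ n = 2 * r
  · obtain ⟨rfl, hnr⟩ := hsq
    have h := covS_four_square hSour hA hnr h2 ⟨c, hc0, fun e => by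
      rcases sq_eq_one_iff.1 e with e | e
      · exact hc1 e
      · exact hc2 e⟩
    refine ⟨(covS_pad hns (by omega : 4 ≤ n) h).1, ?_⟩
    by_cases h5 : 4 < n
    · exact pad 4 h5 h
    · obtain rfl : n = 4 := by omega
      obtain rfl : r = 2 := by omega
      exact ⟨1, 1, by simp, hA.covS_one_four⟩
  have hrange : γ = 0 → 2 * r < n := fun e => by
    by_contra h
    exact hsq ⟨e, by omega⟩
  have hfull : FullDet A := hA.fullDet (by omega) (by
    by_cases hγ : γ = 0
    · exact Or.inr (hrange hγ)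
    · exact Or.inl ⟨hγ, by omega⟩)
  obtain ⟨L, β, hL, hS⟩ := Template.exists_splitCyc (n := n) (r := r) hA ⟨h2, hrn⟩ hrange
    ⟨c, hc0, fun e => hc2 (eq_neg_of_add_eq_zero_right e)⟩
  have h := covS_two hSour hfull hL hS
  set j := (n - 2) / r + 1 with hj
  have hle : j + j ≤ n := by
    have h1 : (n - 2) / r ≤ (n - 2) / 2 := Nat.div_le_div_left h2 (by omega)
    omega
  refine ⟨(covS_pad hns hle h).1, ?_⟩
  by_cases hlt : j + j < n
  · exact pad _ hlt h
  have hr2 : r = 2 := by
    by_contra hne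
    have h1 : (n - 2) / r ≤ (n - 2) / 3 := Nat.div_le_div_left (by omega) (by omega)
    omega
  by_cases hγ : γ = 0
  · subst hγ
    exact ⟨1, 1, by simp, hA.covS_one_split (by omega) (hrange rfl) hF (by omega)⟩
  · exact hA.exists_scalar_shift hγ (by omega) (by omega)

/-- Scaling reduces to `1 + D`. -/
theorem covS_of_quadratic (h4 : 4 ≤ Fintype.card F) (hn : 3 ≤ n) (A : GL (Fin n) F)
    (hA : NonScalar A) (a b : F)
    (h : ((A : Matrix (Fin n) (Fin n) F) - a • 1) * ((A : Matrix (Fin n) (Fin n) F) - b • 1) = 0) :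
    (∀ B, NonScalar B → GeneralLinearGroup.det B = GeneralLinearGroup.det A ^ n → CovS n A B) ∧
      ∃ (z : F) (Z : GL (Fin n) F),
        (Z : Matrix (Fin n) (Fin n) F) = z • 1 ∧ CovS n A Z := by
  classical
  set M := (A : Matrix (Fin n) (Fin n) F) with hM
  have hswap : (M - b • 1) * (M - a • 1) = 0 := by
    rw [← h]
    simp only [sub_mul, mul_sub, Matrix.smul_mul, Matrix.mul_smul, one_mul, mul_one, smul_smul,
      mul_comm b a]
    abel
  have hne : ∀ x y : F, (M - x • 1) * (M - y • 1) = 0 → x ≠ 0 := by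
    rintro x y hxy rfl
    rw [zero_smul, sub_zero] at hxy
    exact hA y (sub_eq_zero.1 ((Units.mul_right_eq_zero A).1 hxy))
  have ha := hne a b h
  have hb := hne b a hswap
  -- choose the root of smaller rank
  obtain ⟨a, b, ha, hb, h, hrk⟩ : ∃ a b : F, a ≠ 0 ∧ b ≠ 0 ∧ (M - a • 1) * (M - b • 1) = 0 ∧
      2 * mrank (M - a • 1) ≤ n := by
    by_cases hab : a = b
    · subst hab
      exact ⟨a, a, ha, ha, h, two_mrank_le h⟩
    have hD : (M - a • 1) * (M - a • 1) = (b - a) • (M - a • 1) := by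
      rw [← sub_eq_zero, ← h]
      simp only [sub_mul, mul_sub, Matrix.smul_mul, Matrix.mul_smul, one_mul, mul_one, smul_smul,
        smul_sub, sub_smul]
      rw [mul_comm b a]
      abel
    have h1 := mrank_sub_scalar (sub_ne_zero.2 (Ne.symm hab)) hD
    rw [show M - a • 1 - (b - a) • 1 = M - b • 1 by rw [sub_smul]; abel] at h1
    rcases Nat.lt_or_ge n (2 * mrank (M - a • 1)) with h2 | h2
    · exact ⟨b, a, hb, ha, hswap, by omega⟩
    · exact ⟨a, b, ha, hb, h, h2⟩
  let s : GL (Fin n) F :=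
    Units.map (algebraMap F (Matrix (Fin n) (Fin n) F)).toMonoidHom (Units.mk0 a ha)
  have hs : (s : Matrix (Fin n) (Fin n) F) = a • 1 := Algebra.algebraMap_eq_smul_one a
  have hs' : ((s⁻¹ : GL (Fin n) F) : Matrix (Fin n) (Fin n) F) = a⁻¹ • 1 := by
    show (algebraMap F (Matrix (Fin n) (Fin n) F)) ((Units.mk0 a ha)⁻¹ : Fˣ) = _
    rw [Algebra.algebraMap_eq_smul_one, Units.val_inv_eq_inv_val]
    rfl
  have hcen : ∀ g : GL (Fin n) F, g * s = s * g := fun g => Units.ext <| by
    rw [Units.val_mul, Units.val_mul, hs]; simp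
  set A' := s⁻¹ * A with hA'
  have eA : (A' : Matrix (Fin n) (Fin n) F) - 1 = a⁻¹ • (M - a • 1) := by
    rw [hA', Units.val_mul, hs', smul_sub, smul_smul, inv_mul_cancel₀ ha, one_smul]
    simp [hM]
  have hns : NonScalar A' := fun c e => hA (a * c) (by
    rw [hA', Units.val_mul, hs', Matrix.smul_mul, one_mul] at e
    rw [← smul_smul, ← e, smul_smul, mul_inv_cancel₀ ha, one_smul])
  have hsq : IsSq A' (b / a - 1) (mrank (M - a • 1)) := by
    refine ⟨?_, by rw [eA, mrank_smul _ (inv_ne_zero ha)]⟩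
    rw [eA, smul_mul_smul_comm, smul_smul]
    have : (M - a • 1) * (M - a • 1) = (b - a) • (M - a • 1) := by
      rw [← sub_eq_zero, ← h]
      simp only [sub_mul, mul_sub, Matrix.smul_mul, Matrix.mul_smul, one_mul, mul_one, smul_smul,
        smul_sub, sub_smul]
      rw [mul_comm b a]
      abel
    rw [this, smul_smul]
    congr 1
    field_simp
  have hr1 : 1 ≤ mrank (M - a • 1) := by
    by_contra h0
    refine hA a (sub_eq_zero.1 (toLin'.injective ?_))
    rw [map_zero]
    exact LinearMap.range_eq_bot.1 (Submodule.finrank_eq_zero.1 (by rw [← hM]; rw [mrank] at h0; omega))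
  obtain ⟨h1, z, Z, hZ, hcov⟩ := covS_of_isSq h4 hn hsq hns hr1 hrk
  have hsc : ∀ g : GL (Fin n) F, Commute s g := fun g => (hcen g).symm
  have conj : ∀ {k : ℕ} {C : GL (Fin n) F}, CovS k A' C → CovS k A (s ^ k * C) := by
    rintro k C ⟨f, hf, rfl⟩
    refine ⟨f, hf, ?_⟩
    clear hf
    induction k with
    | zero => simp
    | succ k ih =>
      rw [List.ofFn_succ, List.ofFn_succ, List.prod_cons, List.prod_cons, ← ih (fun i => f i.succ),
        hA', pow_succ' s k]
      rw [mul_assoc s, ← mul_assoc (s ^ k) _ (List.prod _), ((hsc _).pow_left k).eq,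
        mul_assoc _ (s ^ k), ← mul_assoc s]
      congr 1
      rw [← mul_assoc, ← mul_assoc, (hsc (f 0)).eq, mul_assoc (f 0) s, ← mul_assoc s s⁻¹,
        mul_inv_cancel, one_mul]
  refine ⟨fun B hB hdet => ?_, a ^ n * z, s ^ n * Z, ?_, conj hcov⟩
  · rw [show B = s ^ n * ((s ^ n)⁻¹ * B) by group]
    refine conj (h1 _ (fun c e => hB (a ^ n * c) ?_) ?_)
    · have e' : (B : Matrix (Fin n) (Fin n) F) = ((s ^ n : GL (Fin n) F) :
          Matrix (Fin n) (Fin n) F) * (c • 1) := by
        rw [← e, ← Units.val_mul, mul_inv_cancel_left]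
      rw [e', Units.val_pow_eq_pow_val, hs, smul_pow, one_pow, smul_mul_smul_comm, one_mul]
    · rw [map_mul, map_inv, map_pow, hdet, hA', map_mul, map_inv, mul_pow, inv_pow]
  · rw [Units.val_mul, Units.val_pow_eq_pow_val, hs, hZ, smul_pow, one_pow, smul_mul_smul_comm,
      one_mul]

end CfsgLib.PSLCover
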