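import Cfsg.Agent.Lib.PSLCover.GLCover
import Cfsg.Agent.Lib.PSLCover.Peel
import Cfsg.Agent.Lib.PSLCover.Quadratic
import Cfsg.Agent.Lib.PSLCover.QuadIrreducible
import Cfsg.Agent.Lib.PSLCover.FourScalar

/-!
Assembly of the upper bound for the covering number of `PSL (n, q)`.
-/

set_option autoImplicit false
set_option linter.style.haveILetI false
set_option linter.unusedSectionVars false

namespace CfsgLib.PSLCover

open Matrix Polynomial

variable {F : Type*} [Field F]

/-- Four conjugates cover for chains without scalar block. -/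
def ChainFour (F : Type*) [Field F] : Prop :=
  ∀ (n : ℕ), 4 ≤ n → ∀ (A K : GL (Fin n) F) (μ : F[X]) (g : GL (Fin n) F),
    IsChain F K μ → 3 ≤ μ.natDegree → A = g * K * g⁻¹ →
      ∀ B, NonScalar B → GeneralLinearGroup.det B = GeneralLinearGroup.det A ^ 4 → CovS 4 A B

/-- The case of dimension three. -/
def DimThreeCover (F : Type*) [Field F] : Prop :=
  ∀ A : GL (Fin 3) F, 3 ≤ (minpoly F (A : Matrix (Fin 3) (Fin 3) F)).natDegree →
    (∀ B, NonScalar B → GeneralLinearGroup.det B = GeneralLinearGroup.det A ^ 3 → CovS 3 A B) ∧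
      (GeneralLinearGroup.det A = 1 → ∃ (z : F) (Z : GL (Fin 3) F),
        (Z : Matrix (Fin 3) (Fin 3) F) = z • 1 ∧ CovS 3 A Z)

theorem two_le_minpoly_of_nonScalar {n : ℕ} (hn : 0 < n) {A : GL (Fin n) F} (hA : NonScalar A) :
    2 ≤ (minpoly F (A : Matrix (Fin n) (Fin n) F)).natDegree := by
  have : Nonempty (Fin n) := ⟨⟨0, hn⟩⟩
  by_contra h
  have hi := Algebra.IsIntegral.isIntegral (R := F) (A : Matrix (Fin n) (Fin n) F)
  have hpos := minpoly.natDegree_pos hi
  have h1 := (minpoly.monic hi).eq_X_add_C (by omega)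
  have h2 := minpoly.aeval F (A : Matrix (Fin n) (Fin n) F)
  rw [h1, map_add, aeval_X, aeval_C, Algebra.algebraMap_eq_smul_one, add_eq_zero_iff_eq_neg,
    ← neg_smul] at h2
  exact hA _ h2

/-- A quadratic minimal polynomial with a root splits. -/
theorem exists_roots_of_isRoot {n : ℕ} {A : GL (Fin n) F} {a : F}
    (h2 : (minpoly F (A : Matrix (Fin n) (Fin n) F)).natDegree = 2)
    (ha : (minpoly F (A : Matrix (Fin n) (Fin n) F)).IsRoot a) :
    ∃ b : F, ((A : Matrix (Fin n) (Fin n) F) - a • 1) * ((A : Matrix (Fin n) (Fin n) F) - b • 1) = 0 := by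
  set μ := minpoly F (A : Matrix (Fin n) (Fin n) F)
  have hm : μ.Monic := minpoly.monic (Algebra.IsIntegral.isIntegral _)
  have h0 := minpoly.aeval F (A : Matrix (Fin n) (Fin n) F)
  obtain ⟨q, hq⟩ := dvd_iff_isRoot.2 ha
  have hqm : q.Monic := (monic_X_sub_C a).of_mul_monic_left (hq ▸ hm)
  have hqd : q.natDegree = 1 := by
    have h := congrArg natDegree hq
    rw [natDegree_mul (X_sub_C_ne_zero a) hqm.ne_zero, natDegree_X_sub_C] at h
    change μ.natDegree = _ at h
    omega
  refine ⟨-q.coeff 0, ?_⟩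
  rw [show minpoly F (A : Matrix (Fin n) (Fin n) F) = μ from rfl, hq, hqm.eq_X_add_C hqd, map_mul,
    map_sub, map_add, aeval_X, aeval_C, aeval_C, Algebra.algebraMap_eq_smul_one,
    Algebra.algebraMap_eq_smul_one] at h0
  rw [neg_smul, sub_neg_eq_add]
  exact h0

/-- In `GL`: `n` conjugates of a determinant one class cover the non-scalar determinant one
elements, and some scalar. -/
theorem covS_upper [Fintype F] (h4 : 4 ≤ Fintype.card F) (hchain : ChainFour F)
    (hthree : DimThreeCover F) {n : ℕ} (hn : 3 ≤ n) (A : GL (Fin n) F) (hA : NonScalar A)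
    (hdet : GeneralLinearGroup.det A = 1) :
    (∀ B, NonScalar B → GeneralLinearGroup.det B = 1 → CovS n A B) ∧
      ∃ (z : F) (Z : GL (Fin n) F),
        (Z : Matrix (Fin n) (Fin n) F) = z • 1 ∧ CovS n A Z := by
  have hpow : ∀ k : ℕ, GeneralLinearGroup.det A ^ k = 1 := fun k => by rw [hdet, one_pow]
  have hdeg := two_le_minpoly_of_nonScalar (by omega) hA
  -- padding gives everything
  have pad : ∀ k, k < n →
      (∀ B, NonScalar B → GeneralLinearGroup.det B = GeneralLinearGroup.det A ^ k → CovS k A B) →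
      (∀ B, NonScalar B → GeneralLinearGroup.det B = 1 → CovS n A B) ∧
        ∃ (z : F) (Z : GL (Fin n) F),
          (Z : Matrix (Fin n) (Fin n) F) = z • 1 ∧ CovS n A Z := by
    intro k hk h
    obtain ⟨h1, h2⟩ := covS_pad hA hk.le h
    exact ⟨fun B hB hd => h1 B hB (by rw [hd, hpow]),
      1, 1, by simp, h2 hk 1 (by rw [map_one, hpow])⟩
  rcases Nat.lt_or_ge (minpoly F (A : Matrix (Fin n) (Fin n) F)).natDegree 3 with hd2 | hd3
  · have h2 : (minpoly F (A : Matrix (Fin n) (Fin n) F)).natDegree = 2 := by omega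
    by_cases hroot : ∃ x : F, (minpoly F (A : Matrix (Fin n) (Fin n) F)).IsRoot x
    · obtain ⟨a, ha⟩ := hroot
      obtain ⟨b, hab⟩ := exists_roots_of_isRoot h2 ha
      obtain ⟨h1, h5⟩ := covS_of_quadratic h4 hn A hA a b hab
      exact ⟨fun B hB hd => h1 B hB (by rw [hd, hpow]), h5⟩
    · obtain ⟨hn4, hcov, hz⟩ := covS_of_irreducible h4 hn A h2 (fun x hx => hroot ⟨x, hx⟩)
      rcases hn4.lt_or_eq with h5 | h5
      · exact pad 4 h5 hcov
      · exact ⟨fun B hB hd => h5 ▸ hcov B hB (by rw [hd, hpow]), hz h5.symm⟩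
  rcases (by omega : n = 3 ∨ n = 4 ∨ 5 ≤ n) with rfl | rfl | h5
  · obtain ⟨h1, h2⟩ := hthree A hd3
    exact ⟨fun B hB hd => h1 B hB (by rw [hd, hpow]), h2 hdet⟩
  · refine ⟨fun B hB hd => ?_, 1, 1, by simp, covS_one_of_dim_four h4 A hdet hd3⟩
    have hdB : GeneralLinearGroup.det B = GeneralLinearGroup.det A ^ 4 := by rw [hd, hpow]
    obtain ⟨k, d, K, μ, a, e, g, hAe, hch, hμ, -⟩ := exists_chain_scalar A
    have hμ' := hμ (by omega)
    have hle := hch.le_size
    have hc := Fintype.card_congr e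
    simp only [Fintype.card_sum, Fintype.card_fin] at hc
    rw [hμ'] at hle
    rcases Nat.eq_zero_or_pos d with rfl | hdpos
    · obtain rfl : k = 4 := by omega
      let e' : Fin 4 ≃ Fin 4 := (Equiv.sumEmpty (Fin 4) (Fin 0)).symm.trans e
      let P : GL (Fin 4) F := GeneralLinearGroup.mkOfDetNeZero
        ((Matrix.reindex e' (Equiv.refl _)) (1 : Matrix (Fin 4) (Fin 4) F)) (by
          rw [show Matrix.reindex e' (Equiv.refl _) (1 : Matrix (Fin 4) (Fin 4) F) =
            (1 : Matrix (Fin 4) (Fin 4) F).submatrix e'.symm id from rfl, det_permute]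
          rcases Int.units_eq_one_or (Equiv.Perm.sign e'.symm) with h | h <;> simp [h])
      have hb : reindexGL e (blockGL K (scalarGL (Fin 0) a)) = P * K * P⁻¹ := by
        have hb' : reindexGL e (blockGL K (scalarGL (Fin 0) a)) = reindexGL e' K := by
          refine Units.ext ?_
          ext i j
          rcases hx : e.symm i with i1 | i2
          · rcases hy : e.symm j with j1 | j2
            · simp [e', hx, hy]
            · exact j2.elim0
          · exact i2.elim0
        rw [hb', eq_mul_inv_iff_mul_eq]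
        refine Units.ext ?_
        ext i j
        simp [P, Matrix.mul_apply, Matrix.one_apply]
        exact (Fintype.sum_equiv e'.symm _ (fun x => if x = j then
          (K : Matrix (Fin 4) (Fin 4) F) (e'.symm i) x else 0) fun _ => rfl).trans (by simp)
      exact hchain 4 le_rfl A K μ (g * P) hch (hμ' ▸ hd3) (by rw [hAe, hb]; group) B hB hdB
    · refine (cov_four h4 (by norm_num) e g hAe hch (by omega) (hμ' ▸ hd3) B hB hdB).covS ?_
      rw [hAe]
      exact fullDet_conj_of (fullDet_reindex (fullDet_scalar_block K a ⟨0, hdpos⟩) e) g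
  · refine pad (n - 1) (by omega) (covS_pred h4 ?_ h5 A hd3 fun K μ g hch hμ hAK =>
      hchain n (by omega) A K μ g hch (hμ ▸ hd3) hAK)
    intro m hm k A a A1 e g hA hdeg ih B hB hd
    exact peel_step hm k A a A1 e g hA hdeg ih B hB hd

/-- The first conjunct of the covering number statement. -/
theorem upper_bound [Fintype F] (h4 : 4 ≤ Fintype.card F) (hchain : ChainFour F)
    (hthree : DimThreeCover F) (n : ℕ) (hn : 3 ≤ n)
    (x : Matrix.ProjectiveSpecialLinearGroup (Fin n) F) (hx : x ≠ 1)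
    (g : Matrix.ProjectiveSpecialLinearGroup (Fin n) F) :
    ∃ f : Fin n → Matrix.ProjectiveSpecialLinearGroup (Fin n) F,
      g = (List.ofFn fun i => f i * x * (f i)⁻¹).prod := by
  classical
  obtain ⟨S, rfl⟩ := QuotientGroup.mk_surjective x
  obtain ⟨T, rfl⟩ := QuotientGroup.mk_surjective g
  have hne : Nonempty (Fin n) := ⟨⟨0, by omega⟩⟩
  -- central elements are the scalar ones
  have hcen : ∀ U : Matrix.SpecialLinearGroup (Fin n) F,
      (∃ c : F, (U : Matrix (Fin n) (Fin n) F) = c • 1) →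
        U ∈ Subgroup.center (Matrix.SpecialLinearGroup (Fin n) F) := by
    rintro U ⟨c, hc⟩
    rw [Subgroup.mem_center_iff]
    intro V
    refine Subtype.ext ?_
    rw [Matrix.SpecialLinearGroup.coe_mul, Matrix.SpecialLinearGroup.coe_mul, hc]
    simp
  let ι := Matrix.SpecialLinearGroup.toGL (n := Fin n) (R := F)
  have hι : ∀ U, GeneralLinearGroup.det (ι U) = 1 := fun U => Units.ext U.2
  have hAn : NonScalar (ι S) := fun c hc =>
    hx ((QuotientGroup.eq_one_iff S).2 (hcen S ⟨c, hc⟩))
  obtain ⟨h1, z, Z, hZ, h2⟩ := covS_upper h4 hchain hthree hn (ι S) hAn (hι S)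
  -- a cover in GL gives one in PSL
  have down : ∀ B : GL (Fin n) F, CovS n (ι S) B →
      ∃ (f : Fin n → Matrix.SpecialLinearGroup (Fin n) F) (B' : Matrix.SpecialLinearGroup (Fin n) F),
        B' = (List.ofFn fun i => f i * S * (f i)⁻¹).prod ∧ ι B' = B := by
    rintro B ⟨f, hf, rfl⟩
    let f' : Fin n → Matrix.SpecialLinearGroup (Fin n) F := fun i =>
      ⟨(f i : Matrix (Fin n) (Fin n) F), congrArg Units.val (hf i)⟩
    refine ⟨f', _, rfl, ?_⟩
    rw [map_list_prod, List.map_ofFn]
    congr 2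
    funext i
    have hfi : ι (f' i) = f i := Units.ext rfl
    simp only [Function.comp_apply, map_mul, map_inv, hfi]
  obtain ⟨B, hB, hTB⟩ : ∃ B : GL (Fin n) F, CovS n (ι S) B ∧
      ∀ B' : Matrix.SpecialLinearGroup (Fin n) F, ι B' = B →
        (QuotientGroup.mk T : Matrix.ProjectiveSpecialLinearGroup (Fin n) F) = QuotientGroup.mk B' := by
    by_cases hT : NonScalar (ι T)
    · refine ⟨ι T, h1 _ hT (hι T), fun B' hB' => ?_⟩
      rw [show B' = T from Subtype.ext (congrArg Units.val hB')]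
    · simp only [NonScalar, not_forall, ne_eq, not_not] at hT
      refine ⟨Z, h2, fun B' hB' => ?_⟩
      have hB'z : (B' : Matrix (Fin n) (Fin n) F) = z • 1 := (congrArg Units.val hB').trans hZ
      rw [(QuotientGroup.eq_one_iff T).2 (hcen T hT), (QuotientGroup.eq_one_iff B').2 (hcen B' ⟨z, hB'z⟩)]
  obtain ⟨f, B', hB', hι'⟩ := down B hB
  refine ⟨fun i => QuotientGroup.mk (f i), ?_⟩
  rw [hTB B' hι', hB']
  refine (map_list_prod (QuotientGroup.mk' _) _).trans ?_
  rw [List.map_ofFn]
  rfl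

end CfsgLib.PSLCover
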