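import Cfsg.Agent.Lib.PSLCover.DimThreeUnip

/-!
Three conjugates of a cyclic matrix cover in dimension three.
-/

set_option autoImplicit false
set_option linter.style.haveILetI false
set_option linter.unusedSectionVars false

namespace CfsgLib.PSLCover

open Matrix Polynomial Three

variable {F : Type*} [Field F]

local notation "M₃" => Matrix (Fin 3) (Fin 3) F
local notation "GL₃" => GL (Fin 3) F
local notation "det'" => GeneralLinearGroup.det

theorem coeff_inv_three (A : GL₃) (hd : (A : M₃).det = 1) :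
    ((A⁻¹ : GL₃) : M₃).trace = m2 (A : M₃) ∧ m2 ((A⁻¹ : GL₃) : M₃) = (A : M₃).trace ∧
      ((A⁻¹ : GL₃) : M₃).det = 1 := by
  have hadj : ((A⁻¹ : GL₃) : M₃) = (A : M₃).adjugate := by
    rw [Matrix.coe_units_inv, Matrix.inv_def, hd, Ring.inverse_one, one_smul]
  refine ⟨?_, ?_, ?_⟩
  · rw [hadj, adjugate_fin_three]
    simp [trace_fin_three, m2]
    ring
  · have h : (A : M₃).det = 1 := hd
    rw [det_fin_three] at h
    rw [hadj, adjugate_fin_three]
    simp [trace_fin_three, m2]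
    linear_combination ((A : M₃) 0 0 + (A : M₃) 1 1 + (A : M₃) 2 2) * h
  · rw [hadj, det_adjugate, hd, one_pow]

/-- The identity is a product of three conjugates of a cyclic matrix of determinant one. -/
theorem cov_three_one [Fintype F] (hq : 4 ≤ Fintype.card F) (A : GL₃) (hA : HasCyclic (A : M₃))
    (hd : (A : M₃).det = 1) : Cov 3 A 1 := by
  classical
  obtain ⟨ht', hm', hd'⟩ := coeff_inv_three A hd
  obtain ⟨l, hl0, hl1⟩ : ∃ l : F, l ≠ 0 ∧ 1 + l ≠ 0 := by
    by_contra! h
    have : (Finset.univ : Finset F) ⊆ {0, -1} := fun x _ => by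
      rcases eq_or_ne x 0 with hx | hx
      · simp [hx]
      · simp [eq_neg_of_add_eq_zero_right (h x hx)]
    have h1 := Finset.card_le_card this
    have h2 := Finset.card_le_two (a := (0 : F)) (b := -1)
    rw [Finset.card_univ] at h1
    omega
  set T := (A : M₃).trace with hT
  set S := m2 (A : M₃) with hS
  set k := -(1 + l) / l with hk
  set u := -1 / (1 + l) with hu
  have hk0 : k ≠ 0 := div_ne_zero (neg_ne_zero.2 hl1) hl0
  have hu0 : u ≠ 0 := div_ne_zero (by simp) hl1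
  have hukl : u * k * l = 1 := by rw [hu, hk]; field_simp
  let H : GL₃ := GeneralLinearGroup.mkOfDetNeZero (comp3 1 (-T) S) (by simp [comp3, det_fin_three])
  have hWd : (!![0, T * l, u; k, S, T; 0, l, 0] : M₃).det = 1 := by
    simp [det_fin_three]
    linear_combination hukl
  let W : GL₃ := GeneralLinearGroup.mkOfDetNeZero _ (hWd.trans_ne one_ne_zero)
  have hHW : ((H * W : GL₃) : M₃) = !![0, l, 0; 0, 0, u; k, S * (1 + l), T] := by
    refine Matrix.ext fun i j => ?_
    fin_cases i <;> fin_cases j <;>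
      simp [H, W, comp3, Matrix.mul_apply, Fin.sum_univ_three] <;> ring
  have hkl : k * l = -(1 + l) := by rw [hk]; field_simp
  have hH : ∃ g : GL₃, H = g * A⁻¹ * g⁻¹ := by
    obtain ⟨g, hg⟩ := exists_conj_of_hasCyclic (H : M₃) _
      (hasCyclic_hess (by simp [H, comp3]) (by simp [H, comp3]) (by simp [H, comp3]))
      (hasCyclic_inv hA) (charpoly_eq_three (by rw [ht']; exact (comp3_coeff _ _ _).1)
        (by rw [hm']; exact (comp3_coeff _ _ _).2.1.trans (neg_neg T))
        (by rw [hd']; exact (comp3_coeff _ _ _).2.2))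
    exact ⟨g, Units.ext hg⟩
  have hW : ∃ g : GL₃, W = g * A⁻¹ * g⁻¹ := by
    obtain ⟨g, hg⟩ := exists_conj_of_hasCyclic (W : M₃) _
      (hasCyclic_hess (by simp [W]) (by simpa [W] using hk0) (by simpa [W] using hl0))
      (hasCyclic_inv hA) (charpoly_eq_three (by rw [ht']; simp [W, trace_fin_three, hS])
        (by rw [hm']; simp [W, m2]; linear_combination (-T) * hkl)
        (by rw [hd']; exact hWd))
    exact ⟨g, Units.ext hg⟩
  have hP : ∃ g : GL₃, H * W = g * A * g⁻¹ := by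
    obtain ⟨g, hg⟩ := exists_conj_of_hasCyclic ((H * W : GL₃) : M₃) (A : M₃)
      (hasCyclic_of_kry (v := Pi.single 2 1) (by
        rw [hHW]
        simp [kry, det_fin_three, mulVec, dotProduct, Fin.sum_univ_three, hu0, hl0]))
      hA (charpoly_eq_three (by rw [hHW]; simp [trace_fin_three, hT])
        (by rw [← hS, hHW]; simp [m2]; rw [hu]; field_simp)
        (by rw [hHW, hd]; simp [det_fin_three]; linear_combination hukl))
    exact ⟨g, Units.ext hg⟩
  obtain ⟨g₁, hg₁⟩ := hH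
  obtain ⟨g₂, hg₂⟩ := hW
  obtain ⟨g₃, hg₃⟩ := hP
  have h1 : Cov 1 A W⁻¹ := by
    rw [hg₂, show (g₂ * A⁻¹ * g₂⁻¹)⁻¹ = g₂ * A * g₂⁻¹ by group]; exact cov_one A g₂
  have h2 : Cov 1 A H⁻¹ := by
    rw [hg₁, show (g₁ * A⁻¹ * g₁⁻¹)⁻¹ = g₁ * A * g₁⁻¹ by group]; exact cov_one A g₁
  have h3 : Cov 1 A (H * W) := hg₃ ▸ cov_one A g₃
  have := (h1.mul h2).mul h3
  rwa [show W⁻¹ * H⁻¹ * (H * W) = 1 by group] at this

/-- A split list and a conjugate of the inverse with split cyclic product. -/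
theorem exists_mul_splitCyc [Fintype F] (hq : 4 ≤ Fintype.card F) (A : GL₃)
    (hA : HasCyclic (A : M₃)) (B : GL₃) (hB : NonScalar B) (hdet : det' B = det' A ^ 3) :
    ∃ (H : GL₃) (h : Fin 3 → F), (∃ g : GL₃, H = g * A⁻¹ * g⁻¹) ∧ (∀ i, h i ≠ 0) ∧
      h 2 = h 1 ∧ SplitCyc ((B * H : GL₃) : M₃) h := by
  classical
  set τ := ((A⁻¹ : GL₃) : M₃).trace with hτ
  set σ := m2 ((A⁻¹ : GL₃) : M₃) with hσ
  set ε := ((A⁻¹ : GL₃) : M₃).det with hε
  set Z := (B : M₃).det * ε with hZ
  have hε0 : ε ≠ 0 := ((Matrix.isUnit_iff_isUnit_det _).1 (A⁻¹).isUnit).ne_zero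
  have hB0 : (B : M₃).det ≠ 0 := ((Matrix.isUnit_iff_isUnit_det _).1 B.isUnit).ne_zero
  have hZ0 : Z ≠ 0 := mul_ne_zero hB0 hε0
  have hconj : ∀ H : GL₃, HasCyclic (H : M₃) → (H : M₃).trace = τ → m2 (H : M₃) = σ →
      (H : M₃).det = ε → ∃ g : GL₃, H = g * A⁻¹ * g⁻¹ := fun H hH h1 h2 h3 => by
    obtain ⟨g, hg⟩ := exists_conj_of_hasCyclic _ _ hH (hasCyclic_inv hA)
      (charpoly_eq_three h1 h2 h3)
    exact ⟨g, Units.ext hg⟩
  rcases le_or_gt 3 (minpoly F (B : M₃)).natDegree with hdeg | hdeg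
  · have hTc : HasCyclic ((B⁻¹ : GL₃) : M₃) := hasCyclic_inv (hasCyclic_of_minpoly hdeg)
    obtain ⟨g, hg⟩ := exists_comp3 B⁻¹ hTc
    set c₀ := ((B⁻¹ : GL₃) : M₃).det with hc₀
    set c₁ := -m2 ((B⁻¹ : GL₃) : M₃)
    set c₂ := ((B⁻¹ : GL₃) : M₃).trace
    obtain ⟨a, ha0, had⟩ : ∃ a : F, a ≠ 0 ∧ τ - a - c₂ ≠ 0 := by
      by_contra! h
      have : (Finset.univ : Finset F) ⊆ {0, τ - c₂} := fun x _ => by
        rcases eq_or_ne x 0 with hx | hx
        · simp [hx]
        · simp only [Finset.mem_insert, Finset.mem_singleton]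
          right
          linear_combination -(h x hx)
      have h1 := Finset.card_le_card this
      have h2 := Finset.card_le_two (a := (0 : F)) (b := τ - c₂)
      rw [Finset.card_univ] at h1
      omega
    have hcB : (B : M₃).det * c₀ = 1 := by rw [hc₀, ← det_mul, Units.mul_inv, det_one]
    set d := τ - a - c₂ with hd
    set b := a * (d + c₂) - c₁ - σ with hb
    have hXd : (!![Z, a, b; 0, 1, d; 0, 0, 1] : M₃).det = Z := by simp [det_fin_three]
    let X' : GL₃ := GeneralLinearGroup.mkOfDetNeZero _ (hXd.trans_ne hZ0)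
    let H : GL₃ := B⁻¹ * (g * X' * g⁻¹)
    have hH : (H : M₃) = g * (comp3 c₀ c₁ c₂ * (X' : M₃)) * ((g⁻¹ : GL₃) : M₃) := by
      simp only [H, Units.val_mul]
      rw [hg]
      simp only [mul_assoc, Units.inv_mul_cancel_left]
    have hcomp : comp3 c₀ c₁ c₂ * (X' : M₃) =
        !![0, 0, c₀; Z, a, b + c₁; 0, 1, d + c₂] := by
      refine Matrix.ext fun i j => ?_
      fin_cases i <;> fin_cases j <;> simp [X', comp3, Matrix.mul_apply, Fin.sum_univ_three]
    have hHc : (H : M₃).charpoly = (!![0, 0, c₀; Z, a, b + c₁; 0, 1, d + c₂] : M₃).charpoly := by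
      rw [hH, hcomp, Matrix.coe_units_inv]
      exact Matrix.charpoly_units_conj g _
    have hHcyc : HasCyclic (H : M₃) := by
      rw [hH]
      refine HasCyclic.conj ?_ g
      rw [hcomp]
      exact hasCyclic_hess (by simp) (by simpa using hZ0) (by simp)
    obtain ⟨g', hg'⟩ := exists_conj_of_hasCyclic (H : M₃) _ hHcyc (hasCyclic_inv hA) (by
      rw [hHc]
      refine charpoly_eq_three ?_ ?_ ?_
      · rw [← hτ]; simp [trace_fin_three, hd]
      · rw [← hσ]; simp [m2, hb]; ring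
      · rw [← hε]; simp [det_fin_three]
        linear_combination ε * hcB)
    refine ⟨H, ![Z, 1, 1], ⟨g', Units.ext hg'⟩, fun i => by fin_cases i <;> simp [hZ0], rfl, ?_⟩
    have hBH : B * H = g * X' * g⁻¹ := mul_inv_cancel_left B _
    rw [hBH, Units.val_mul, Units.val_mul]
    refine SplitCyc.conj ?_ g
    have h := splitCyc_of_upperTri (!![Z, a, b; 0, 1, d; 0, 0, 1] : M₃)
      (fun i j hij => by fin_cases i <;> fin_cases j <;> first | rfl | simp at hij)
      (fun i j hij he => by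
        fin_cases j
        · exact absurd hij (by simp)
        · refine ⟨0, rfl, ?_, by simpa using ha0⟩
          fin_cases i
          · exact he
          · exact absurd hij (by simp)
          · exact absurd hij (by decide)
        · exact ⟨1, rfl, by simp, by simpa using had⟩)
    rw [show (![Z, 1, 1] : Fin 3 → F) = fun i => (!![Z, a, b; 0, 1, d; 0, 0, 1] : M₃) i i from
      funext fun i => by fin_cases i <;> rfl]
    exact h
  obtain ⟨k, p, f, g, c, hc, hp, hnd, hBk⟩ := exists_upForm B hB (by omega)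
  have hBd : (B : M₃).det = p * c * c := by
    rw [hBk, det_mul, det_mul, mul_right_comm, ← det_mul, Units.mul_inv, det_one, one_mul]
    simp [upForm, det_fin_three]
  obtain ⟨x, hx0, hx1⟩ : ∃ x : F, x ≠ 0 ∧ x ≠ 1 := by
    by_contra! h
    have : (Finset.univ : Finset F) ⊆ {0, 1} := fun x _ => by
      rcases eq_or_ne x 0 with hx | hx
      · simp [hx]
      · simp [h x hx]
    have h1 := Finset.card_le_card this
    have h2 := Finset.card_le_two (a := (0 : F)) (b := 1)
    rw [Finset.card_univ] at h1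
    omega
  -- one of two lists avoids the scalar multiple
  obtain ⟨l, y, hl, hy, hly, hfy⟩ : ∃ l y : F, l ≠ 0 ∧ y ≠ 0 ∧ l * y * y = Z ∧
      (p = c → l + 2 * y - c * τ ≠ 0 ∨
        (c * (l + 2 * y - c * τ) * τ + c * c * σ - (2 * l * y + y * y)) / c ≠ 0) := by
    by_contra! h
    obtain ⟨hpc, h11, h12⟩ := h Z 1 hZ0 one_ne_zero (by ring)
    obtain ⟨-, h21, h22⟩ := h (Z / (x * x)) x (div_ne_zero hZ0 (mul_ne_zero hx0 hx0)) hx0
      (by field_simp)
    rw [h11, div_eq_zero_iff, or_iff_left hc] at h12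
    rw [h21, div_eq_zero_iff, or_iff_left hc] at h22
    set l' := Z / (x * x) with hl'
    have hxl : l' * x * x = Z := by rw [hl']; field_simp
    have e1 : (1 - l') * ((1 - x) * (1 - x)) = 0 := by
      linear_combination h11 - h21 + h12 - h22 - hxl
    have hl1 : l' = 1 := ((sub_eq_zero.1 ((mul_eq_zero.1 e1).resolve_right
      (mul_ne_zero (sub_ne_zero.2 (Ne.symm hx1)) (sub_ne_zero.2 (Ne.symm hx1))))).symm)
    have e2 : (1 - x) * (1 - x) = 0 := by linear_combination h11 - h21 + hxl - (x * x - 1) * hl1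
    exact hx1 (sub_eq_zero.1 (pow_eq_zero_iff (n := 2) two_ne_zero |>.1
      (show (x - 1) ^ 2 = 0 by linear_combination e2)))
  set f' := l + 2 * y - c * τ with hf'
  set g' := (c * f' * τ + c * c * σ - (2 * l * y + y * y)) / c with hg'
  let C' : GL₃ := GeneralLinearGroup.mkOfDetNeZero (upForm p f' g' c)
    (by simp [upForm, det_fin_three, hp, hc])
  obtain ⟨u, hu⟩ := exists_conj_upForm (B := B) (C' := C') hnd hfy k hBk rfl
  let K : GL₃ := GeneralLinearGroup.mkOfDetNeZero (comp3 ε (-σ) τ)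
    (by simp [comp3, det_fin_three, hε0])
  obtain ⟨g₁, hg₁⟩ := hconj K (hasCyclic_hess (by simp [K, comp3]) (by simp [K, comp3])
    (by simp [K, comp3])) (comp3_coeff _ _ _).1 ((comp3_coeff _ _ _).2.1.trans (neg_neg σ))
    (comp3_coeff _ _ _).2.2
  have hCK : ((C' * K : GL₃) : M₃) =
      !![f', g', p * ε - f' * σ + g' * τ; c, 0, -(c * σ); 0, c, c * τ] := by
    refine Matrix.ext fun i j => ?_
    fin_cases i <;> fin_cases j <;>
      simp [C', K, comp3, upForm, Matrix.mul_apply, Fin.sum_univ_three] <;> ring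
  refine ⟨u * K * u⁻¹, ![l, y, y], ⟨u * g₁, by rw [hg₁]; group⟩,
    fun i => by fin_cases i <;> simp [hl, hy], rfl, ?_⟩
  rw [hu, show u * C' * u⁻¹ * (u * K * u⁻¹) = u * (C' * K) * u⁻¹ by group, Units.val_mul,
    Units.val_mul]
  refine SplitCyc.conj ⟨?_, ?_⟩ u
  · rw [hCK]
    exact hasCyclic_hess (by simp) (by simpa using hc) (by simpa using hc)
  · have hdCK : ((C' * K : GL₃) : M₃).det = Z := by
      rw [Units.val_mul, det_mul, hZ, hBd]
      show (upForm p f' g' c).det * (comp3 ε (-σ) τ).det = _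
      rw [(comp3_coeff _ _ _).2.2]
      simp [upForm, det_fin_three]
    have ht : ((C' * K : GL₃) : M₃).trace = l + y + y := by
      rw [hCK]; simp [trace_fin_three, hf']; ring
    have hm : m2 ((C' * K : GL₃) : M₃) = l * y + l * y + y * y := by
      rw [hCK]; simp [m2, hg']; field_simp; ring
    rw [charpoly_three, ht, hm, hdCK, ← hly, Fin.prod_univ_three]
    simp only [cons_val_zero, cons_val_one, cons_val, map_add, map_mul]
    ring

/-- Three conjugates cover, up to determinants of conjugating elements. -/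
theorem cov_three [Fintype F] (hq : 4 ≤ Fintype.card F) (A : GL₃) (hA : HasCyclic (A : M₃))
    (B : GL₃) (hB : NonScalar B) (hdet : det' B = det' A ^ 3) : Cov 3 A B := by
  obtain ⟨H, h, ⟨g, hg⟩, h0, h21, hs⟩ := exists_mul_splitCyc hq A hA B hB hdet
  have hprod : ∏ i, h i = (A : M₃).det ^ 2 := by
    rw [← det_eq_prod_of_splitCyc hs, ← GeneralLinearGroup.val_det_apply, map_mul, hg, map_mul,
      map_mul, map_inv, map_inv, mul_inv_cancel_comm, hdet, pow_succ, mul_inv_cancel_right,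
      Units.val_pow_eq_pow_val, GeneralLinearGroup.val_det_apply]
  obtain ⟨P, Q, ⟨⟨g₁, hP⟩, ⟨g₂, hQ⟩, hPQ⟩, -⟩ := exists_block_pair (m := 1) hq A hA h h0 hprod
    (Or.inr ⟨h21, fun h => absurd h one_ne_zero⟩)
  obtain ⟨u, hu⟩ := exists_conj_splitCyc hs hPQ
  have h2 : Cov 2 A (B * H) := by
    rw [hu]
    exact ((hP ▸ cov_one A g₁ : Cov 1 A P).mul (hQ ▸ cov_one A g₂ : Cov 1 A Q)).conj u
  have h1 : Cov 1 A H⁻¹ := by
    rw [hg, show (g * A⁻¹ * g⁻¹)⁻¹ = g * A * g⁻¹ by group]; exact cov_one A g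
  have := h2.mul h1
  rwa [mul_inv_cancel_right] at this

theorem covS_scale {k : ℕ} {A B : GL₃} (h : CovS k A B) (z : Fˣ) :
    CovS k (scalarGL (Fin 3) z * A) (scalarGL (Fin 3) z ^ k * B) := by
  obtain ⟨f, hf, rfl⟩ := h
  refine ⟨f, hf, ?_⟩
  have hcen : ∀ g : GL₃, scalarGL (Fin 3) z * g = g * scalarGL (Fin 3) z := fun g =>
    Units.ext (by simp)
  clear hf
  induction k with
  | zero => simp
  | succ k ih =>
    simp only [List.ofFn_succ, List.prod_cons]
    rw [← ih fun i => f i.succ, pow_succ']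
    generalize (List.ofFn fun i : Fin k => f i.succ * A * (f i.succ)⁻¹).prod = P
    calc _ = scalarGL (Fin 3) z * (scalarGL (Fin 3) z ^ k * (f 0 * A * (f 0)⁻¹)) * P := by group
      _ = scalarGL (Fin 3) z * (f 0 * A * (f 0)⁻¹) * (scalarGL (Fin 3) z ^ k * P) := by
        rw [((Commute.pow_left (hcen _) k).eq : scalarGL (Fin 3) z ^ k * (f 0 * A * (f 0)⁻¹) = _)]
        group
      _ = _ := by
        rw [← mul_assoc (f 0) (scalarGL (Fin 3) z) A, ← hcen (f 0)]
        group

theorem covS_conj_left {k : ℕ} {A B : GL₃} (h : CovS k A B) (g : GL₃) :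
    CovS k (g * A * g⁻¹) (g * B * g⁻¹) := by
  obtain ⟨f, hf, rfl⟩ := h
  refine ⟨fun i => g * f i * g⁻¹, fun i => by simp [map_mul, hf], ?_⟩
  rw [conj_list_prod, List.map_ofFn]
  congr 2
  funext i
  simp only [Function.comp_apply]
  group

/-- Three conjugates by elements of determinant one cover in dimension three. -/
theorem covS_three [Fintype F] (hq : 4 ≤ Fintype.card F) (A : GL (Fin 3) F)
    (hA : 3 ≤ (minpoly F (A : Matrix (Fin 3) (Fin 3) F)).natDegree) :
    (∀ B, NonScalar B → GeneralLinearGroup.det B = GeneralLinearGroup.det A ^ 3 → CovS 3 A B) ∧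
      (GeneralLinearGroup.det A = 1 → ∃ (z : F) (Z : GL (Fin 3) F),
        (Z : Matrix (Fin 3) (Fin 3) F) = z • 1 ∧ CovS 3 A Z) := by
  classical
  have hcyc := hasCyclic_of_minpoly hA
  by_cases hfull : FullDet A
  · exact ⟨fun B hB hdet => (cov_three hq A hcyc B hB hdet).covS hfull, fun hd =>
      ⟨1, 1, by simp, (cov_three_one hq A hcyc (by
        rw [← GeneralLinearGroup.val_det_apply, hd, Units.val_one])).covS hfull⟩⟩
  obtain ⟨a, ha⟩ := (fullDet_or_triple A hcyc).resolve_left hfull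
  obtain ⟨ω, hω, hω1⟩ : ∃ ω : Fˣ, ω ^ 3 = 1 ∧ ω ≠ 1 := by
    by_contra! h
    refine hfull fun δ => ?_
    have hinj : Function.Injective fun x : Fˣ => x ^ 3 := fun x y hxy => by
      have := h (x * y⁻¹) (by rw [mul_pow, inv_pow]; exact mul_inv_eq_one.2 hxy)
      exact mul_inv_eq_one.1 this
    obtain ⟨x, hx⟩ := (Finite.injective_iff_surjective.1 hinj) δ
    refine ⟨scalarGL (Fin 3) x, Units.ext (by simp), Units.ext ?_⟩
    simp [← hx, det_smul]
  have ha0 : a ≠ 0 := fun h0 => by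
    have h1 := Matrix.det_eq_sign_charpoly_coeff (A : M₃)
    rw [ha, h0] at h1
    simp at h1
    exact ((Matrix.isUnit_iff_isUnit_det _).1 A.isUnit).ne_zero h1
  let au : Fˣ := Units.mk0 a ha0
  have hchar : (A : M₃).charpoly = (sUni au (1 : F) 1 0 : M₃).charpoly := by
    obtain ⟨h1, h2, h3⟩ := sUni_coeff au (1 : F) 1 0
    rw [ha, charpoly_three (sUni au (1 : F) 1 0 : M₃), h1, h2, h3]
    simp only [au, Units.val_mk0, map_mul, map_pow, map_ofNat]
    ring
  obtain ⟨g, hg⟩ := exists_conj_of_hasCyclic _ _ hcyc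
    (hasCyclic_of_kry (M := (sUni au (1 : F) 1 0 : M₃)) (v := Pi.single 2 1)
      (by rw [kry_sUni]; simp [au, ha0])) hchar
  have e : A = g * (scalarGL (Fin 3) au * u₀ F) * g⁻¹ := Units.ext hg
  set z := scalarGL (Fin 3) au with hz
  have hzd : det' z = au ^ 3 := Units.ext (by simp [z, det_smul])
  have hdA : det' A = au ^ 3 := by
    rw [e, map_mul, map_mul, map_inv, mul_inv_cancel_comm, map_mul, hzd, u₀, det_uni, mul_one]
  have hzc : ∀ x : GL₃, Commute z x := fun x => Units.ext (by simp [z])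
  have main : ∀ B₁ : GL₃, CovS 3 (u₀ F) B₁ → CovS 3 A (g * (z ^ 3 * B₁) * g⁻¹) := fun B₁ h => by
    rw [e]; exact covS_conj_left (covS_scale h au) g
  refine ⟨fun B hB hdet => ?_, fun hd => ?_⟩
  · set B₁ := (z ^ 3)⁻¹ * (g⁻¹ * B * g) with hB₁
    have h1 : B = g * (z ^ 3 * B₁) * g⁻¹ := by rw [hB₁, mul_inv_cancel_left]; group
    have hd1 : (B₁ : M₃).det = 1 := by
      have : det' B₁ = 1 := by
        rw [hB₁, map_mul, map_mul, map_mul, map_inv, map_inv, map_pow, hzd, hdet, hdA,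
          mul_right_comm (det' g)⁻¹, inv_mul_cancel, one_mul, inv_mul_cancel]
      rw [← GeneralLinearGroup.val_det_apply, this, Units.val_one]
    rw [h1]
    refine main B₁ (covS_three_u₀ hω hω1 B₁ (fun c hc => hB (((au : F)) ^ 3 * c) ?_) hd1)
    rw [h1, Units.val_mul, Units.val_mul, Units.val_mul, hc, Units.val_pow_eq_pow_val, hz,
      coe_scalarGL]
    rw [_root_.smul_pow, one_pow, smul_mul_assoc, one_mul, smul_smul, mul_smul_comm, mul_one,
      smul_mul_assoc, Units.mul_inv]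
  · refine ⟨1, 1, by simp, ?_⟩
    have h3 : z ^ 3 = 1 := by
      rw [hz, scalarGL, ← map_pow, ← hdA, hd, map_one]
    have := main 1 covS_three_one
    rwa [h3, mul_one, mul_one, mul_inv_cancel] at this

end CfsgLib.PSLCover
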