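import Cfsg.Agent.Lib.PSLCover.DimThreeBasic

/-!
Products of three conjugates, by elements of determinant one, of a regular unipotent matrix of
dimension three, when the field has a primitive cube root of unity.
-/

set_option autoImplicit false
set_option linter.style.haveILetI false
set_option linter.unusedSectionVars false

namespace CfsgLib.PSLCover.Three

open Matrix Polynomial
open CfsgLib.PSLCover

variable {F : Type*} [Field F]

local notation "M₃" => Matrix (Fin 3) (Fin 3) F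
local notation "GL₃" => GL (Fin 3) F
local notation "det'" => GeneralLinearGroup.det

/-- Upper unitriangular matrices. -/
def uni (a b r : F) : GL₃ where
  val := !![1, a, r; 0, 1, b; 0, 0, 1]
  inv := !![1, -a, a * b - r; 0, 1, -b; 0, 0, 1]
  val_inv := by
    refine Matrix.ext fun i j => ?_
    fin_cases i <;> fin_cases j <;> simp [Matrix.mul_apply, Fin.sum_univ_three] <;> ring
  inv_val := by
    refine Matrix.ext fun i j => ?_
    fin_cases i <;> fin_cases j <;> simp [Matrix.mul_apply, Fin.sum_univ_three] <;> ring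

@[simp] theorem coe_uni (a b r : F) : (uni a b r : M₃) = !![1, a, r; 0, 1, b; 0, 0, 1] := rfl

theorem uni_mul (a b r a' b' r' : F) :
    uni a b r * uni a' b' r' = uni (a + a') (b + b') (r + r' + a * b') := by
  refine Units.ext (Matrix.ext fun i j => ?_)
  fin_cases i <;> fin_cases j <;> simp [Matrix.mul_apply, Fin.sum_univ_three] <;> ring

theorem uni_inv (a b r : F) : (uni a b r)⁻¹ = uni (-a) (-b) (a * b - r) := Units.ext rfl

theorem uni_zero : uni (0 : F) 0 0 = 1 := Units.ext one_fin_three.symm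

theorem det_uni (a b r : F) : det' (uni a b r) = 1 :=
  Units.ext (by simp [det_fin_three])

/-- Scalar multiples of upper unitriangular matrices. -/
def sUni (β : Fˣ) (a b r : F) : GL₃ := scalarGL (Fin 3) β * uni a b r

@[simp] theorem coe_sUni (β : Fˣ) (a b r : F) :
    (sUni β a b r : M₃) =
      !![(β : F), β * a, β * r; 0, (β : F), β * b; 0, 0, (β : F)] := by
  refine Matrix.ext fun i j => ?_
  fin_cases i <;> fin_cases j <;> simp [sUni]

theorem sUni_one (a b r : F) : sUni (1 : Fˣ) a b r = uni a b r := by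
  rw [sUni, show scalarGL (Fin 3) (1 : Fˣ) = (1 : GL₃) from map_one _, one_mul]

theorem sUni_coeff (β : Fˣ) (a b r : F) :
    (sUni β a b r : M₃).trace = 3 * β ∧ m2 (sUni β a b r : M₃) = 3 * ((β : F) * β) ∧
      (sUni β a b r : M₃).det = (β : F) ^ 3 := by
  refine ⟨?_, ?_, ?_⟩
  · simp [trace_fin_three]; ring
  · simp [m2]; ring
  · simp [det_fin_three]; ring

theorem kry_sUni (β : Fˣ) (a b r : F) :
    (kry (sUni β a b r : M₃) (Pi.single 2 1)).det = -((β : F) ^ 3 * (a * b ^ 2)) := by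
  simp [kry, det_fin_three, mulVec, dotProduct, Fin.sum_univ_three]
  ring

/-- Regular triangular matrices in one class. -/
theorem exists_sl_conj_sUni (β : Fˣ) {a b r a' b' r' : F} (δ : F) (hδ : δ ≠ 0) (ha : a' ≠ 0)
    (hb : b' ≠ 0) (h : a * b ^ 2 = δ ^ 3 * (a' * b' ^ 2)) :
    ∃ g : GL₃, det' g = 1 ∧ sUni β a b r = g * sUni β a' b' r' * g⁻¹ := by
  obtain ⟨h1, h2, h3⟩ := sUni_coeff β a b r
  obtain ⟨k1, k2, k3⟩ := sUni_coeff β a' b' r'
  refine exists_sl_conj (charpoly_eq_three (h1.trans k1.symm) (h2.trans k2.symm) (h3.trans k3.symm))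
    (Pi.single 2 1) (Pi.single 2 1) δ ?_ hδ ?_
  · rw [kry_sUni]
    simp [ha, hb]
  · rw [kry_sUni, kry_sUni, h]
    ring

theorem covS_of_sl_conj {k : ℕ} {A B B' : GL₃} (h : CovS k A B')
    (hc : ∃ g : GL₃, det' g = 1 ∧ B = g * B' * g⁻¹) : CovS k A B := by
  obtain ⟨g, hg, rfl⟩ := hc
  exact h.conj g hg

variable (F) in
/-- The standard regular unipotent matrix. -/
def u₀ : GL₃ := uni 1 1 0

theorem u₀_coeff : (u₀ F : M₃).trace = 3 ∧ m2 (u₀ F : M₃) = 3 ∧ (u₀ F : M₃).det = 1 := by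
  have h := sUni_coeff (1 : Fˣ) (1 : F) 1 0
  rw [sUni_one] at h
  simpa [u₀] using h

theorem covS_one_uni {a b r : F} (δ : F) (hδ : δ ≠ 0) (h : a * b ^ 2 = δ ^ 3) :
    CovS 1 (u₀ F) (uni a b r) := by
  obtain ⟨g, hg, hgu⟩ := exists_sl_conj_sUni (1 : Fˣ) (r := r) (r' := 0) δ hδ one_ne_zero
    one_ne_zero (by simpa using h)
  rw [sUni_one, sUni_one] at hgu
  rw [hgu]
  exact covS_one _ g hg

/-- A matrix with the characteristic polynomial of `u₀` and a cube Krylov determinant. -/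
theorem covS_one_of_kry {P : GL₃} (ht : (P : M₃).trace = 3) (hm : m2 (P : M₃) = 3)
    (hd : (P : M₃).det = 1) (v : Fin 3 → F) (δ : F) (hδ : δ ≠ 0)
    (h : (kry (P : M₃) v).det = δ ^ 3) : CovS 1 (u₀ F) P := by
  obtain ⟨k1, k2, k3⟩ := u₀_coeff (F := F)
  have hK : (kry (u₀ F : M₃) (Pi.single 2 1)).det = -1 := by
    rw [u₀, ← sUni_one, kry_sUni]; simp
  obtain ⟨g, hg, rfl⟩ := exists_sl_conj (P := P) (Q := u₀ F)
    (charpoly_eq_three (ht.trans k1.symm) (hm.trans k2.symm) (hd.trans k3.symm)) v (Pi.single 2 1)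
    (-δ) (by rw [hK]; exact neg_ne_zero.2 one_ne_zero) (neg_ne_zero.2 hδ) (by rw [hK, h]; ring)
  exact covS_one _ g hg

/-- Hessenberg matrices in the class. -/
theorem covS_one_hess {P : GL₃} (ht : (P : M₃).trace = 3) (hm : m2 (P : M₃) = 3)
    (hd : (P : M₃).det = 1) (h20 : (P : M₃) 2 0 = 0) (δ : F) (hδ : δ ≠ 0)
    (hsub : (P : M₃) 1 0 ^ 2 * (P : M₃) 2 1 = δ ^ 3) : CovS 1 (u₀ F) P := by
  refine covS_one_of_kry ht hm hd (Pi.single 0 1) δ hδ ?_
  rw [← hsub]
  simp [kry, det_fin_three, mulVec, dotProduct, Fin.sum_univ_three, h20]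
  ring

variable (F) in
theorem covS_one_comp_inv (C' : GL₃) (hC : (C' : M₃) = comp3 1 (-3) 3) :
    CovS 1 (u₀ F) C'⁻¹ := by
  have hC' : CovS 1 (u₀ F) C' :=
    covS_one_hess (by simp [hC, comp3, trace_fin_three]) (by simp [hC, comp3, m2])
      (by simp [hC, comp3, det_fin_three]) (by simp [hC, comp3]) 1 one_ne_zero
      (by simp [hC, comp3])
  have hu : CovS 1 (u₀ F) (u₀ F)⁻¹ := by
    rw [u₀, uni_inv]
    exact covS_one_uni (-1) (neg_ne_zero.2 one_ne_zero) (by ring)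
  obtain ⟨f, hf, hfe⟩ := hC'
  have e : C' = f 0 * u₀ F * (f 0)⁻¹ := by simpa using hfe
  have h2 := hu.conj (f 0) (hf 0)
  rwa [show f 0 * (u₀ F)⁻¹ * (f 0)⁻¹ = C'⁻¹ by rw [e]; group] at h2

/-- Scalar multiples of regular unipotent matrices which are products of two conjugates. -/
theorem covS_two_sUni (β : Fˣ) (hβ : β ^ 3 = 1) {a b r : F} (s w δ : F) (hs : s ≠ 0) (hw : w ≠ 0)
    (hδ : δ ≠ 0) (hsum : (β : F) * (s + w) = 3 * (1 - β))
    (h : a * b ^ 2 = δ ^ 3 * (s * w ^ 2)) : CovS 2 (u₀ F) (sUni β a b r) := by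
  have hb3 : (β : F) ^ 3 = 1 := by
    rw [← Units.val_pow_eq_pow_val, hβ, Units.val_one]
  have hb0 : (β : F) ≠ 0 := β.ne_zero
  set r' := s * w + 3 * s + 3 - 3 * (β : F) with hr'
  let C' : GL₃ := GeneralLinearGroup.mkOfDetNeZero (comp3 1 (-3) 3) (by simp [comp3, det_fin_three])
  let P : GL₃ := sUni β s w r' * C'
  have hP : (P : M₃) = !![(β : F) * s, β * r', β * (1 - 3 * s + 3 * r'); (β : F), β * w,
      β * (-3 + 3 * w); 0, (β : F), β * 3] := by
    refine Matrix.ext fun i j => ?_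
    fin_cases i <;> fin_cases j <;>
      simp [P, C', comp3, Matrix.mul_apply, Fin.sum_univ_three] <;> ring
  have h1 : CovS 1 (u₀ F) P := by
    refine covS_one_hess ?_ ?_ ?_ (by simp [hP]) (β : F) hb0 (by simp [hP]; ring)
    · simp [hP, trace_fin_three]
      linear_combination hsum
    · simp [hP, m2, hr']
      linear_combination (3 : F) * hb3
    · have := (sUni_coeff β s w r').2.2
      rw [show (P : M₃) = (sUni β s w r' : M₃) * comp3 1 (-3) 3 from rfl, det_mul, this,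
        (comp3_coeff _ _ _).2.2, mul_one, hb3]
  have h2 := h1.mul (covS_one_comp_inv F C' rfl)
  rw [mul_inv_cancel_right] at h2
  exact covS_of_sl_conj h2 (exists_sl_conj_sUni β δ hδ hs hw h)

theorem covS_two_u₀ : CovS 2 (u₀ F) (u₀ F) := by
  have h : CovS 2 (u₀ F) (sUni 1 (1 : F) 1 0) :=
    covS_two_sUni 1 (one_pow 3) 1 (-1) 1 one_ne_zero (neg_ne_zero.2 one_ne_zero) one_ne_zero
      (by simp) (by simp)
  rwa [sUni_one] at h

theorem covS_three_of_two {Y : GL₃} (h : CovS 2 (u₀ F) Y) : CovS 3 (u₀ F) Y := by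
  obtain ⟨f, hf, rfl⟩ := h
  have h1 := covS_one (u₀ F) (f 0) (hf 0)
  have h2 := covS_one (u₀ F) (f 1) (hf 1)
  simpa using (covS_two_u₀.conj (f 0) (hf 0)).mul h2

theorem covS_three_one : CovS 3 (u₀ F) 1 := by
  have h : CovS 1 (u₀ F) (u₀ F)⁻¹ := by
    rw [u₀, uni_inv]
    exact covS_one_uni (-1) (neg_ne_zero.2 one_ne_zero) (by ring)
  simpa using covS_two_u₀.mul h

/-- Elementary transvections. -/
theorem covS_two_transvection {t : F} (ht : t ≠ 0) : CovS 2 (u₀ F) (uni t 0 0) := by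
  have h1 : CovS 1 (u₀ F) (uni (-1 : F) 1 0) :=
    covS_one_uni (-1) (neg_ne_zero.2 one_ne_zero) (by ring)
  have h2 : CovS 1 (u₀ F) (uni (1 : F) (-1) 0) := covS_one_uni 1 one_ne_zero (by ring)
  have h3 := h1.mul h2
  rw [uni_mul] at h3
  have hd : (!![t, 0, 0; 0, 0, 1; 0, -t⁻¹, 0] : M₃).det = 1 := by simp [det_fin_three, ht]
  let g : GL₃ := GeneralLinearGroup.mkOfDetNeZero _ (hd.trans_ne one_ne_zero)
  refine covS_of_sl_conj h3 ⟨g, Units.ext hd, ?_⟩
  rw [eq_mul_inv_iff_mul_eq]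
  refine Units.ext (Matrix.ext fun i j => ?_)
  fin_cases i <;> fin_cases j <;>
    simp [g, Matrix.mul_apply, Fin.sum_univ_three, ht]

/-- Companion matrices of determinant one. -/
theorem covS_three_comp {ω : Fˣ} (hω : ω ^ 3 = 1) (hω1 : ω ≠ 1) (B : GL₃) (c₁ c₂ : F)
    (hB : (B : M₃) = comp3 1 c₁ c₂) : CovS 3 (u₀ F) B := by
  have hω3 : (ω : F) ^ 3 = 1 := by rw [← Units.val_pow_eq_pow_val, hω, Units.val_one]
  have hω1' : (ω : F) ≠ 1 := fun h => hω1 (Units.ext h)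
  have h3 : (3 : F) ≠ 0 := by
    intro h
    refine hω1' (sub_eq_zero.1 (eq_zero_of_pow_eq_zero (n := 3) ?_))
    linear_combination hω3 + ((ω : F) - ω * ω) * h
  -- the scalar, and the two superdiagonal entries
  obtain ⟨β, a, d, hβ, ha, hd, hsum, hX⟩ : ∃ (β : Fˣ) (a d : F), β ^ 3 = 1 ∧ a ≠ 0 ∧ d ≠ 0 ∧
      (β : F) * (a + d + c₂) = 3 ∧ ∃ s w δ : F, s ≠ 0 ∧ w ≠ 0 ∧ δ ≠ 0 ∧
        ((β⁻¹ : Fˣ) : F) * (s + w) = 3 * (1 - ((β⁻¹ : Fˣ) : F)) ∧
        (-a) * (-d) ^ 2 = δ ^ 3 * (s * w ^ 2) := by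
    by_cases he : c₂ = 3
    · exact ⟨1, 1, -1, one_pow 3, one_ne_zero, neg_ne_zero.2 one_ne_zero, by simp [he],
        1, -1, -1, one_ne_zero, neg_ne_zero.2 one_ne_zero, neg_ne_zero.2 one_ne_zero,
        by simp, by ring⟩
    obtain ⟨β, hβ, hβ1, hβe⟩ : ∃ β : Fˣ, β ^ 3 = 1 ∧ β ≠ 1 ∧ 3 * ((β⁻¹ : Fˣ) : F) ≠ c₂ := by
      by_cases h : 3 * ((ω⁻¹ : Fˣ) : F) = c₂
      · refine ⟨ω⁻¹, by rw [inv_pow, hω, inv_one], fun h' => hω1 (inv_eq_one.1 h'), fun h' => ?_⟩
        rw [inv_inv, ← h] at h'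
        have h4 : ω * ω = 1 := by
          conv_lhs => rw [show ω * ω = ω * ω⁻¹ by rw [← Units.ext (mul_left_cancel₀ h3 h')]]
          exact mul_inv_cancel ω
        exact hω1 (by rw [pow_succ, pow_two, h4, one_mul] at hω; exact hω)
      · exact ⟨ω, hω, hω1, h⟩
    obtain ⟨t, ht0, ht1⟩ : ∃ t : F, t ≠ 0 ∧ t ≠ 1 := ⟨ω, ω.ne_zero, hω1'⟩
    set e := 3 * ((β⁻¹ : Fˣ) : F) - c₂ with he'
    have he0 : e ≠ 0 := sub_ne_zero.2 hβe
    set c := 3 * (1 - ((β⁻¹ : Fˣ) : F)) * (β : F) with hc'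
    have hc0 : c ≠ 0 := mul_ne_zero (mul_ne_zero h3 (sub_ne_zero.2 fun h => hβ1 (inv_eq_one.1
      (Units.ext h.symm)))) β.ne_zero
    have h1t : 1 - t ≠ 0 := sub_ne_zero.2 (Ne.symm ht1)
    refine ⟨β, t * e, (1 - t) * e, hβ, mul_ne_zero ht0 he0, mul_ne_zero h1t he0, ?_,
      t * c, (1 - t) * c, -e / c, mul_ne_zero ht0 hc0, mul_ne_zero h1t hc0,
      div_ne_zero (neg_ne_zero.2 he0) hc0, ?_, ?_⟩
    · have : (β : F) * ((β⁻¹ : Fˣ) : F) = 1 := Units.mul_inv β
      rw [show t * e + (1 - t) * e + c₂ = 3 * ((β⁻¹ : Fˣ) : F) by rw [he']; ring]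
      linear_combination (3 : F) * this
    · have : (β : F) * ((β⁻¹ : Fˣ) : F) = 1 := Units.mul_inv β
      rw [show t * c + (1 - t) * c = c by ring, hc']
      linear_combination 3 * (1 - ((β⁻¹ : Fˣ) : F)) * this
    · field_simp
  obtain ⟨s, w, δ, hs, hw, hδ, hsw, habd⟩ := hX
  have hb3 : (β : F) ^ 3 = 1 := by rw [← Units.val_pow_eq_pow_val, hβ, Units.val_one]
  set b := a * (d + c₂) - c₁ - 3 * (β : F) with hb
  let G : GL₃ := B * sUni β a d b
  have hG : (G : M₃) = !![0, 0, (β : F); (β : F), β * a, β * b + c₁ * β; 0, (β : F), β * d + c₂ * β] := by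
    refine Matrix.ext fun i j => ?_
    fin_cases i <;> fin_cases j <;>
      simp [G, hB, comp3, Matrix.mul_apply, Fin.sum_univ_three] <;> ring
  have hG1 : CovS 1 (u₀ F) G := by
    refine covS_one_hess ?_ ?_ ?_ (by simp [hG]) (β : F) β.ne_zero (by simp [hG]; ring)
    · simp [hG, trace_fin_three]
      linear_combination hsum
    · simp [hG, m2, hb]
      linear_combination (3 : F) * hb3
    · simp [hG, det_fin_three]
      linear_combination hb3
  have hinv : (sUni β a d b)⁻¹ = sUni β⁻¹ (-a) (-d) (a * d - b) := by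
    refine inv_eq_of_mul_eq_one_right (Units.ext (Matrix.ext fun i j => ?_))
    have : (β : F) * ((β⁻¹ : Fˣ) : F) = 1 := Units.mul_inv β
    fin_cases i <;> fin_cases j <;> simp [Matrix.mul_apply, Fin.sum_univ_three] <;> field_simp <;> ring
  have h2 : CovS 2 (u₀ F) (sUni β a d b)⁻¹ := hinv ▸
    covS_two_sUni β⁻¹ (by rw [inv_pow, hβ, inv_one]) s w δ hs hw hδ hsw habd
  have := hG1.mul h2
  rwa [mul_inv_cancel_right] at this

/-- Triangular matrices with a non-cube class. -/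
theorem covS_three_sUni {ω : Fˣ} (hω : ω ^ 3 = 1) (hω1 : ω ≠ 1) (β : Fˣ) (hβ : β ^ 3 = 1) (η : Fˣ) :
    CovS 3 (u₀ F) (sUni β (η : F) 1 0) := by
  have hb3 : (β : F) ^ 3 = 1 := by rw [← Units.val_pow_eq_pow_val, hβ, Units.val_one]
  by_cases hcube : ∃ δ : F, (η : F) = δ ^ 3
  · obtain ⟨δ, hδ⟩ := hcube
    have hδ0 : δ ≠ 0 := fun h => η.ne_zero (by rw [hδ, h]; ring)
    let B : GL₃ := GeneralLinearGroup.mkOfDetNeZero (comp3 1 (-(3 * ((β : F) * β))) (3 * (β : F)))
      (by simp [comp3, det_fin_three])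
    refine covS_of_sl_conj (covS_three_comp hω hω1 B _ _ rfl) ?_
    obtain ⟨h1, h2, h3'⟩ := sUni_coeff β (η : F) 1 0
    obtain ⟨k1, k2, k3⟩ := comp3_coeff (1 : F) (-(3 * ((β : F) * β))) (3 * (β : F))
    refine exists_sl_conj (charpoly_eq_three (h1.trans k1.symm) (h2.trans (by rw [show (B : M₃) = comp3 _ _ _ from rfl, k2, neg_neg]))
      (by rw [h3', hb3]; exact k3.symm)) (Pi.single 2 1) (Pi.single 0 1) (-δ) ?_
      (neg_ne_zero.2 hδ0) ?_
    · simp [B, comp3, kry, det_fin_three, mulVec, dotProduct, Fin.sum_univ_three]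
    · rw [kry_sUni, hb3, hδ]
      simp [B, comp3, kry, det_fin_three, mulVec, dotProduct, Fin.sum_univ_three]
      ring
  push Not at hcube
  have hη1 : (η : F) ≠ -1 := fun h => hcube (-1) (by rw [h]; ring)
  by_cases hβ1 : β = 1
  · subst hβ1
    rw [sUni_one]
    have ht : (η : F) - 1 ≠ 0 := fun h => hcube 1 (by rw [one_pow]; exact sub_eq_zero.1 h)
    have h := (covS_one_uni (a := (1 : F)) (b := 1) (r := 0) 1 one_ne_zero (by ring)).mul
      (covS_two_transvection ht)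
    rw [uni_mul] at h
    simpa using h
  have hβ1' : (β : F) ≠ 1 := fun h => hβ1 (Units.ext h)
  have h3 : (3 : F) ≠ 0 := by
    intro h
    refine hβ1' (sub_eq_zero.1 (eq_zero_of_pow_eq_zero (n := 3) ?_))
    linear_combination hb3 + ((β : F) - β * β) * h
  have hη2 : (1 : F) + (η : F) ^ 2 ≠ 0 := fun h => by
    refine hcube (1 / (η : F)) ?_
    field_simp
    linear_combination ((η : F) ^ 2 - 1) * h
  set c := 3 * (1 - (β : F)) / (β : F) with hc
  have hc0 : c ≠ 0 := div_ne_zero (mul_ne_zero h3 (sub_ne_zero.2 (Ne.symm hβ1'))) β.ne_zero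
  have hη0 : (η : F) ≠ 0 := η.ne_zero
  have h2 : CovS 2 (u₀ F) (sUni β (η : F) (1 / η) 0) := by
    refine covS_two_sUni β hβ ((η : F) ^ 2 / (1 + (η : F) ^ 2) * c) (c / (1 + (η : F) ^ 2))
      ((1 + (η : F) ^ 2) / ((η : F) * c)) (mul_ne_zero (div_ne_zero (pow_ne_zero _ hη0) hη2) hc0)
      (div_ne_zero hc0 hη2) (div_ne_zero hη2 (mul_ne_zero hη0 hc0)) ?_ ?_
    · rw [show (η : F) ^ 2 / (1 + (η : F) ^ 2) * c + c / (1 + (η : F) ^ 2) = c by field_simp; ring,
        hc, mul_div_cancel₀ _ β.ne_zero]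
    · field_simp
  have h := (covS_one_uni (a := (1 : F)) (b := 1) (r := 0) 1 one_ne_zero (by ring)).mul h2
  have hcomm : uni (1 : F) 1 0 * sUni β (η : F) (1 / η) 0 =
      sUni β (1 + η) (1 + 1 / η) (1 / η) := by
    rw [sUni, sUni, ← mul_assoc]
    refine Units.ext (Matrix.ext fun i j => ?_)
    fin_cases i <;> fin_cases j <;> simp [Matrix.mul_apply, Fin.sum_univ_three] <;> ring
  rw [hcomm] at h
  have h1η : 1 + (η : F) ≠ 0 := fun h => hη1 (eq_neg_of_add_eq_zero_right h)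
  refine covS_of_sl_conj h (exists_sl_conj_sUni β ((η : F) / (1 + η)) (div_ne_zero hη0 h1η) h1η ?_ ?_)
  · rw [one_add_div hη0]
    exact div_ne_zero (by rwa [add_comm]) hη0
  · field_simp
    ring

theorem covS_three_nonCyclic (hω3 : (3 : F) ≠ 0) {B : GL₃} (hB : NonScalar B)
    (hdeg : (minpoly F (B : M₃)).natDegree ≤ 2) (hd : (B : M₃).det = 1) : CovS 3 (u₀ F) B := by
  obtain ⟨k, p, f, g, c, hc, hp, hnd, hBk⟩ := exists_upForm B hB hdeg
  have hfull : FullDet B → ∀ C' : GL₃, CovS 3 (u₀ F) C' → (∃ u : GL₃, B = u * C' * u⁻¹) →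
      CovS 3 (u₀ F) B := by
    rintro hF C' hC ⟨u, rfl⟩
    obtain ⟨z, hz, hzd⟩ := hF (det' u)⁻¹
    refine covS_of_sl_conj hC ⟨z * u, by rw [map_mul, hzd, inv_mul_cancel], ?_⟩
    rw [_root_.mul_inv_rev, ← mul_assoc, mul_assoc z, mul_assoc z, hz, mul_inv_cancel_right]
  have hFull := fullDet_upForm hnd k hp hc hBk
  have hpc : p * c ^ 2 = 1 := by
    rw [← hd, hBk, det_mul, det_mul, mul_right_comm, ← det_mul, Units.mul_inv, det_one, one_mul]
    simp [upForm, det_fin_three]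
    ring
  by_cases hcp : c = 1 ∧ p = 1
  · obtain ⟨rfl, rfl⟩ := hcp
    refine hfull hFull (uni 1 0 0) (covS_three_of_two (covS_two_transvection one_ne_zero))
      (exists_conj_upForm (f' := 1) (g' := 0) hnd (fun _ => Or.inl one_ne_zero) k hBk ?_)
    exact Matrix.ext fun i j => by fin_cases i <;> fin_cases j <;> simp [upForm]
  set f' := 3 - 3 * c with hf'
  set g' := (3 * c * f' + 3 * c ^ 2 - 3) / c with hg'
  have hnd' : p = c → f' ≠ 0 ∨ g' ≠ 0 := fun h => Or.inl fun h0 => by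
    have h1 : c = 1 := mul_left_cancel₀ hω3 (by rw [hf'] at h0; linear_combination -h0)
    exact hcp ⟨h1, h ▸ h1⟩
  let C' : GL₃ := GeneralLinearGroup.mkOfDetNeZero (upForm p f' g' c)
    (by simp [upForm, det_fin_three, hp, hc])
  refine hfull hFull C' (covS_three_of_two ?_) (exists_conj_upForm hnd hnd' k hBk rfl)
  let K : GL₃ := GeneralLinearGroup.mkOfDetNeZero (comp3 1 (-3) 3) (by simp [comp3, det_fin_three])
  let X' : GL₃ := C' * K
  have hX : (X' : M₃) = !![f', g', p - 3 * f' + 3 * g'; c, 0, -3 * c; 0, c, 3 * c] := by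
    refine Matrix.ext fun i j => ?_
    fin_cases i <;> fin_cases j <;>
      simp [X', C', K, comp3, upForm, Matrix.mul_apply, Fin.sum_univ_three] <;> ring
  have h1 : CovS 1 (u₀ F) X' := by
    refine covS_one_hess ?_ ?_ ?_ (by simp [hX]) c hc (by simp [hX]; ring)
    · simp [hX, trace_fin_three, hf']
    · simp [hX, m2, hg']
      field_simp
      ring
    · rw [show (X' : M₃) = upForm p f' g' c * comp3 1 (-3) 3 from rfl, det_mul,
        (comp3_coeff _ _ _).2.2, mul_one]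
      simp [upForm, det_fin_three]
      linear_combination hpc
  have := h1.mul (covS_one_comp_inv F K rfl)
  rwa [mul_inv_cancel_right] at this

/-- Three conjugates of a regular unipotent matrix cover in determinant one. -/
theorem covS_three_u₀ [Fintype F] {ω : Fˣ} (hω : ω ^ 3 = 1) (hω1 : ω ≠ 1) (B : GL₃)
    (hB : NonScalar B) (hd : (B : M₃).det = 1) : CovS 3 (u₀ F) B := by
  have hω3 : (ω : F) ^ 3 = 1 := by rw [← Units.val_pow_eq_pow_val, hω, Units.val_one]
  have h3 : (3 : F) ≠ 0 := by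
    intro h
    refine hω1 (Units.ext (sub_eq_zero.1 (eq_zero_of_pow_eq_zero (n := 3) ?_)))
    rw [Units.val_one]
    linear_combination hω3 + ((ω : F) - ω * ω) * h
  rcases le_or_gt 3 (minpoly F (B : M₃)).natDegree with hdeg | hdeg
  swap
  · exact covS_three_nonCyclic h3 hB (by omega) hd
  have hcyc := hasCyclic_of_minpoly hdeg
  rcases fullDet_or_triple B hcyc with hF | ⟨β, hβ⟩
  · obtain ⟨g, hg⟩ := exists_comp3 B hcyc
    rw [hd] at hg
    let C' : GL₃ := GeneralLinearGroup.mkOfDetNeZero (comp3 1 (-m2 (B : M₃)) (B : M₃).trace)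
      (by simp [comp3, det_fin_three])
    obtain ⟨z, hz, hzd⟩ := hF (det' g)⁻¹
    refine covS_of_sl_conj (covS_three_comp hω hω1 C' _ _ rfl) ⟨z * g, ?_, ?_⟩
    · rw [map_mul, hzd, inv_mul_cancel]
    · have e : B = g * C' * g⁻¹ := Units.ext hg
      rw [_root_.mul_inv_rev, ← mul_assoc, mul_assoc z, mul_assoc z, ← e, hz, mul_inv_cancel_right]
  have hcoef := fun i => congrArg (fun q => Polynomial.coeff q i) hβ
  have hβ3 : β ^ 3 = 1 := by
    have h0 := Matrix.det_eq_sign_charpoly_coeff (B : M₃)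
    rw [hd, hβ, Fintype.card_fin, coeff_zero_eq_eval_zero] at h0
    simp at h0
    linear_combination -h0
  have hb0 : β ≠ 0 := fun h => by rw [h] at hβ3; norm_num at hβ3
  let βu : Fˣ := Units.mk0 β hb0
  obtain ⟨h1, h2, h3'⟩ := sUni_coeff βu (1 : F) 1 0
  have hchar : (B : M₃).charpoly = (sUni βu (1 : F) 1 0 : M₃).charpoly := by
    rw [hβ, charpoly_three (sUni βu (1 : F) 1 0 : M₃), h1, h2, h3']
    simp only [βu, Units.val_mk0, map_mul, map_pow, map_ofNat]
    ring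
  have hcyc' : HasCyclic (sUni βu (1 : F) 1 0 : M₃) :=
    hasCyclic_of_kry (v := Pi.single 2 1) (by rw [kry_sUni]; simp [βu, hb0])
  obtain ⟨g, hg⟩ := exists_conj_of_hasCyclic _ _ hcyc hcyc' hchar
  have e : B = g * sUni βu (1 : F) 1 0 * g⁻¹ := Units.ext hg
  let η := det' g
  let D : GL₃ := GeneralLinearGroup.mkOfDetNeZero !![(η : F), 0, 0; 0, 1, 0; 0, 0, 1]
    (by simp [det_fin_three])
  have hD : det' D = η := Units.ext (by simp [D, det_fin_three])
  have hDconj : sUni βu (η : F) 1 0 * D = D * sUni βu (1 : F) 1 0 := by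
    refine Units.ext (Matrix.ext fun i j => ?_)
    fin_cases i <;> fin_cases j <;> simp [D, Matrix.mul_apply, Fin.sum_univ_three, mul_comm]
  refine covS_of_sl_conj (covS_three_sUni hω hω1 βu (Units.ext (by simpa [βu] using hβ3)) η)
    ⟨g * D⁻¹, by rw [map_mul, map_inv, hD]; exact mul_inv_cancel _, ?_⟩
  rw [_root_.mul_inv_rev, inv_inv, ← mul_assoc, mul_assoc (g * D⁻¹), hDconj, ← mul_assoc,
    inv_mul_cancel_right, e]

end CfsgLib.PSLCover.Three
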