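import Mathlib

/-!
A product of fewer than `n` transvections fixes a vector, so not every element of `PSL n F` is a
product of `n - 1` conjugates of a transvection.
-/

set_option autoImplicit false
set_option linter.unusedSectionVars false

namespace CfsgLib.PSLCover

open Matrix

variable {F : Type*} [Field F]

/-- The companion matrix of `X ^ (m + 2) + a X + (-1) ^ m`. -/
def lowComp (m : ℕ) (a : F) : Matrix (Fin (m + 2)) (Fin (m + 2)) F :=
  Matrix.of fun i j => if j = Fin.last (m + 1) then
      (if i = 0 then (-1) ^ (m + 1) else if i = 1 then -a else 0)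
    else (if i.val = j.val + 1 then 1 else 0)

theorem lowComp_succ_castSucc (m : ℕ) (a : F) (i j : Fin (m + 1)) :
    lowComp m a i.succ j.castSucc = if j = i then 1 else 0 := by
  simp only [lowComp, Matrix.of_apply, if_neg (Fin.castSucc_lt_last j).ne, Fin.val_succ,
    Fin.val_castSucc]
  by_cases h : j = i
  · rw [if_pos (by rw [h]), if_pos h]
  · rw [if_neg (fun e => h (Fin.ext (by omega))), if_neg h]

theorem lowComp_succ_last (m : ℕ) (a : F) (i : Fin (m + 1)) :
    lowComp m a i.succ (Fin.last (m + 1)) = if i = 0 then -a else 0 := by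
  simp only [lowComp, Matrix.of_apply, if_true, if_neg (Fin.succ_ne_zero i)]
  by_cases h : i = 0
  · subst h; rw [if_pos rfl, if_pos (Fin.succ_zero_eq_one)]
  · rw [if_neg h, if_neg (fun e => h (Fin.succ_injective _ (e.trans Fin.succ_zero_eq_one.symm)))]

theorem det_lowComp (m : ℕ) (a : F) : (lowComp m a).det = 1 := by
  rw [det_succ_row_zero, Finset.sum_eq_single (Fin.last (m + 1))]
  · have h1 : (lowComp m a).submatrix Fin.succ (Fin.succAbove (Fin.last (m + 1))) = 1 := by
      ext i j
      rw [submatrix_apply, Fin.succAbove_last, lowComp_succ_castSucc, Matrix.one_apply]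
      simp only [eq_comm]
    rw [h1, det_one]
    simp [lowComp, ← pow_add]
  · intro j _ hj
    simp [lowComp, hj]
  · simp

theorem eigen_lowComp {m : ℕ} {a μ : F} {v : Fin (m + 2) → F} (hv : v ≠ 0)
    (h : lowComp m a *ᵥ v = μ • v) : μ ^ (m + 2) + a * μ + (-1) ^ m = 0 := by
  set L := Fin.last (m + 1) with hL
  have hrow : ∀ i : Fin (m + 1), v i.castSucc + (if i = 0 then -a else 0) * v L = μ * v i.succ := by
    intro i
    have h1 := congrFun h i.succ
    rw [Pi.smul_apply, smul_eq_mul, mulVec, dotProduct, Fin.sum_univ_castSucc] at h1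
    simp only [lowComp_succ_castSucc, lowComp_succ_last, ite_mul, one_mul, zero_mul,
      Finset.sum_ite_eq', Finset.mem_univ, if_true] at h1
    rw [← h1]
    simp only [ite_mul, zero_mul, hL]
  have htop : (-1) ^ (m + 1) * v L = μ * v 0 := by
    have h1 := congrFun h 0
    rw [Pi.smul_apply, smul_eq_mul, mulVec, dotProduct, Fin.sum_univ_castSucc,
      Finset.sum_eq_zero fun j _ => by simp [lowComp, (Fin.castSucc_lt_last j).ne]] at h1
    rw [← h1]
    simp [lowComp, hL]
  have hpow : ∀ k : ℕ, ∀ i : Fin (m + 2), i.val + k = m + 1 → i ≠ 0 → v i = μ ^ k * v L := by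
    intro k
    induction k with
    | zero => intro i hi _; rw [show i = L from Fin.ext (by simpa [hL] using hi)]; simp
    | succ k ih =>
      intro i hi hi0
      have hv0 : i.val ≠ 0 := fun e => hi0 (Fin.ext e)
      obtain ⟨j, rfl⟩ : ∃ j : Fin (m + 1), j.castSucc = i :=
        ⟨⟨i.val, by omega⟩, Fin.ext rfl⟩
      have hj0 : j ≠ 0 := fun e => hi0 (by simp [e])
      have h2 := hrow j
      rw [if_neg hj0, zero_mul, add_zero] at h2
      rw [h2, ih j.succ (by simp at hi ⊢; omega) (Fin.succ_ne_zero j)]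
      ring
  have h1 := hrow 0
  rw [if_pos rfl, hpow m (Fin.succ 0) (by simp; omega) (Fin.succ_ne_zero 0)] at h1
  simp only [Fin.castSucc_zero] at h1
  have hvL : v L ≠ 0 := by
    intro e
    refine hv (funext fun i => ?_)
    by_cases hi : i = 0
    · subst hi
      simpa [e] using h1
    · rw [hpow (m + 1 - i.val) i (by omega) hi, e, mul_zero, Pi.zero_apply]
  refine (mul_eq_zero.1 ?_).resolve_right hvL
  linear_combination (exp := 1) -μ * h1 - htop

/-- A root-free choice of the coefficient. -/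
theorem exists_no_root_of_unity (m : ℕ) :
    ∃ a : F, ∀ z : F, z ^ (m + 2) = 1 → z ^ (m + 2) + a * z + (-1) ^ m ≠ 0 := by
  by_cases h : (1 : F) + (-1) ^ m = 0
  · refine ⟨1, fun z hz e => ?_⟩
    have h0 : z = 0 := by linear_combination e - hz - h
    rw [h0, zero_pow (by omega)] at hz
    exact zero_ne_one hz
  · exact ⟨0, fun z hz e => h (by linear_combination e - hz)⟩

/-- An intersection of fewer than `n` hyperplanes is nonzero. -/
theorem exists_common_zero {n k : ℕ} (hk : k < n) (φ : Fin k → (Fin n → F) →ₗ[F] F) :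
    ∃ v : Fin n → F, v ≠ 0 ∧ ∀ i, φ i v = 0 := by
  by_contra h
  push Not at h
  have hinj : Function.Injective (LinearMap.pi φ) := by
    refine (injective_iff_map_eq_zero _).2 fun v hv => ?_
    by_contra hv0
    obtain ⟨i, hi⟩ := h v hv0
    exact hi (congrFun hv i)
  have := LinearMap.finrank_le_finrank_of_injective hinj
  simp at this
  omega

theorem mulVec_list_prod {n : ℕ} (v : Fin n → F) :
    ∀ l : List (Matrix (Fin n) (Fin n) F), (∀ M ∈ l, M *ᵥ v = v) → l.prod *ᵥ v = v
  | [], _ => by simp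
  | M :: l, h => by
    rw [List.prod_cons, ← mulVec_mulVec, mulVec_list_prod v l fun N hN => h N (List.mem_cons_of_mem _ hN),
      h M (List.mem_cons_self ..)]

/-- Not every element is a product of `n - 1` conjugates of a transvection. -/
theorem exists_not_prod_conj (n : ℕ) (hn : 3 ≤ n) :
    ∃ x : Matrix.ProjectiveSpecialLinearGroup (Fin n) F, x ≠ 1 ∧
      ∃ g : Matrix.ProjectiveSpecialLinearGroup (Fin n) F,
        ∀ f : Fin (n - 1) → Matrix.ProjectiveSpecialLinearGroup (Fin n) F,
          g ≠ (List.ofFn fun i => f i * x * (f i)⁻¹).prod := by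
  classical
  obtain ⟨m, rfl⟩ : ∃ m, n = m + 2 := ⟨n - 2, by omega⟩
  obtain ⟨a, ha⟩ := exists_no_root_of_unity (F := F) m
  let o : Fin (m + 2) := 1
  let T : Matrix.SpecialLinearGroup (Fin (m + 2)) F :=
    ⟨Matrix.transvection 0 o (1 : F), det_transvection_of_ne 0 o (by simp [o]) 1⟩
  let G : Matrix.SpecialLinearGroup (Fin (m + 2)) F := ⟨lowComp m a, det_lowComp m a⟩
  have hmk : ∀ A B : Matrix.SpecialLinearGroup (Fin (m + 2)) F,
      (QuotientGroup.mk A : Matrix.ProjectiveSpecialLinearGroup (Fin (m + 2)) F) = QuotientGroup.mk B →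
      ∃ z : F, z ^ (m + 2) = 1 ∧ (B : Matrix (Fin (m + 2)) (Fin (m + 2)) F) = z • (A : Matrix _ _ F) := by
    intro A B e
    obtain ⟨z, hz, hz'⟩ := (Matrix.SpecialLinearGroup.mem_center_iff).1 (QuotientGroup.eq.1 e)
    refine ⟨z, by simpa using hz, ?_⟩
    have h1 : (B : Matrix (Fin (m + 2)) (Fin (m + 2)) F) =
        (A : Matrix _ _ F) * ((A⁻¹ * B : Matrix.SpecialLinearGroup (Fin (m + 2)) F) : Matrix _ _ F) := by
      rw [← Matrix.SpecialLinearGroup.coe_mul, mul_inv_cancel_left]
    rw [h1, ← hz', Matrix.scalar_apply]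
    ext i j
    simp [Matrix.mul_apply, Matrix.diagonal_apply, mul_comm]
  refine ⟨QuotientGroup.mk T, fun e => ?_, QuotientGroup.mk G, fun f e => ?_⟩
  · obtain ⟨z, -, hz⟩ := hmk 1 T (by simpa using e.symm)
    have := congrFun (congrFun hz 0) o
    simp [T, o, Matrix.transvection] at this
  choose P hP using fun i => QuotientGroup.mk_surjective (f i)
  have e' : (QuotientGroup.mk G : Matrix.ProjectiveSpecialLinearGroup (Fin (m + 2)) F) =
      QuotientGroup.mk (List.ofFn fun i => P i * T * (P i)⁻¹).prod := by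
    rw [e]
    refine (congrArg List.prod ?_).trans (map_list_prod (QuotientGroup.mk' _) _).symm
    rw [List.map_ofFn]
    congr 1
    funext i
    simp only [Function.comp_apply, map_mul, map_inv, QuotientGroup.mk'_apply, ← hP]
  obtain ⟨z, hz, hzM⟩ := hmk _ _ e'
  let φ : Fin (m + 2 - 1) → (Fin (m + 2) → F) →ₗ[F] F := fun i =>
    (LinearMap.proj o).comp (Matrix.mulVecLin ((P i)⁻¹ : Matrix.SpecialLinearGroup (Fin (m + 2)) F).1)
  obtain ⟨v, hv0, hv⟩ := exists_common_zero (by omega) φ
  have hfix : ∀ i, ((P i * T * (P i)⁻¹ : Matrix.SpecialLinearGroup (Fin (m + 2)) F) :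
      Matrix (Fin (m + 2)) (Fin (m + 2)) F) *ᵥ v = v := by
    intro i
    set w := ((P i)⁻¹ : Matrix.SpecialLinearGroup (Fin (m + 2)) F).1 *ᵥ v with hw
    have hwo : w o = 0 := hv i
    have hT : (T : Matrix (Fin (m + 2)) (Fin (m + 2)) F) *ᵥ w = w := by
      show Matrix.transvection 0 o (1 : F) *ᵥ w = w
      rw [Matrix.transvection, add_mulVec, one_mulVec, single_mulVec, hwo]
      simp
    rw [Matrix.SpecialLinearGroup.coe_mul, Matrix.SpecialLinearGroup.coe_mul, ← mulVec_mulVec, ← hw,
      ← mulVec_mulVec, hT, hw, mulVec_mulVec, ← Matrix.SpecialLinearGroup.coe_mul, mul_inv_cancel,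
      Matrix.SpecialLinearGroup.coe_one, one_mulVec]
  have hMv : ((List.ofFn fun i => P i * T * (P i)⁻¹).prod : Matrix.SpecialLinearGroup (Fin (m + 2)) F).1
      *ᵥ v = v := by
    have h1 := map_list_prod (Matrix.SpecialLinearGroup.toGL.comp (MonoidHom.id _) |> fun h =>
      (Units.coeHom (Matrix (Fin (m + 2)) (Fin (m + 2)) F)).comp h)
      (List.ofFn fun i => P i * T * (P i)⁻¹)
    refine (congrArg (· *ᵥ v) (show _ = _ from h1)).trans (mulVec_list_prod v _ ?_)
    intro M hM
    rw [List.map_ofFn, List.mem_ofFn'] at hM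
    obtain ⟨i, rfl⟩ := hM
    exact hfix i
  have hz0 : z ≠ 0 := fun e0 => by simp [e0] at hz
  refine ha z⁻¹ (by rw [inv_pow, hz, inv_one]) (eigen_lowComp hv0 ?_)
  have h2 : z • (lowComp m a *ᵥ v) = v := by
    rw [← smul_mulVec]
    have := congrArg (· *ᵥ v) hzM
    simp only [hMv] at this
    exact this.symm
  calc lowComp m a *ᵥ v = z⁻¹ • (z • (lowComp m a *ᵥ v)) := (inv_smul_smul₀ hz0 _).symm
    _ = z⁻¹ • v := by rw [h2]

end CfsgLib.PSLCover
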