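import Cfsg.Agent.Lib.PSLCover.QuadNormal

/-!
Products of conjugates of `1 + D` with `D * D = γ • D`: templates, and products of upper triangular
factors.
-/

set_option autoImplicit false
set_option linter.unusedSectionVars false

namespace CfsgLib.PSLCover

open Matrix

variable {F : Type*} [Field F] {n : ℕ}

/-- The statement of the factorisation into cyclic split factors. -/
def SourourCyc (F : Type*) [Field F] (n : ℕ) : Prop :=
  ∀ B : GL (Fin n) F, NonScalar B → ∀ β γ : Fin n → F, (∀ i, β i ≠ 0) → (∀ i, γ i ≠ 0) →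
    Matrix.det (B : Matrix (Fin n) (Fin n) F) = (∏ i, β i) * ∏ i, γ i →
      ∃ L U : GL (Fin n) F, B = L * U ∧ SplitCyc (L : Matrix (Fin n) (Fin n) F) β ∧
        SplitCyc (U : Matrix (Fin n) (Fin n) F) γ

/-- `A = 1 + D` with `D * D = γ • D` of rank `r`. -/
def IsSq (A : GL (Fin n) F) (γ : F) (r : ℕ) : Prop :=
  ((A : Matrix (Fin n) (Fin n) F) - 1) * ((A : Matrix (Fin n) (Fin n) F) - 1) =
      γ • ((A : Matrix (Fin n) (Fin n) F) - 1) ∧
    mrank ((A : Matrix (Fin n) (Fin n) F) - 1) = r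

variable {A : GL (Fin n) F} {γ : F} {r : ℕ}

theorem IsSq.add_one_ne_zero (h : IsSq A γ r) (hr : r ≠ 0) : 1 + γ ≠ 0 := by
  intro e
  have hγ : γ = -1 := eq_neg_of_add_eq_zero_right e
  obtain ⟨h1, h2⟩ := h
  rw [hγ, neg_one_smul, eq_neg_iff_add_eq_zero, ← mul_add_one, sub_add_cancel] at h1
  have h3 : (A : Matrix (Fin n) (Fin n) F) - 1 = 0 := (Units.mul_left_eq_zero A).1 h1
  refine hr (h2.symm.trans ?_)
  rw [h3, mrank, map_zero, LinearMap.range_zero, finrank_bot]

/-- `1 + D` as a unit. -/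
noncomputable def sqUnit (D : Matrix (Fin n) (Fin n) F) (h : D * D = γ • D) (hγ : 1 + γ ≠ 0) :
    GL (Fin n) F where
  val := 1 + D
  inv := 1 - (1 + γ)⁻¹ • D
  val_inv := by
    rw [mul_sub, mul_one, Matrix.mul_smul, add_mul, one_mul, h,
      show D + γ • D = (1 + γ) • D by rw [add_smul, one_smul], inv_smul_smul₀ hγ, add_sub_cancel_right]
  inv_val := by
    rw [sub_mul, one_mul, Matrix.smul_mul, mul_add, mul_one, h,
      show D + γ • D = (1 + γ) • D by rw [add_smul, one_smul], inv_smul_smul₀ hγ, add_sub_cancel_right]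

theorem coe_sqUnit (D : Matrix (Fin n) (Fin n) F) (h : D * D = γ • D) (hγ : 1 + γ ≠ 0) :
    ((sqUnit D h hγ : GL (Fin n) F) : Matrix (Fin n) (Fin n) F) = 1 + D := rfl

/-- Elements `1 + D'` of the same shape are conjugate to `A`. -/
theorem IsSq.exists_conj (h : IsSq A γ r) {y : GL (Fin n) F} (hy : IsSq y γ r) :
    ∃ g : GL (Fin n) F, y = g * A * g⁻¹ := by
  obtain ⟨P, hP⟩ := exists_conj_matrix hy.1 h.1 (h.2.trans hy.2.symm)
  refine ⟨P, ?_⟩
  rw [eq_mul_inv_iff_mul_eq]
  refine Units.ext ?_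
  rw [Units.val_mul, Units.val_mul]
  rw [mul_sub, sub_mul, mul_one, one_mul, sub_left_inj] at hP
  exact hP.symm

theorem IsSq.cov_one (h : IsSq A γ r) {y : GL (Fin n) F} (hy : IsSq y γ r) : Cov 1 A y := by
  obtain ⟨g, rfl⟩ := h.exists_conj hy
  exact PSLCover.cov_one A g

theorem isSq_sqUnit_tpl {I : Finset (Fin n)} {s : Fin n → F} {c : Fin n → Fin n}
    (h : γ ≠ 0 ∧ (∀ i ∈ I, s i ≠ 0 → c i ∉ I) ∨
      (∀ i ∈ I, s i ≠ 0 ∧ c i ∉ I) ∧ Set.InjOn c I)
    (hsq : tpl γ I s c * tpl γ I s c = γ • tpl γ I s c) (hγ : 1 + γ ≠ 0) :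
    IsSq (sqUnit (tpl γ I s c) hsq hγ) γ I.card := by
  simp only [IsSq, coe_sqUnit, add_sub_cancel_left]
  exact ⟨hsq, mrank_tpl h⟩

theorem fullDet_conj (g : GL (Fin n) F) (h : FullDet A) : FullDet (g * A * g⁻¹) := by
  intro δ
  obtain ⟨c, hc, hd⟩ := h δ
  refine ⟨g * c * g⁻¹, ?_, by rw [map_mul, map_mul, map_inv, mul_inv_cancel_comm, hd]⟩
  calc g * c * g⁻¹ * (g * A * g⁻¹) = g * (c * A) * g⁻¹ := by group
    _ = g * A * g⁻¹ * (g * c * g⁻¹) := by rw [hc]; group

/-- An element `1 + D` outside the case `γ = 0`, `n = 2 r` has all determinants in its centraliser. -/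
theorem IsSq.fullDet (h : IsSq A γ r) (hr0 : r ≠ 0) (hr : γ ≠ 0 ∧ r < n ∨ 2 * r < n) :
    FullDet A := by
  classical
  have hrn : r < n := by rcases hr with h | h <;> omega
  let I : Finset (Fin n) := Finset.univ.filter fun i => i.val < r
  let i₀ : Fin n := ⟨r, hrn⟩
  let s : Fin n → F := fun _ => if γ = 0 then 1 else 0
  let c : Fin n → Fin n := Fin.rev
  have hI : I.card = r := by
    simp only [I]
    rw [Fin.card_filter_val_lt, min_eq_right hrn.le]
  have hsep : γ = 0 → ∀ i ∈ I, c i ∉ I ∧ c i ≠ i₀ := by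
    intro hγ i hi
    have h2 : 2 * r < n := hr.resolve_left fun e => e.1 hγ
    simp only [I, Finset.mem_filter, Finset.mem_univ, true_and] at hi ⊢
    simp only [c, i₀, ne_eq, Fin.ext_iff, Fin.val_rev]
    omega
  have hs : ∀ i ∈ I, s i ≠ 0 → c i ∉ I := fun i hi hne => by
    by_cases hγ : γ = 0
    · exact (hsep hγ i hi).1
    · simp [s, hγ] at hne
  have hcond : γ ≠ 0 ∧ (∀ i ∈ I, s i ≠ 0 → c i ∉ I) ∨
      (∀ i ∈ I, s i ≠ 0 ∧ c i ∉ I) ∧ Set.InjOn c I := by
    by_cases hγ : γ = 0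
    · exact Or.inr ⟨fun i hi => ⟨by simp [s, hγ], (hsep hγ i hi).1⟩, Fin.rev_injective.injOn⟩
    · exact Or.inl ⟨hγ, hs⟩
  have hy := isSq_sqUnit_tpl hcond (tpl_sq hs) (h.add_one_ne_zero hr0)
  rw [hI] at hy
  obtain ⟨g, hg⟩ := h.exists_conj hy
  have key : FullDet (sqUnit (tpl γ I s c) (tpl_sq hs) (h.add_one_ne_zero hr0)) := by
    intro δ
    let d : Fin n → F := fun i => if i = i₀ then δ else 1
    have hd : (diagonal d).det = (δ : F) := by
      rw [det_diagonal, Finset.prod_ite_eq' Finset.univ i₀ (fun _ => (δ : F))]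
      simp
    have hd0 : (diagonal d).det ≠ 0 := by rw [hd]; exact δ.ne_zero
    refine ⟨GeneralLinearGroup.mkOfDetNeZero (diagonal d) hd0, Units.ext ?_, Units.ext hd⟩
    show diagonal d * (1 + tpl γ I s c) = (1 + tpl γ I s c) * diagonal d
    rw [mul_add, add_mul, one_mul, mul_one, add_right_inj]
    ext i l
    rw [diagonal_mul, mul_diagonal]
    by_cases hi : i ∈ I
    · have hi0 : i ≠ i₀ := fun e => by simp [I, e, i₀] at hi
      have hl : l = i₀ → tpl γ I s c i l = 0 := fun e => by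
        subst e
        simp only [tpl, of_apply, if_pos hi, if_neg (Ne.symm hi0), zero_add]
        by_cases hγ : γ = 0
        · rw [if_neg fun e => (hsep hγ i hi).2 e.symm]
        · simp [s, hγ]
      by_cases hl0 : l = i₀
      · simp [hl hl0]
      · simp [d, hi0, hl0]
    · simp [tpl, hi]
  have := fullDet_conj g⁻¹ key
  rwa [hg, show g⁻¹ * (g * A * g⁻¹) * g⁻¹⁻¹ = A by group] at this

/-- A `SplitCyc` element reached by `j` factors gives every one with the same roots. -/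
theorem covS_of_splitCyc (hA : FullDet A) {j : ℕ} {L₀ L : GL (Fin n) F} (h : Cov j A L₀)
    {β : Fin n → F} (h₀ : SplitCyc (L₀ : Matrix (Fin n) (Fin n) F) β)
    (hL : SplitCyc (L : Matrix (Fin n) (Fin n) F) β) : CovS j A L := by
  obtain ⟨P, hP⟩ := exists_conj_of_hasCyclic (L : Matrix (Fin n) (Fin n) F) _ hL.1 h₀.1
    (hL.2.trans h₀.2.symm)
  obtain rfl : L = P * L₀ * P⁻¹ := Units.ext (by rw [hP]; simp)
  exact (h.conj P).covS hA

/-- Two split cyclic elements reached by `j` factors cover with `2 j` factors. -/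
theorem covS_two (hSour : SourourCyc F n) (hA : FullDet A) {j : ℕ} {L₀ : GL (Fin n) F}
    (h : Cov j A L₀) {β : Fin n → F} (h₀ : SplitCyc (L₀ : Matrix (Fin n) (Fin n) F) β)
    (B : GL (Fin n) F) (hB : NonScalar B)
    (hdet : GeneralLinearGroup.det B = GeneralLinearGroup.det A ^ (j + j)) :
    CovS (j + j) A B := by
  have hdet0 : (L₀ : Matrix (Fin n) (Fin n) F).det = ∏ i, β i := by
    rw [det_eq_sign_charpoly_coeff, h₀.2, Polynomial.coeff_zero_eq_eval_zero, Polynomial.eval_prod]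
    simp [Finset.prod_neg, ← mul_assoc, ← pow_add, Fintype.card_fin]
  have hβ : ∀ i, β i ≠ 0 := fun i e => by
    refine (GeneralLinearGroup.det L₀).ne_zero ?_
    show (L₀ : Matrix (Fin n) (Fin n) F).det = 0
    rw [hdet0]
    exact Finset.prod_eq_zero (Finset.mem_univ i) e
  obtain ⟨L, U, rfl, hL, hU⟩ := hSour B hB β β hβ hβ (by
    have h1 := congrArg (fun u : Fˣ => (u : F)) hdet
    rw [pow_add, ← h.det_eq] at h1
    simpa [hdet0] using h1)
  exact (covS_of_splitCyc hA h h₀ hL).mul (covS_of_splitCyc hA h h₀ hU)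

section UpperTri

/-- Upper triangular. -/
def IsUT (M : Matrix (Fin n) (Fin n) F) : Prop := ∀ i j, j < i → M i j = 0

theorem IsUT.mul_apply_diag {M N : Matrix (Fin n) (Fin n) F} (hM : IsUT M) (hN : IsUT N) (i : Fin n) :
    (M * N) i i = M i i * N i i := by
  rw [Matrix.mul_apply, Finset.sum_eq_single i]
  · intro l _ hl
    rcases lt_or_gt_of_ne hl with h | h
    · rw [hM i l h, zero_mul]
    · rw [hN l i h, mul_zero]
  · simp

theorem IsUT.mul_apply_super {M N : Matrix (Fin n) (Fin n) F} (hM : IsUT M) (hN : IsUT N)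
    {i i' : Fin n} (h : i.val + 1 = i'.val) :
    (M * N) i i' = M i i * N i i' + M i i' * N i' i' := by
  have hne : i ≠ i' := fun e => by rw [e] at h; omega
  rw [Matrix.mul_apply, ← Finset.sum_subset (s₁ := {i, i'}) (Finset.subset_univ _),
    Finset.sum_pair hne]
  intro l _ hl
  simp only [Finset.mem_insert, Finset.mem_singleton, not_or] at hl
  rcases lt_or_gt_of_ne hl.1 with h1 | h1
  · rw [hM i l h1, zero_mul]
  · have h2 := Fin.lt_def.1 h1
    have h3 : l.val ≠ i'.val := fun e => hl.2 (Fin.ext e)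
    rw [hN l i' (Fin.lt_def.2 (by omega)), mul_zero]

theorem IsUT.mul {M N : Matrix (Fin n) (Fin n) F} (hM : IsUT M) (hN : IsUT N) : IsUT (M * N) := by
  intro i j hij
  rw [Matrix.mul_apply]
  refine Finset.sum_eq_zero fun l _ => ?_
  rcases lt_or_ge l i with h | h
  · rw [hM i l h, zero_mul]
  · rw [hN l j (lt_of_lt_of_le hij h), mul_zero]

theorem isUT_one : IsUT (1 : Matrix (Fin n) (Fin n) F) := fun _ _ h => Matrix.one_apply_ne h.ne'

/-- A product of upper triangular matrices: diagonal, and superdiagonal. -/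
theorem isUT_prod (i i' : Fin n) (hii : i.val + 1 = i'.val) :
    ∀ (k : ℕ) (f : Fin k → Matrix (Fin n) (Fin n) F), (∀ a, IsUT (f a)) →
      IsUT (List.ofFn f).prod ∧ (∀ l, (List.ofFn f).prod l l = ∏ a, f a l l) ∧
      ((∀ a, f a i i' = 0) → (List.ofFn f).prod i i' = 0) ∧
      ((∀ a, f a i i = 1 ∧ f a i' i' = 1) → (List.ofFn f).prod i i' = ∑ a, f a i i') ∧
      ((∀ a l, f a l l ≠ 0) → (∃! a, f a i i' ≠ 0) → (List.ofFn f).prod i i' ≠ 0)
  | 0, f, _ => by
    refine ⟨by simpa using isUT_one, fun l => by simp, fun _ => ?_, fun _ => ?_,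
      fun _ ⟨a, _⟩ => a.elim0⟩
    all_goals
      have : i ≠ i' := fun e => by rw [e] at hii; omega
      simp [Matrix.one_apply_ne this]
  | k + 1, f, hf => by
    obtain ⟨ih1, ih2, ih3, ih4, ih5⟩ := isUT_prod i i' hii k (fun a => f a.succ) fun a => hf _
    simp only [List.ofFn_succ, List.prod_cons]
    refine ⟨(hf 0).mul ih1, fun l => ?_, fun h => ?_, fun h => ?_, fun h ⟨a, ha, hu⟩ => ?_⟩
    · rw [(hf 0).mul_apply_diag ih1, ih2, Fin.prod_univ_succ]
    · rw [(hf 0).mul_apply_super ih1 hii, ih3 (fun a => h _), h 0, mul_zero, zero_mul, add_zero]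
    · rw [(hf 0).mul_apply_super ih1 hii, ih4 (fun a => h _), ih2, (h 0).1,
        Finset.prod_eq_one (fun a _ => (h a.succ).2), one_mul, mul_one, Fin.sum_univ_succ, add_comm]
    · rw [(hf 0).mul_apply_super ih1 hii]
      by_cases ha0 : a = 0
      · subst ha0
        rw [ih3 (fun b => not_not.1 fun e => Fin.succ_ne_zero b (hu _ e)), mul_zero, zero_add, ih2]
        exact mul_ne_zero ha (Finset.prod_ne_zero_iff.2 fun b _ => h _ _)
      · have h0 : f 0 i i' = 0 := not_not.1 fun e => ha0 (hu _ e).symm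
        obtain ⟨b, rfl⟩ := Fin.exists_succ_eq.2 ha0
        rw [h0, zero_mul, add_zero]
        exact mul_ne_zero (h _ _) (ih5 (fun c l => h _ l)
          ⟨b, ha, fun c hc => Fin.succ_injective _ (hu _ hc)⟩)

end UpperTri

end CfsgLib.PSLCover
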