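import Cfsg.Agent.Lib.PSLCover.Helpers

/-!
Normal forms of `1 + D` with `D * D = γ • D`.
-/

set_option autoImplicit false
set_option linter.unusedSectionVars false

namespace CfsgLib.PSLCover

open Matrix Module

variable {F : Type*} [Field F]

section Sim

variable {V : Type*} [AddCommGroup V] [Module F V] [FiniteDimensional F V]

/-- An isomorphism of subspaces of equal-dimensional spaces extends. -/
theorem exists_equiv_extend {K K' : Type*} [AddCommGroup K] [Module F K] [FiniteDimensional F K]
    [AddCommGroup K'] [Module F K'] [FiniteDimensional F K'] (h : finrank F K' = finrank F K)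
    {C : Type*} [AddCommGroup C] [Module F C] [FiniteDimensional F C]
    (f : C →ₗ[F] K') (g : C →ₗ[F] K) (hf : Function.Injective f) (hg : Function.Injective g) :
    ∃ τ : K' ≃ₗ[F] K, ∀ c, τ (f c) = g c := by
  obtain ⟨W', hW'⟩ := Submodule.exists_isCompl (LinearMap.range f)
  obtain ⟨W, hW⟩ := Submodule.exists_isCompl (LinearMap.range g)
  have h1 := Submodule.finrank_add_eq_of_isCompl hW'
  have h2 := Submodule.finrank_add_eq_of_isCompl hW
  rw [LinearMap.finrank_range_of_inj hf] at h1
  rw [LinearMap.finrank_range_of_inj hg] at h2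
  let ω : W' ≃ₗ[F] W := LinearEquiv.ofFinrankEq W' W (by omega)
  let ρ : LinearMap.range f ≃ₗ[F] LinearMap.range g :=
    (LinearEquiv.ofInjective f hf).symm.trans (LinearEquiv.ofInjective g hg)
  refine ⟨((Submodule.prodEquivOfIsCompl _ _ hW').symm.trans (ρ.prodCongr ω)).trans
    (Submodule.prodEquivOfIsCompl _ _ hW), fun c => ?_⟩
  have hmem : f c ∈ LinearMap.range f := ⟨c, rfl⟩
  have e : (Submodule.prodEquivOfIsCompl _ _ hW').symm (f c) =
      ((⟨f c, hmem⟩ : LinearMap.range f), (0 : W')) := by
    rw [LinearEquiv.symm_apply_eq]; simp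
  have e2 : ρ ⟨f c, ⟨c, rfl⟩⟩ = ⟨g c, ⟨c, rfl⟩⟩ := by
    have h4 : (LinearEquiv.ofInjective f hf).symm ⟨f c, ⟨c, rfl⟩⟩ = c := by
      rw [LinearEquiv.symm_apply_eq]; rfl
    refine Subtype.ext ?_
    simp only [ρ, LinearEquiv.trans_apply, h4]
    rfl
  simp only [LinearEquiv.trans_apply, e, LinearEquiv.prodCongr_apply, map_zero, e2,
    Submodule.coe_prodEquivOfIsCompl', ZeroMemClass.coe_zero, add_zero]

/-- Maps with `D² = γ D`, assembled on a complement of the kernel and the kernel. -/
theorem exists_conj_of_compl {γ : F} (D D' : End F V) (C C' : Submodule F V)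
    (hC : IsCompl C (LinearMap.ker D)) (hC' : IsCompl C' (LinearMap.ker D'))
    (σ : C' ≃ₗ[F] C) (τ : LinearMap.ker D' ≃ₗ[F] LinearMap.ker D)
    (hφ : ∀ c : C', ∀ k : LinearMap.ker D', (k : V) = D' c - γ • (c : V) →
      (τ k : V) = D (σ c) - γ • (σ c : V)) (hsq' : ∀ v, D' (D' v) = γ • D' v) :
    ∃ e : V ≃ₗ[F] V, ∀ v, e (D' v) = D (e v) := by
  let P := Submodule.prodEquivOfIsCompl _ _ hC
  let P' := Submodule.prodEquivOfIsCompl _ _ hC'
  refine ⟨(P'.symm.trans (σ.prodCongr τ)).trans P, fun v => ?_⟩
  obtain ⟨⟨c, k⟩, rfl⟩ := P'.surjective v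
  have hk : D' (k : V) = 0 := k.2
  have hmem : D' c - γ • (c : V) ∈ LinearMap.ker D' := by
    rw [LinearMap.mem_ker, map_sub, map_smul, hsq', sub_self]
  have e1 : D' (P' (c, k)) = P' (γ • c, ⟨_, hmem⟩) := by
    simp [P', hk]
  have h3 := hφ c ⟨_, hmem⟩ rfl
  simp only [LinearEquiv.trans_apply, LinearEquiv.symm_apply_apply, e1]
  simp [P, h3]

/-- Two endomorphisms with `D² = γ D` and the same rank are conjugate. -/
theorem exists_conj_of_sq {γ : F} (D D' : End F V) (h : ∀ v, D (D v) = γ • D v)
    (h' : ∀ v, D' (D' v) = γ • D' v)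
    (hr : finrank F (LinearMap.range D') = finrank F (LinearMap.range D)) :
    ∃ e : V ≃ₗ[F] V, ∀ v, e (D' v) = D (e v) := by
  have hk : finrank F (LinearMap.ker D') = finrank F (LinearMap.ker D) := by
    have h1 := D.finrank_range_add_finrank_ker
    have h2 := D'.finrank_range_add_finrank_ker
    omega
  by_cases hγ : γ = 0
  · subst hγ
    simp only [zero_smul] at h h'
    obtain ⟨C, hC0⟩ := Submodule.exists_isCompl (LinearMap.ker D)
    obtain ⟨C', hC0'⟩ := Submodule.exists_isCompl (LinearMap.ker D')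
    have hC := hC0.symm
    have hC' := hC0'.symm
    have hd1 := Submodule.finrank_add_eq_of_isCompl hC
    have hd2 := Submodule.finrank_add_eq_of_isCompl hC'
    let σ : C' ≃ₗ[F] C := LinearEquiv.ofFinrankEq C' C (by omega)
    let f : C' →ₗ[F] LinearMap.ker D' := (D'.comp C'.subtype).codRestrict _ fun c => h' _
    let g : C' →ₗ[F] LinearMap.ker D :=
      (D.comp (C.subtype.comp σ.toLinearMap)).codRestrict _ fun c => h _
    have inj : ∀ (E : End F V) (U : Submodule F V), IsCompl U (LinearMap.ker E) →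
        ∀ u ∈ U, E u = 0 → u = 0 := fun E U hU u hu h0 =>
      (Submodule.disjoint_def.1 hU.disjoint) u hu h0
    have hf : Function.Injective f := (injective_iff_map_eq_zero f).2 fun c hc => Subtype.ext
      (inj D' C' hC' c c.2 (congrArg Subtype.val hc))
    have hg : Function.Injective g := (injective_iff_map_eq_zero g).2 fun c hc =>
      σ.map_eq_zero_iff.1 (Subtype.ext (inj D C hC _ (σ c).2 (congrArg Subtype.val hc)))
    obtain ⟨τ, hτ⟩ := exists_equiv_extend hk f g hf hg
    refine exists_conj_of_compl (γ := 0) D D' C C' hC hC' σ τ (fun c k hk' => ?_)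
      (by simpa using h')
    rw [zero_smul, sub_zero] at hk' ⊢
    obtain rfl : k = f c := Subtype.ext hk'
    rw [hτ]
    rfl
  · have compl : ∀ E : End F V, (∀ v, E (E v) = γ • E v) →
        IsCompl (LinearMap.range E) (LinearMap.ker E) := by
      intro E hE
      refine ⟨Submodule.disjoint_def.2 ?_, codisjoint_iff.2 (eq_top_iff.2 fun v _ => ?_)⟩
      · rintro _ ⟨u, rfl⟩ h0
        rw [LinearMap.mem_ker, hE] at h0
        exact (smul_eq_zero.1 h0).resolve_left hγ
      · refine Submodule.mem_sup.2 ⟨γ⁻¹ • E v, Submodule.smul_mem _ _ ⟨v, rfl⟩,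
          v - γ⁻¹ • E v, ?_, add_sub_cancel _ _⟩
        rw [LinearMap.mem_ker, map_sub, map_smul, hE, inv_smul_smul₀ hγ, sub_self]
    let σ : LinearMap.range D' ≃ₗ[F] LinearMap.range D := LinearEquiv.ofFinrankEq _ _ hr
    let τ : LinearMap.ker D' ≃ₗ[F] LinearMap.ker D := LinearEquiv.ofFinrankEq _ _ hk
    refine exists_conj_of_compl (γ := γ) D D' _ _ (compl D h) (compl D' h') σ τ (fun c k hk' => ?_) h'
    obtain ⟨u, hu⟩ := c.2
    obtain ⟨u', hu'⟩ := (σ c).2
    rw [← hu, h', sub_self] at hk'
    obtain rfl : k = 0 := Subtype.ext hk'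
    rw [← hu', h, sub_self, map_zero, ZeroMemClass.coe_zero]

end Sim

variable {n : ℕ}

/-- The rank. -/
noncomputable def mrank (D : Matrix (Fin n) (Fin n) F) : ℕ :=
  finrank F (LinearMap.range (toLin' D))

theorem exists_conj_matrix {γ : F} {D D' : Matrix (Fin n) (Fin n) F} (h : D * D = γ • D)
    (h' : D' * D' = γ • D') (hr : mrank D' = mrank D) :
    ∃ P : GL (Fin n) F, (P : Matrix (Fin n) (Fin n) F) * D' = D * (P : Matrix (Fin n) (Fin n) F) := by
  have sq : ∀ {E : Matrix (Fin n) (Fin n) F}, E * E = γ • E →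
      ∀ v, toLin' E (toLin' E v) = γ • toLin' E v := fun {E} hE v => by
    rw [toLin'_apply, toLin'_apply, mulVec_mulVec, hE, smul_mulVec]
  obtain ⟨e, he⟩ := exists_conj_of_sq (toLin' D) (toLin' D') (sq h) (sq h') hr
  refine ⟨⟨LinearMap.toMatrix' e.toLinearMap, LinearMap.toMatrix' e.symm.toLinearMap, ?_, ?_⟩, ?_⟩
  · rw [← LinearMap.toMatrix'_comp]; simp
  · rw [← LinearMap.toMatrix'_comp]; simp
  · show LinearMap.toMatrix' e.toLinearMap * D' = D * LinearMap.toMatrix' e.toLinearMap
    conv_lhs => rw [← LinearMap.toMatrix'_toLin' D']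
    conv_rhs => rw [← LinearMap.toMatrix'_toLin' D]
    rw [← LinearMap.toMatrix'_comp, ← LinearMap.toMatrix'_comp]
    exact congrArg _ (LinearMap.ext fun v => he v)

/-- A template: the rows in `I` carry `γ` on the diagonal and `s i` in column `c i`. -/
def tpl (γ : F) (I : Finset (Fin n)) (s : Fin n → F) (c : Fin n → Fin n) :
    Matrix (Fin n) (Fin n) F :=
  Matrix.of fun i l =>
    if i ∈ I then (if l = i then γ else 0) + (if l = c i then s i else 0) else 0

variable {γ : F} {I : Finset (Fin n)} {s : Fin n → F} {c : Fin n → Fin n}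

theorem tpl_sq (hc : ∀ i ∈ I, s i ≠ 0 → c i ∉ I) : tpl γ I s c * tpl γ I s c = γ • tpl γ I s c := by
  classical
  ext i l
  rw [Matrix.mul_apply, Matrix.smul_apply, smul_eq_mul]
  by_cases hi : i ∈ I
  · rw [Finset.sum_eq_single i]
    · have h1 : (if i = c i then s i else 0) = 0 := by
        split_ifs with e
        · by_contra hs
          exact hc i hi hs (e ▸ hi)
        · rfl
      simp only [tpl, of_apply, if_pos hi, if_true, h1, add_zero]
    · intro m _ hm
      by_cases hmI : m ∈ I
      · have : (if m = c i then s i else 0) = 0 := by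
          split_ifs with e
          · by_contra hs
            exact hc i hi hs (e ▸ hmI)
          · rfl
        simp [tpl, hi, hm, this]
      · simp [tpl, hmI]
    · simp
  · simp [tpl, hi]

theorem mrank_tpl (h : γ ≠ 0 ∧ (∀ i ∈ I, s i ≠ 0 → c i ∉ I) ∨
    (∀ i ∈ I, s i ≠ 0 ∧ c i ∉ I) ∧ Set.InjOn c I) : mrank (tpl γ I s c) = I.card := by
  classical
  have hrange : LinearMap.range (toLin' (tpl γ I s c)) =
      Submodule.span F (Set.range fun i : I => (Pi.single (i : Fin n) 1 : Fin n → F)) := by
    refine le_antisymm ?_ (Submodule.span_le.2 ?_)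
    · rintro _ ⟨v, rfl⟩
      have : toLin' (tpl γ I s c) v =
          ∑ i : I, (toLin' (tpl γ I s c) v i) • (Pi.single (i : Fin n) 1 : Fin n → F) := by
        funext l
        simp only [Finset.sum_apply, Pi.smul_apply, Pi.single_apply, smul_eq_mul, mul_ite, mul_one,
          mul_zero]
        by_cases hl : l ∈ I
        · rw [Finset.sum_eq_single ⟨l, hl⟩]
          · simp
          · intro b _ hb; rw [if_neg fun e => hb (Subtype.ext e.symm)]
          · simp
        · rw [Finset.sum_eq_zero fun b _ => if_neg (fun (e : l = b.1) => hl (e ▸ b.2))]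
          simp [tpl, mulVec, dotProduct, hl]
      rw [this]
      exact Submodule.sum_mem _ fun i _ => Submodule.smul_mem _ _ (Submodule.subset_span ⟨i, rfl⟩)
    · rintro _ ⟨⟨i, hi⟩, rfl⟩
      rcases h with ⟨hγ, hc⟩ | ⟨hc, hinj⟩
      · refine ⟨Pi.single i γ⁻¹, funext fun m => ?_⟩
        simp only [toLin'_apply, mulVec_single, tpl, Pi.smul_apply, op_smul_eq_smul, smul_eq_mul,
          col_apply, of_apply, Pi.single_apply]
        by_cases hm : m ∈ I
        · have : (if i = c m then s m else 0) = 0 := by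
            split_ifs with e
            · by_contra hs
              exact hc m hm hs (e ▸ hi)
            · rfl
          by_cases hmi : i = m
          · subst hmi; simp [hm, this, hγ]
          · simp [hm, this, hmi, Ne.symm hmi]
        · have : m ≠ i := fun e => hm (e ▸ hi)
          simp [hm, this]
      · refine ⟨Pi.single (c i) (s i)⁻¹, funext fun m => ?_⟩
        simp only [toLin'_apply, mulVec_single, tpl, Pi.smul_apply, op_smul_eq_smul, smul_eq_mul,
          col_apply, of_apply, Pi.single_apply]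
        by_cases hm : m ∈ I
        · have hne : c i ≠ m := fun e => (hc i hi).2 (e ▸ hm)
          by_cases hmi : m = i
          · subst hmi; simp [hm, hne, (hc _ hi).1]
          · have : c i ≠ c m := fun e => hmi (hinj hm hi e.symm)
            simp [hm, hne, this, hmi]
        · have : m ≠ i := fun e => hm (e ▸ hi)
          simp [hm, this]
  rw [mrank, hrange, finrank_span_eq_card, Fintype.card_coe]
  exact (Pi.linearIndependent_single_one (Fin n) F).comp _ Subtype.val_injective

end CfsgLib.PSLCover
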