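import Cfsg.Agent.Lib.PSLCover.QuadBasic
import Cfsg.Agent.Lib.CharDegrees.Sourour

/-!
`1 + D` with `D * D = γ • D` of rank one: every non-scalar matrix of the right determinant is a
product of `n` conjugates.
-/

set_option autoImplicit false
set_option linter.unusedSectionVars false

namespace CfsgLib.PSLCover

open Matrix

variable {F : Type*} [Field F] {n : ℕ}

/-- A rank one matrix `e_k wᵀ` with `w k = γ` satisfies `D * D = γ • D`. -/
theorem vecMulVec_single_sq (k : Fin n) (w : Fin n → F) :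
    vecMulVec (Pi.single k (1 : F)) w * vecMulVec (Pi.single k (1 : F)) w =
      w k • vecMulVec (Pi.single k (1 : F)) w := by
  rw [vecMulVec_mul_vecMulVec, dotProduct_single, mul_one, vecMulVec_smul]

theorem mrank_vecMulVec (v w : Fin n → F) (hv : v ≠ 0) (hw : w ≠ 0) : mrank (vecMulVec v w) = 1 := by
  have h : LinearMap.range (toLin' (vecMulVec v w)) = Submodule.span F {v} := by
    refine le_antisymm ?_ ?_
    · rintro _ ⟨x, rfl⟩
      rw [toLin'_apply, vecMulVec_mulVec, op_smul_eq_smul]
      exact Submodule.smul_mem _ _ (Submodule.mem_span_singleton_self v)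
    · obtain ⟨j, hj⟩ := Function.ne_iff.1 hw
      rw [Submodule.span_le, Set.singleton_subset_iff]
      refine ⟨Pi.single j (w j)⁻¹, ?_⟩
      rw [toLin'_apply, vecMulVec_mulVec, op_smul_eq_smul, dotProduct_single,
        mul_inv_cancel₀ hj, one_smul]
  rw [mrank, h, finrank_span_singleton hv]

theorem mrank_smul (c : F) (hc : c ≠ 0) (D : Matrix (Fin n) (Fin n) F) :
    mrank (c • D) = mrank D := by
  rw [mrank, mrank, map_smul, LinearMap.range_smul _ _ hc]

variable {A : GL (Fin n) F} {γ : F}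

/-- A matrix of the shape `1 + e wᵀ` gives a factor. -/
theorem isSq_reflect (h : 1 + γ ≠ 0) (k : Fin n) (w : Fin n → F) (hwk : w k = γ) (hw : w ≠ 0) :
    ∃ y : GL (Fin n) F, IsSq y γ 1 ∧
      (y : Matrix (Fin n) (Fin n) F) = 1 + vecMulVec (Pi.single k 1) w := by
  have hsq := hwk ▸ vecMulVec_single_sq k w
  refine ⟨sqUnit _ hsq h, ?_, rfl⟩
  simp only [IsSq, coe_sqUnit, add_sub_cancel_left]
  exact ⟨hsq, mrank_vecMulVec _ _ (by simp) hw⟩

/-- The determinant for rank one. -/
theorem IsSq.det_one (hA : IsSq A γ 1) (hn : 2 ≤ n) :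
    (GeneralLinearGroup.det A : F) = 1 + γ := by
  classical
  let k : Fin n := ⟨0, by omega⟩
  let j : Fin n := ⟨1, by omega⟩
  have hkj : j ≠ k := by simp [k, j, Fin.ext_iff]
  let w : Fin n → F := Pi.single k γ + Pi.single j 1
  obtain ⟨y, hy, e⟩ := isSq_reflect (hA.add_one_ne_zero one_ne_zero) k w
    (by simp [w, hkj.symm]) (fun e => by simpa [w, hkj] using congrFun e j)
  obtain ⟨g, hg⟩ := hA.exists_conj hy
  have : GeneralLinearGroup.det y = GeneralLinearGroup.det A := by
    rw [hg, map_mul, map_mul, map_inv, mul_inv_cancel_comm]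
  rw [← this]
  show (y : Matrix (Fin n) (Fin n) F).det = _
  rw [e, vecMulVec_eq Unit, det_one_add_replicateCol_mul_replicateRow, dotProduct_single]
  simp [w, hkj.symm]

/-- For `γ = 0` every conjugate is a product of any positive number of conjugates. -/
theorem IsSq.cov_split {r : ℕ} (hA : IsSq A 0 r) (hF : ∃ c : F, c ≠ 0 ∧ c ≠ 1) :
    ∀ (k : ℕ) (y : GL (Fin n) F), IsSq y 0 r → Cov (k + 1) A y := by
  obtain ⟨c, hc0, hc1⟩ := hF
  intro k
  induction k with
  | zero => exact fun y hy => hA.cov_one hy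
  | succ k ih =>
    intro y hy
    obtain ⟨hsq, hrk⟩ := hy
    set D := (y : Matrix (Fin n) (Fin n) F) - 1 with hD
    rw [zero_smul] at hsq
    have hy' : (y : Matrix (Fin n) (Fin n) F) = 1 + D := by rw [hD, add_sub_cancel]
    have mk : ∀ e : F, e ≠ 0 → ∃ z : GL (Fin n) F, IsSq z 0 r ∧
        (z : Matrix (Fin n) (Fin n) F) = 1 + e • D := by
      intro e he
      have h2 : (e • D) * (e • D) = (0 : F) • (e • D) := by
        rw [smul_mul_smul_comm, hsq, smul_zero, zero_smul]
      refine ⟨sqUnit _ h2 (by simp), ?_, rfl⟩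
      simp only [IsSq, coe_sqUnit, add_sub_cancel_left]
      exact ⟨h2, (mrank_smul e he D).trans hrk⟩
    obtain ⟨y₁, h₁, e₁⟩ := mk c hc0
    obtain ⟨y₂, h₂, e₂⟩ := mk (1 - c) (sub_ne_zero.2 (Ne.symm hc1))
    have e : y = y₁ * y₂ := Units.ext <| by
      rw [Units.val_mul, e₁, e₂, hy', add_mul, one_mul, mul_add, mul_one, smul_mul_smul_comm, hsq,
        smul_zero, add_zero, add_assoc, ← add_smul, sub_add_cancel, one_smul]
    rw [e, show k + 1 + 1 = 1 + (k + 1) by omega]
    exact (hA.cov_one h₁).mul (ih y₂ h₂)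

theorem cov_list_of_sq {r : ℕ} (hA : IsSq A γ r) :
    ∀ l : List (GL (Fin n) F), (∀ y ∈ l, IsSq y γ r) → Cov l.length A l.prod
  | [], _ => ⟨Fin.elim0, by simp⟩
  | y :: l, h => by
    rw [List.length_cons, List.prod_cons, add_comm]
    exact (hA.cov_one (h y (by simp))).mul (cov_list_of_sq hA l fun z hz => h z (by simp [hz]))

theorem cov_list_of_sq_or_one {r : ℕ} (hA : IsSq A 0 r) (hF : ∃ c : F, c ≠ 0 ∧ c ≠ 1) :
    ∀ l : List (GL (Fin n) F), (∀ y ∈ l, IsSq y 0 r ∨ y = 1) →
      ∀ k, l.length ≤ k → l.prod ≠ 1 → Cov k A l.prod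
  | [], _, _, _, h => absurd List.prod_nil h
  | y :: l, h, k, hk, hne => by
    have hl := cov_list_of_sq_or_one hA hF l fun z hz => h z (by simp [hz])
    rw [List.length_cons] at hk
    rw [List.prod_cons] at hne ⊢
    rcases h y (by simp) with hy | rfl
    · obtain ⟨k, rfl⟩ : ∃ k', k = k' + 1 := ⟨k - 1, by omega⟩
      by_cases hp : l.prod = 1
      · rw [hp, mul_one]
        exact hA.cov_split hF k y hy
      · rw [add_comm]
        exact (hA.cov_one hy).mul (hl k (by omega) hp)
    · rw [one_mul] at hne ⊢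
      exact hl k (by omega) hne

/-- Row elimination: a matrix `M` with `N * M = U` is a product of `n` factors `1 + e_k w_kᵀ`. -/
theorem exists_row_factors (hγ : 1 + γ ≠ 0) (M N U : Matrix (Fin n) (Fin n) F)
    (hN : ∀ i j, i < j → N i j = 0) (hN1 : ∀ i, N i i = 1)
    (hU : ∀ i j, j < i → U i j = 0) (hU1 : ∀ i, U i i = 1 + γ) (hNM : N * M = U) :
    ∃ l : List (GL (Fin n) F), l.length = n ∧
      (∀ y ∈ l, IsSq y γ 1 ∨ γ = 0 ∧ y = 1) ∧
      ((l.prod : GL (Fin n) F) : Matrix (Fin n) (Fin n) F) = M := by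
  classical
  suffices h : ∀ t ≤ n, ∃ l : List (GL (Fin n) F), l.length = t ∧
      (∀ y ∈ l, IsSq y γ 1 ∨ γ = 0 ∧ y = 1) ∧
      ∀ i j, ((l.prod : GL (Fin n) F) : Matrix (Fin n) (Fin n) F) i j =
        if i.val < t then M i j else (1 : Matrix (Fin n) (Fin n) F) i j by
    obtain ⟨l, h1, h2, h3⟩ := h n le_rfl
    exact ⟨l, h1, h2, Matrix.ext fun i j => by rw [h3, if_pos i.2]⟩
  intro t
  induction t with
  | zero => exact fun _ => ⟨[], rfl, by simp, fun i j => by simp⟩
  | succ t ih =>
    intro ht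
    obtain ⟨l, hl, hg, hP⟩ := ih (by omega)
    let k : Fin n := ⟨t, ht⟩
    let w : Fin n → F := fun j => if j < k then -N k j else if j = k then γ else U k j
    have hwk : w k = γ := by simp [w]
    obtain ⟨y, hy, ey⟩ : ∃ y : GL (Fin n) F, (IsSq y γ 1 ∨ γ = 0 ∧ y = 1) ∧
        (y : Matrix (Fin n) (Fin n) F) = 1 + vecMulVec (Pi.single k 1) w := by
      by_cases hw : w = 0
      · exact ⟨1, Or.inr ⟨by rw [← hwk, hw, Pi.zero_apply], rfl⟩, by simp [hw]⟩
      · obtain ⟨y, h1, h2⟩ := isSq_reflect hγ k w hwk hw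
        exact ⟨y, Or.inl h1, h2⟩
    refine ⟨y :: l, by simp [hl], fun z hz => ?_, fun i j => ?_⟩
    · rcases List.mem_cons.1 hz with rfl | hz
      · exact hy
      · exact hg z hz
    rw [List.prod_cons, Units.val_mul, ey, add_mul, one_mul, Matrix.add_apply, vecMulVec_mul,
      vecMulVec_apply, hP i j]
    by_cases hik : i = k
    · subst hik
      rw [Pi.single_eq_same, one_mul, if_neg (by simp [k]), if_pos (by simp [k])]
      have hM : M k j + ∑ m, (if m < k then N k m * M m j else 0) = U k j := by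
        rw [← hNM, Matrix.mul_apply]
        conv_lhs => rw [← one_mul (M k j), ← hN1 k,
          ← Finset.sum_ite_eq' Finset.univ k (fun m => N k m * M m j) |>.trans (if_pos (Finset.mem_univ k)),
          ← Finset.sum_add_distrib]
        refine Finset.sum_congr rfl fun m _ => ?_
        rcases lt_trichotomy m k with h | rfl | h
        · simp [h, h.ne]
        · simp
        · simp [h.ne', h.not_gt, hN k m h]
      have hs : (w ᵥ* ((l.prod : GL (Fin n) F) : Matrix (Fin n) (Fin n) F)) j =
          -(∑ m, (if m < k then N k m * M m j else 0)) + if j < k then 0 else w j := by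
        rw [vecMul, dotProduct, ← Finset.sum_neg_distrib]
        rw [show (if j < k then (0 : F) else w j) = ∑ m, if m = j ∧ ¬ j < k then w j else 0 by
          by_cases h : j < k <;> simp [h], ← Finset.sum_add_distrib]
        refine Finset.sum_congr rfl fun m _ => ?_
        rw [hP]
        by_cases hm : m < k
        · rw [if_pos hm, if_pos (show m.val < t from hm),
            if_neg (fun e : m = j ∧ ¬ j < k => e.2 (e.1 ▸ hm)), add_zero]
          simp [w, hm]
        · rw [if_neg hm, if_neg (show ¬ m.val < t from hm)]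
          by_cases hmj : m = j
          · subst hmj; simp [hm]
          · simp [hmj]
      rw [hs, eq_sub_of_add_eq hM]
      rcases lt_trichotomy j k with h | rfl | h
      · simp [h, h.ne', hU k j h]
      · simp [hU1, hwk]; ring
      · simp [h.ne, h.not_gt, w, h.ne']; ring
    · rw [Pi.single_eq_of_ne hik, zero_mul, add_zero]
      have : i.val ≠ t := fun e => hik (Fin.ext e)
      by_cases h : i.val < t
      · rw [if_pos h, if_pos (by omega)]
      · rw [if_neg h, if_neg (by omega)]

/-- The rank one case. -/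
theorem covS_reflect (hn : 3 ≤ n) (hA : IsSq A γ 1) (hF : ∃ c : F, c ≠ 0 ∧ c ≠ 1)
    (B : GL (Fin n) F) (hB : NonScalar B)
    (hdet : GeneralLinearGroup.det B = GeneralLinearGroup.det A ^ n) : CovS n A B := by
  classical
  have hγ : 1 + γ ≠ 0 := hA.add_one_ne_zero one_ne_zero
  have hfull : FullDet A := hA.fullDet one_ne_zero (Or.inr (by omega))
  obtain ⟨L, U, ⟨hL, hL1⟩, ⟨hU, hU1⟩, P, Q, hPQ, hQP, hBe⟩ :=
    CharDegrees.sourour (B : Matrix (Fin n) (Fin n) F) hB (fun _ => 1) (fun _ => 1 + γ)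
      (fun _ => one_ne_zero) (fun _ => hγ) (by
        have h1 := congrArg (fun u : Fˣ => (u : F)) hdet
        rw [Units.val_pow_eq_pow_val, hA.det_one (by omega)] at h1
        simpa using h1)
  have hLdet : L.det = 1 := by
    rw [Matrix.det_of_lowerTriangular L fun i j h => hL i j h]
    simp [hL1]
  have : Invertible L := L.invertibleOfIsUnitDet (by rw [hLdet]; exact isUnit_one)
  have hN : ∀ i j, i < j → L⁻¹ i j = 0 := fun i j h =>
    (Matrix.blockTriangular_inv_of_blockTriangular (b := OrderDual.toDual)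
      (M := L) fun i j h => hL i j h) h
  have hN1 : ∀ i, L⁻¹ i i = 1 := fun i => by
    have h1 := congrFun (congrFun (Matrix.inv_mul_of_invertible L) i) i
    rw [Matrix.mul_apply, Finset.sum_eq_single i, hL1, mul_one, Matrix.one_apply_eq] at h1
    · exact h1
    · intro m _ hm
      rcases lt_or_gt_of_ne hm with h | h
      · rw [hL m i h, mul_zero]
      · rw [hN i m h, zero_mul]
    · simp
  obtain ⟨l, hlen, hgood, hprod⟩ := exists_row_factors hγ (L * U) L⁻¹ U hN hN1 hU hU1
    (by rw [← mul_assoc, Matrix.inv_mul_of_invertible, one_mul])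
  let g : GL (Fin n) F := ⟨P, Q, hPQ, hQP⟩
  have hBg : B = g * l.prod * g⁻¹ := Units.ext (by
    rw [Units.val_mul, Units.val_mul, hprod]; exact hBe)
  have hne : l.prod ≠ 1 := fun e => hB 1 (by rw [hBg, e]; simp)
  rw [hBg]
  refine (Cov.conj ?_ g).covS hfull
  by_cases h0 : γ = 0
  · subst h0
    exact cov_list_of_sq_or_one hA hF l
      (fun y hy => (hgood y hy).imp id And.right) n hlen.le hne
  · have h := cov_list_of_sq hA l fun y hy => (hgood y hy).resolve_right fun e => h0 e.1
    rwa [hlen] at h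

end CfsgLib.PSLCover
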