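import Cfsg.Agent.Lib.PSLCover.SplitTop

/-!
Four conjugates of determinant one cover when the matrix is a chain, whether or not its class splits
in the special linear group.
-/

set_option autoImplicit false
set_option linter.style.haveILetI false
set_option linter.unusedSectionVars false

namespace CfsgLib.PSLCover

open Matrix Polynomial

variable {F : Type*} [Field F] {ι : Type*} [Fintype ι] [DecidableEq ι]

/-- A conjugator whose determinant is realised in the centraliser may be taken of determinant one. -/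
theorem covS_one_of_mem_detCent (A h : GL ι F) (hh : GeneralLinearGroup.det h ∈ detCent A) :
    CovS 1 A (h * A * h⁻¹) := by
  obtain ⟨c, hc, hd⟩ := mem_detCent.mp (inv_mem hh)
  have hfix : c * A * c⁻¹ = A := by rw [hc, mul_assoc, mul_inv_cancel, mul_one]
  have hd1 : GeneralLinearGroup.det (h * c) = 1 := by rw [map_mul, hd, mul_inv_cancel]
  have := covS_one A (h * c) hd1
  rwa [show h * c * A * (h * c)⁻¹ = h * (c * A * c⁻¹) * h⁻¹ by group, hfix] at this

/-- Any conjugate of `P * Q` is a product of two conjugates of `A` of determinant one, if the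
ratio of the pair is trivial and the centraliser of `P * Q` fills the quotient. -/
theorem covS_two_of_ratioPair {A P Q : GL ι F} (hr : RatioPair (detCent A) A P Q 1)
    (hfill : ∀ δ : Fˣ, ∃ a ∈ detCent (P * Q), δ * a⁻¹ ∈ detCent A) (p : GL ι F) :
    CovS 2 A (p * (P * Q) * p⁻¹) := by
  obtain ⟨g1, g2, rfl, rfl, hr⟩ := hr
  obtain ⟨a, ha, hδ⟩ := hfill (GeneralLinearGroup.det p * GeneralLinearGroup.det g1)⁻¹
  obtain ⟨c, hc, hd⟩ := mem_detCent.mp ha
  have h1 : GeneralLinearGroup.det (p * c * g1) ∈ detCent A := by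
    have := inv_mem hδ
    rw [_root_.mul_inv_rev, inv_inv, inv_inv] at this
    rw [map_mul, map_mul, hd, mul_comm (GeneralLinearGroup.det p) a, mul_assoc]
    exact this
  have h2 : GeneralLinearGroup.det (p * c * g2) ∈ detCent A := by
    have := mul_mem h1 (inv_mem hr)
    rw [inv_one, mul_one, map_mul, map_mul, _root_.mul_inv_rev, inv_inv] at this
    rw [map_mul, map_mul]
    rwa [mul_assoc, mul_comm (GeneralLinearGroup.det g2), ← mul_assoc (GeneralLinearGroup.det g1),
      mul_inv_cancel, one_mul] at this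
  have := (covS_one_of_mem_detCent A _ h1).mul (covS_one_of_mem_detCent A _ h2)
  have hX : c * (g1 * A * g1⁻¹ * (g2 * A * g2⁻¹)) * c⁻¹ = g1 * A * g1⁻¹ * (g2 * A * g2⁻¹) := by
    rw [hc, mul_assoc, mul_inv_cancel, mul_one]
  convert this using 1
  conv_lhs => rw [← hX]
  group

theorem reindexGL_sumEmpty {n : ℕ} (K : GL (Fin n) F) (a : Fˣ) :
    reindexGL (Equiv.sumEmpty (Fin n) (Fin 0)) (blockGL K (scalarGL (Fin 0) a)) = K := by
  apply Units.ext
  ext i j
  simp [Matrix.submatrix, Equiv.sumEmpty]

/-- Four conjugates of determinant one of a chain cover every non-scalar matrix of the right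
determinant. -/
theorem covS_four_of_chain [Fintype F] (hq : 4 ≤ Fintype.card F) {n : ℕ} (hn : 4 ≤ n)
    (A K : GL (Fin n) F) (μ : F[X]) (g : GL (Fin n) F) (hch : IsChain F K μ) (hμ : 3 ≤ μ.natDegree)
    (hA : A = g * K * g⁻¹) (B : GL (Fin n) F) (hB : NonScalar B)
    (hdet : GeneralLinearGroup.det B = GeneralLinearGroup.det A ^ 4) : CovS 4 A B := by
  classical
  by_cases hfull : FullDet A
  · have hA0 : A = g * reindexGL (Equiv.sumEmpty (Fin n) (Fin 0))
        (blockGL K (scalarGL (Fin 0) (1 : Fˣ))) * g⁻¹ := by rw [reindexGL_sumEmpty]; exact hA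
    obtain ⟨X, h, hX, hnz, hs⟩ := exists_splitCyc_cov_two hq _ g hA0 hch (by omega) hμ
    exact (cov_double hq (by omega) hX hnz hs B hB hdet).covS hfull
  have hne : ∃ δ, δ ∉ detCent A := by
    by_contra! hall
    exact hfull (fullDet_iff_detCent.mpr hall)
  cases hch with
  | nil => omega
  | @cons k m _ C K' μ' _ e g0 hC hK hdvd hK0 =>
    rw [charpoly_natDegree_eq_dim, Fintype.card_fin] at hμ
    have hA' : A = (g * g0) * reindexGL e (blockGL C K') * (g * g0)⁻¹ := by
      rw [hA, hK0]; group
    obtain ⟨P, Q, h, ⟨⟨p1, hp1⟩, ⟨p2, hp2⟩, hs⟩, hnz, hr, hfill⟩ :=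
      exists_top_pair hq (by omega) hn C K' μ' A e (g * g0) hC hK hdvd hA' hne
    have hdetX : GeneralLinearGroup.det (P * Q) = GeneralLinearGroup.det A ^ 2 := by
      rw [hp1, hp2]; simp [map_mul, sq]
    obtain ⟨L, U, hLU, hL, hU⟩ := exists_splitCyc_mul (by omega) hq B hB h h hnz hnz (by
      rw [← det_eq_prod_of_splitCyc hs]
      have h1 := congrArg Units.val hdet
      rw [show (4 : ℕ) = 2 + 2 from rfl, pow_add, ← hdetX] at h1
      simpa using h1)
    obtain ⟨q1, rfl⟩ := exists_conj_splitCyc hL hs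
    obtain ⟨q2, rfl⟩ := exists_conj_splitCyc hU hs
    rw [hLU]
    exact (covS_two_of_ratioPair hr hfill q1).mul (covS_two_of_ratioPair hr hfill q2)

end CfsgLib.PSLCover
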