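import Cfsg.Agent.Lib.PSLCover.SplitTools

/-!
The lower blocks of a chain in the split case.
-/

set_option autoImplicit false
set_option linter.style.haveILetI false
set_option linter.unusedSectionVars false

namespace CfsgLib.PSLCover

open Matrix Polynomial

variable {F : Type*} [Field F] {ι κ : Type*} [Fintype ι] [DecidableEq ι] [Fintype κ] [DecidableEq κ]

theorem detCent_cons_le {k m n : ℕ} {C : GL (Fin k) F} {K : GL (Fin m) F} {A : GL (Fin n) F}
    (e : Fin k ⊕ Fin m ≃ Fin n) (g : GL (Fin n) F) (hA : A = g * reindexGL e (blockGL C K) * g⁻¹) :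
    detCent C ≤ detCent A ∧ detCent K ≤ detCent A := by
  rw [hA, detCent_conj]
  exact ⟨(detCent_blockGL_left C K).trans (detCent_reindex e _),
    (detCent_blockGL_right C K).trans (detCent_reindex e _)⟩

theorem fin_two_inv_trace (C : GL (Fin 2) F) :
    ((C⁻¹ : GL (Fin 2) F) : Matrix (Fin 2) (Fin 2) F).trace =
      (C : Matrix (Fin 2) (Fin 2) F).trace / (C : Matrix (Fin 2) (Fin 2) F).det := by
  rw [Matrix.coe_units_inv, Matrix.inv_def, trace_smul, Ring.inverse_eq_inv', smul_eq_mul,
    adjugate_fin_two, trace_fin_two, trace_fin_two, div_eq_inv_mul]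
  simp [add_comm]

theorem rest_pair [Fintype F] (hq : 4 ≤ Fintype.card F) {n : ℕ} {A : GL (Fin n) F} {μ : F[X]}
    (hch : IsChain F A μ) : ∀ (I : Subgroup Fˣ), detCent A ≤ I → (∃ δ, δ ∉ I) →
    ∃ (P Q : GL (Fin n) F) (h : Fin n → F) (r : Fˣ) (ν : F), IsPair A P Q h ∧ (∀ i, h i ≠ 0) ∧
      RatioPair I A P Q r ∧ r * r ∈ I ∧
      (∀ γ, GoodL (P : Matrix (Fin n) (Fin n) F) ((P * Q : GL (Fin n) F) : Matrix (Fin n) (Fin n) F) γ) ∧
      (3 ≤ μ.natDegree →
        GoodR (Q : Matrix (Fin n) (Fin n) F) ((P * Q : GL (Fin n) F) : Matrix (Fin n) (Fin n) F) 1) ∧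
      (∀ i, (∃ u ∈ I, (u : F) = h i) ∨ (h i = ν ∧ ∀ u : Fˣ, u ^ 2 ∈ I)) ∧
      (μ.natDegree = 2 → ν = -μ.coeff 0) := by
  classical
  induction hch with
  | nil A =>
    intro I _ _
    refine ⟨A, A, Fin.elim0, 1, 0, ⟨⟨1, by simp⟩, ⟨1, by simp⟩, ⟨⟨0, ?_⟩, ?_⟩⟩, fun i => i.elim0,
      ⟨1, 1, by simp, by simp, by simp⟩, by simp, ?_, ?_, fun i => i.elim0, by simp⟩
    · exact Subsingleton.elim _ _
    · simp [Matrix.charpoly, Matrix.det_isEmpty]
    · intro γ u hu
      exact absurd (Subsingleton.elim u 0) hu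
    · simp
  | @cons k m n C K μ' A e g hC hK hdvd hA ih =>
    intro I hI hne
    obtain ⟨hIC, hIK⟩ := detCent_cons_le e g hA
    replace hIC := hIC.trans hI
    replace hIK := hIK.trans hI
    obtain ⟨P2, Q2, h2, r2, ν2, hp2, h2nz, hr2, hr2sq, hL2, -, hv2, hν2⟩ := ih I hIK hne
    have hdeg : (C : Matrix (Fin (k + 2)) (Fin (k + 2)) F).charpoly.natDegree = k + 2 := by
      rw [charpoly_natDegree_eq_dim, Fintype.card_fin]
    have hdetC : (C : Matrix (Fin (k + 2)) (Fin (k + 2)) F).det ≠ 0 :=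
      ((Matrix.isUnit_iff_isUnit_det _).mp C.isUnit).ne_zero
    set dC : Fˣ := GeneralLinearGroup.det C with hdC
    have hdI : dC ∈ I := hIC (det_mem_detCent C)
    -- the front pair
    obtain ⟨h1, P1, Q1, r1, hp1, h1nz, hr1, hr1sq, hL1, hR1, hv1⟩ :
        ∃ (h1 : Fin (k + 2) → F) (P1 Q1 : GL (Fin (k + 2)) F) (r1 : Fˣ), IsPair C P1 Q1 h1 ∧
          (∀ i, h1 i ≠ 0) ∧ RatioPair I C P1 Q1 r1 ∧ r1 * r1 ∈ I ∧
          (∀ γ, GoodL (P1 : Matrix (Fin (k + 2)) (Fin (k + 2)) F)
            ((P1 * Q1 : GL (Fin (k + 2)) F) : Matrix (Fin (k + 2)) (Fin (k + 2)) F) γ) ∧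
          (k ≠ 0 → h1 0 = 1 ∧ GoodR (Q1 : Matrix (Fin (k + 2)) (Fin (k + 2)) F)
            ((P1 * Q1 : GL (Fin (k + 2)) F) : Matrix (Fin (k + 2)) (Fin (k + 2)) F) 1) ∧
          (if k = 0 then (∀ i, h1 i = -(dC : F)) ∧ (∀ u : Fˣ, u ^ 2 ∈ I)
            else ∀ i, ∃ u ∈ I, (u : F) = h1 i) := by
      by_cases hk : k = 0
      · subst hk
        obtain ⟨h2F, hshape⟩ := two_block_shape C hIC hne
        have ht : (C : Matrix (Fin 2) (Fin 2) F).trace ≠ 0 := fun h0 => by
          rw [h0, zero_pow two_ne_zero] at hshape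
          exact mul_ne_zero (show (4 : F) ≠ 0 by
            rw [show (4 : F) = 2 * 2 by norm_num]; exact mul_ne_zero h2F h2F) hdetC hshape.symm
        have hval : (dC : F) = (C : Matrix (Fin 2) (Fin 2) F).det := rfl
        have hlist : GoodList C (fun _ : Fin 2 => -(dC : F)) := by
          refine Or.inr ⟨rfl, fun _ => ?_⟩
          rw [charpoly_fin_two, charpoly_fin_two]
          simp only [zero_add, coeff_sub, coeff_add, coeff_X_pow, coeff_C_mul, coeff_X_one, mul_one,
            coeff_C, one_ne_zero, if_false, add_zero, OfNat.one_ne_ofNat, zero_sub]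
          rw [fin_two_inv_trace, hval]
          intro h
          field_simp at h
          exact h2F (by linear_combination h)
        obtain ⟨P1, Q1, hp, hr, hL, -⟩ := exists_block_ratio_pair hq C hC hIC (fun _ => -(dC : F))
          (fun _ => neg_ne_zero.mpr dC.ne_zero) (by rw [Fin.prod_univ_two, hval]; ring) hlist (-dC)
          (by rw [weight_eq, Fin.prod_univ_two]; simp)
        refine ⟨fun _ => -(dC : F), P1, Q1, 1, hp, fun _ => neg_ne_zero.mpr dC.ne_zero, hr.congr ?_,
          by simp, fun γ => hL γ (Or.inr (Or.inl rfl)), fun h => absurd rfl h, ?_⟩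
        · rw [show revSign F (0 + 2) = -1 from revSign_two]
          simpa using hdI
        · rw [if_pos rfl]
          exact ⟨fun _ => rfl, fun u => hIC (by simpa using pow_card_mem_detCent C u)⟩
      · set h1 : Fin (k + 2) → F := fun i => if i = Fin.last (k + 1) then (dC : F) ^ 2 else 1 with hh1
        have h1c : ∀ j : Fin (k + 1), h1 j.castSucc = 1 := fun j => by simp [hh1, Fin.castSucc_ne_last]
        have h1l : h1 (Fin.last (k + 1)) = (dC : F) ^ 2 := by simp [hh1]
        have h1nz : ∀ i, h1 i ≠ 0 := fun i => by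
          simp only [hh1]
          split_ifs
          · exact pow_ne_zero _ dC.ne_zero
          · exact one_ne_zero
        have hlist : GoodList C h1 := by
          by_cases hy : (dC : F) ^ 2 = 1
          · exact Or.inr ⟨by rw [h1l, h1c, hy], fun h => absurd h hk⟩
          · exact Or.inl fun j => by rw [h1c, h1l]; exact Ne.symm hy
        have hW : ((dC ^ 2 : Fˣ) : F) = weight h1 := by
          rw [weight_eq, Fin.prod_univ_castSucc]
          simp [h1c, h1l]
        obtain ⟨P1, Q1, hp, hr, hL, hR⟩ := exists_block_ratio_pair hq C hC hIC h1 h1nz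
          (by rw [Fin.prod_univ_castSucc]; simp [h1c, h1l, hdC]) hlist (dC ^ 2) hW
        have h01 : h1 1 = h1 0 := by
          rw [show (1 : Fin (k + 2)) = (⟨1, by omega⟩ : Fin (k + 1)).castSucc from rfl,
            show (0 : Fin (k + 2)) = (0 : Fin (k + 1)).castSucc from rfl, h1c, h1c]
        refine ⟨h1, P1, Q1, revSign F (k + 2), hp, h1nz, hr.congr ?_, by rw [revSign_sq]; exact I.one_mem,
          fun γ => hL γ (Or.inr (Or.inl h01)), fun _ => ⟨h1c 0, hR 1 ?_⟩, ?_⟩
        · simpa [mul_comm (revSign F (k + 2))] using pow_mem hdI 2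
        · by_cases hy : (dC : F) ^ 2 = 1
          · exact Or.inr (by rw [h1c, h1l, hy])
          · exact Or.inl (by rw [h1l]; exact Ne.symm hy)
        · rw [if_neg hk]
          intro i
          simp only [hh1]
          split_ifs
          · exact ⟨dC ^ 2, pow_mem hdI 2, by simp⟩
          · exact ⟨1, I.one_mem, rfl⟩
    obtain ⟨P, Q, hpair, hL, hR, hP, Y, hQ⟩ :=
      exists_isPair_sum_form hp1 hp2 h1nz (fun γ _ _ => Or.inl (hL1 γ))
    subst hP hQ
    rw [hA]
    refine ⟨reindexGL e (blockGL P1 P2), reindexGL e (shearGL Y * blockGL Q1 Q2 * (shearGL Y)⁻¹),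
      sumList h1 h2 ∘ e.symm, r1 * r2, if k = 0 then -(dC : F) else ν2, isPair_reindex hpair e g, ?_,
      (hr1.sum hr2 Y).reindex e g, ?_, fun γ => ?_, fun h3 => ?_, ?_, fun h2' => ?_⟩
    · intro i
      rcases hx : e.symm i with i1 | i2 <;> simp [hx, h1nz, h2nz]
    · rw [mul_mul_mul_comm]
      exact I.mul_mem hr1sq hr2sq
    · exact (hL γ (fun _ => hL2 γ) (fun _ => hL1 γ)).reindex e
    · obtain ⟨h10, hR1'⟩ := hR1 (by omega)
      exact (hR 1 (fun _ => hR1') (fun h => absurd ⟨0, h10⟩ h)).reindex e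
    · intro i
      rcases hx : e.symm i with i1 | i2
      · by_cases hk : k = 0
        · rw [if_pos hk] at hv1
          exact Or.inr ⟨by simp [hx, hv1.1 i1, hk], hv1.2⟩
        · rw [if_neg hk] at hv1
          exact Or.inl (by simpa [hx] using hv1 i1)
      · rcases hv2 i2 with h | ⟨h, hsq⟩
        · exact Or.inl (by simpa [hx] using h)
        · refine Or.inr ⟨?_, hsq⟩
          by_cases hk : k = 0
          · subst hk
            have h2deg : μ'.natDegree = 2 := by
              rcases hK.degree_cases with ⟨rfl, -⟩ | hh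
              · exact i2.elim0
              · have := natDegree_le_of_dvd hdvd (charpoly_monic _).ne_zero
                omega
            have heq : μ' = (C : Matrix (Fin 2) (Fin 2) F).charpoly :=
              (eq_of_monic_of_dvd_of_natDegree_le hK.monic (charpoly_monic _) hdvd (by omega)).symm
            simp [hx, h, hν2 h2deg, heq, charpoly_fin_two, hdC]
          · simp [hx, h, hk]
    · have hk : k = 0 := by omega
      subst hk
      simp [charpoly_fin_two, hdC]

end CfsgLib.PSLCover
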