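import Cfsg.Agent.Lib.PSLCover.SplitRest

/-!
The top block in the split case: a pair with trivial ratio and a root of small multiplicity.
-/

set_option autoImplicit false
set_option linter.style.haveILetI false
set_option linter.unusedSectionVars false

namespace CfsgLib.PSLCover

open Matrix Polynomial

variable {F : Type*} [Field F] {ι κ : Type*} [Fintype ι] [DecidableEq ι] [Fintype κ] [DecidableEq κ]

/-- A unit off an index-two subgroup avoiding two bad values. -/
theorem exists_off [Fintype F] (hq : 4 ≤ Fintype.card F) (I : Subgroup Fˣ) (hne : ∃ δ, δ ∉ I)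
    (ω : Fˣ) (hω : ∀ x : Fˣ, x ∈ Subgroup.zpowers ω) (hω2 : ω ^ 2 ∈ I) (d : Fˣ) (hd : d ∈ I) (b : Fˣ) :
    ∃ u : Fˣ, u ∉ I ∧ u ^ 2 ≠ d ^ 2 ∧ u ≠ b := by
  classical
  obtain ⟨δ, hδ⟩ := hne
  by_contra! hall
  set S : Finset Fˣ := Finset.univ.filter fun x => x ∈ I with hS
  have hcardS : S.card + S.card ≤ Fintype.card F - 1 := by
    have hdisj : Disjoint S (S.image fun x => δ * x) := by
      rw [Finset.disjoint_left]
      intro x hx hx'
      simp only [hS, Finset.mem_filter, Finset.mem_univ, true_and, Finset.mem_image] at hx hx'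
      obtain ⟨y, hy, rfl⟩ := hx'
      exact hδ (by simpa [mul_assoc] using I.mul_mem hx (I.inv_mem hy))
    have := Finset.card_le_univ (S ∪ S.image fun x => δ * x)
    rw [Finset.card_union_of_disjoint hdisj,
      Finset.card_image_of_injective _ (mul_right_injective δ), Fintype.card_units] at this
    exact this
  have hsq : ∀ u : Fˣ, u ^ 2 = d ^ 2 → u = d ∨ u = -d := by
    intro u hu
    have h' : (u : F) ^ 2 = (d : F) ^ 2 := by exact_mod_cast congrArg Units.val hu
    rcases sq_eq_sq_iff_eq_or_eq_neg.mp h' with h | h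
    · exact Or.inl (Units.ext h)
    · exact Or.inr (Units.ext (by simpa using h))
  have hcover : (Finset.univ : Finset Fˣ) ⊆ S ∪ ({b} ∪ (if (-d) ∈ I then ∅ else {-d})) := by
    intro u _
    by_cases hu : u ∈ I
    · simp [hS, hu]
    rw [Finset.mem_union]
    refine Or.inr ?_
    by_cases h2 : u ^ 2 = d ^ 2
    · rcases hsq u h2 with h | h
      · exact absurd (h ▸ hd) hu
      · have hni : (-d) ∉ I := h ▸ hu
        simp [hni, h]
    · simp [hall u hu h2]
  have hc := (Finset.card_le_card hcover).trans ((Finset.card_union_le _ _).trans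
    (Nat.add_le_add_left (Finset.card_union_le _ _) _))
  rw [Finset.card_univ, Fintype.card_units, Finset.card_singleton] at hc
  have hm1 : ((-1 : Fˣ)) ∈ I → False := fun h => by
    have hnd : (-d) ∈ I := by simpa using I.mul_mem h hd
    rw [if_pos hnd, Finset.card_empty] at hc
    omega
  split_ifs at hc with hnd
  · rw [Finset.card_empty] at hc
    omega
  · rw [Finset.card_singleton] at hc
    apply hm1
    by_cases h2 : (2 : F) = 0
    · have h2c : CharP F 2 := CharTwo.of_one_ne_zero_of_two_eq_zero one_ne_zero h2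
      rw [show (-1 : Fˣ) = 1 from Units.ext (by simp [CharTwo.neg_eq])]
      exact I.one_mem
    have hF : Fintype.card F = 5 := by
      have h5 : Fintype.card F ≤ 5 := by omega
      have hodd := FiniteField.odd_card_of_char_ne_two (F := F) (fun h => h2 (by
        have := ringChar.of_eq h
        exact CharTwo.two_eq_zero))
      omega
    have hord : orderOf ω = 4 := by
      rw [orderOf_eq_card_of_forall_mem_zpowers hω, Nat.card_eq_fintype_card, Fintype.card_units, hF]
    have h4 : (ω ^ 2) ^ 2 = 1 := by rw [← pow_mul, show 2 * 2 = orderOf ω by omega, pow_orderOf_eq_one]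
    have hne1 : ω ^ 2 ≠ 1 := fun h => by
      have := orderOf_le_of_pow_eq_one (by norm_num) h
      omega
    have : ω ^ 2 = -1 := by
      have h' : ((ω ^ 2 : Fˣ) : F) ^ 2 = 1 := by rw [← Units.val_pow_eq_pow_val, h4, Units.val_one]
      rcases sq_eq_one_iff.mp h' with h | h
      · exact absurd (Units.ext h) hne1
      · exact Units.ext (by simpa using h)
    rwa [this] at hω2

theorem exists_top_pair [Fintype F] (hq : 4 ≤ Fintype.card F) {k m n : ℕ} (hk : k ≠ 0) (hn : 4 ≤ n)
    (C : GL (Fin (k + 2)) F) (K : GL (Fin m) F) (μ' : F[X]) (A : GL (Fin n) F)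
    (e : Fin (k + 2) ⊕ Fin m ≃ Fin n) (g : GL (Fin n) F)
    (hC : HasCyclic (C : Matrix (Fin (k + 2)) (Fin (k + 2)) F)) (hK : IsChain F K μ')
    (hdvd : μ' ∣ (C : Matrix (Fin (k + 2)) (Fin (k + 2)) F).charpoly)
    (hA : A = g * reindexGL e (blockGL C K) * g⁻¹) (hne : ∃ δ, δ ∉ detCent A) :
    ∃ (P Q : GL (Fin n) F) (h : Fin n → F), IsPair A P Q h ∧ (∀ i, h i ≠ 0) ∧
      RatioPair (detCent A) A P Q 1 ∧
      ∀ δ : Fˣ, ∃ a ∈ detCent (P * Q), δ * a⁻¹ ∈ detCent A := by
  classical
  set I := detCent A with hI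
  obtain ⟨hIC, hIK⟩ := detCent_cons_le e g hA
  set dC : Fˣ := GeneralLinearGroup.det C with hdC
  have hdI : dC ∈ I := hIC (det_mem_detCent C)
  have hcI : dC ^ 2 ∈ I := pow_mem hdI 2
  obtain ⟨ω, hω⟩ := IsCyclic.exists_generator (α := Fˣ)
  set g' := orderOf (QuotientGroup.mk ω : Fˣ ⧸ I) with hg'
  have hdiv : ∀ i : ℕ, ω ^ i ∈ I ↔ g' ∣ i := fun i => by
    rw [hg', orderOf_dvd_iff_pow_eq_one, ← QuotientGroup.mk_pow, QuotientGroup.eq_one_iff]
  have hgk : g' ∣ k + 2 := (hdiv _).mp (hIC (by simpa using pow_card_mem_detCent C ω))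
  have hgpos : 0 < g' := Nat.pos_of_dvd_of_pos hgk (by omega)
  have hpows : ∀ x : Fˣ, ∃ i : ℕ, ω ^ i = x := fun x => by
    have := (isOfFinOrder_of_finite ω).mem_powers_iff_mem_zpowers.mpr (hω x)
    exact this
  have hg2 : 2 ≤ g' := by
    by_contra hlt
    obtain ⟨δ, hδ⟩ := hne
    obtain ⟨i, rfl⟩ := hpows δ
    exact hδ ((hdiv i).mpr (by rw [show g' = 1 by omega]; exact one_dvd i))
  have hgle : g' ≤ k + 2 := Nat.le_of_dvd (by omega) hgk
  have hω1 : ω ∉ I := fun h => by
    have := Nat.le_of_dvd one_pos ((hdiv 1).mp (by rwa [pow_one]))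
    omega
  -- assemble a pair from a pair of the top block and a pair of the rest
  have assemble : ∀ (h1 : Fin (k + 2) → F) (P1 Q1 : GL (Fin (k + 2)) F) (r1 : Fˣ) (h2 : Fin m → F)
      (P2 Q2 : GL (Fin m) F) (r2 : Fˣ), IsPair C P1 Q1 h1 → (∀ i, h1 i ≠ 0) → RatioPair I C P1 Q1 r1 →
      IsPair K P2 Q2 h2 → (∀ i, h2 i ≠ 0) → RatioPair I K P2 Q2 r2 → r1 * r2 ∈ I →
      (∀ γ, (∃ i, h1 i = γ) → (∃ j, h2 j = γ) →
        GoodL (P1 : Matrix (Fin (k + 2)) (Fin (k + 2)) F)
          ((P1 * Q1 : GL (Fin (k + 2)) F) : Matrix (Fin (k + 2)) (Fin (k + 2)) F) γ ∨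
        GoodR (Q2 : Matrix (Fin m) (Fin m) F) ((P2 * Q2 : GL (Fin m) F) : Matrix (Fin m) (Fin m) F) γ) →
      (∃ v : F, ∀ δ : Fˣ, ∃ a : Fˣ, δ * (a ^ ((Finset.univ.filter fun i => h1 i = v).card +
        (Finset.univ.filter fun j => h2 j = v).card))⁻¹ ∈ I) →
      ∃ (P Q : GL (Fin n) F) (h : Fin n → F), IsPair A P Q h ∧ (∀ i, h i ≠ 0) ∧
        RatioPair I A P Q 1 ∧ ∀ δ : Fˣ, ∃ a ∈ detCent (P * Q), δ * a⁻¹ ∈ I := by
    intro h1 P1 Q1 r1 h2 P2 Q2 r2 hp1 h1nz hr1 hp2 h2nz hr2 hr hgood hv
    obtain ⟨v, hv⟩ := hv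
    obtain ⟨P, Q, hpair, -, -, hP, Y, hQ⟩ := exists_isPair_sum_form hp1 hp2 h1nz hgood
    subst hP hQ
    have hr12 := (hr1.sum hr2 Y).congr (r' := 1) (by simpa using hr)
    have hpair' := isPair_reindex hpair e g
    have hnz : ∀ i, (sumList h1 h2 ∘ e.symm) i ≠ 0 := fun i => by
      rcases hx : e.symm i with i1 | i2 <;> simp [hx, h1nz, h2nz]
    have hcount : (Finset.univ.filter fun i => (sumList h1 h2 ∘ e.symm) i = v).card =
        (Finset.univ.filter fun i => h1 i = v).card + (Finset.univ.filter fun j => h2 j = v).card := by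
      rw [← Finset.card_disjSum]
      refine Finset.card_equiv e.symm fun i => ?_
      rcases hx : e.symm i with i1 | i2 <;> simp [hx]
    refine ⟨reindexGL e (blockGL P1 P2), reindexGL e (shearGL Y * blockGL Q1 Q2 * (shearGL Y)⁻¹),
      sumList h1 h2 ∘ e.symm, hA ▸ hpair', hnz, hA ▸ hr12.reindex e g, fun δ => ?_⟩
    obtain ⟨a, ha⟩ := hv δ
    exact ⟨_, pow_count_mem_detCent hpair'.2.2 v a, by rwa [hcount]⟩
  obtain ⟨P2, Q2, h2, r2, ν2, hp2, h2nz, hr2, hr2sq, -, hR2, hv2, -⟩ :=
    rest_pair hq hK I hIK hne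
  set R : Fˣ := revSign F (k + 2) * r2 with hR
  have hR2' : R * R ∈ I := by
    rw [hR, mul_mul_mul_comm, revSign_sq, one_mul]; exact hr2sq
  obtain ⟨e0, he0⟩ := hpows R
  have h2e : g' ∣ 2 * e0 := (hdiv _).mp (by rw [two_mul, pow_add, he0]; exact hR2')
  -- two special positions: `u` and `c / u`
  have pairList : ∀ δ : ℕ, 1 ≤ δ → δ ≤ k → ω ^ δ * R ∈ I →
      ∃ (P Q : GL (Fin n) F) (h : Fin n → F), IsPair A P Q h ∧ (∀ i, h i ≠ 0) ∧
        RatioPair I A P Q 1 ∧ ∀ δ : Fˣ, ∃ a ∈ detCent (P * Q), δ * a⁻¹ ∈ I := by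
    intro δ hδ1 hδk hδI
    -- choice of the literal u
    obtain ⟨u, hu, huu, huv⟩ : ∃ u : Fˣ, u * ω⁻¹ ∈ I ∧ u ^ 2 ≠ dC ^ 2 ∧
        ((∀ x : Fˣ, x ^ 2 ∈ I) → ((dC ^ 2 * u⁻¹ : Fˣ) : F) ≠ ν2) := by
      by_cases hg : g' = 2
      · have hω2 : ω ^ 2 ∈ I := (hdiv 2).mpr (hg ▸ dvd_refl _)
        obtain ⟨b, hb⟩ : ∃ b : Fˣ, ∀ u : Fˣ, ((dC ^ 2 * u⁻¹ : Fˣ) : F) = ν2 → u = b := by
          by_cases hν : ν2 = 0
          · exact ⟨1, fun u h => absurd (h.trans hν) (Units.ne_zero _)⟩
          · refine ⟨dC ^ 2 * (Units.mk0 ν2 hν)⁻¹, fun u h => ?_⟩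
            rw [show Units.mk0 ν2 hν = dC ^ 2 * u⁻¹ from Units.ext h.symm]
            simp
        obtain ⟨u, hu1, hu2, hu3⟩ := exists_off hq I hne ω hω hω2 dC hdI b
        refine ⟨u, ?_, hu2, fun _ h => hu3 (hb u h)⟩
        obtain ⟨i, rfl⟩ := hpows u
        rcases Nat.even_or_odd i with ⟨j, rfl⟩ | ⟨j, rfl⟩
        · exact absurd ((hdiv _).mpr ⟨j, by rw [hg]; ring⟩) hu1
        · rw [pow_succ, mul_inv_cancel_right]
          exact (hdiv _).mpr ⟨j, by rw [hg]⟩
      · refine ⟨ω, by simp, fun h => ?_, fun hall => absurd ((hdiv 2).mp (hall ω)) (fun h => ?_)⟩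
        · have := (hdiv 2).mp (h ▸ hcI)
          have := Nat.le_of_dvd (by norm_num) this
          omega
        · have := Nat.le_of_dvd (by norm_num) h
          omega
    have huI : u ∉ I := fun h => hω1 (by simpa using I.mul_mem (I.inv_mem hu) h)
    set β : Fˣ := dC ^ 2 * u⁻¹ with hβ
    have hβI : β ∉ I := fun h => huI (by simpa [hβ] using I.mul_mem (I.inv_mem h) hcI)
    have hu1 : (u : F) ≠ 1 := fun h => huI (by rw [show u = 1 from Units.ext h]; exact I.one_mem)
    have hβ1 : (β : F) ≠ 1 := fun h => hβI (by rw [show β = 1 from Units.ext h]; exact I.one_mem)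
    have huβ : (u : F) ≠ β := fun h => huu (by
      have h' : u = β := Units.ext h
      rw [sq u]
      nth_rewrite 2 [h']
      rw [hβ, mul_left_comm, mul_inv_cancel, mul_one])
    let iu : Fin (k + 1) := ⟨k + 1 - δ, by omega⟩
    set h1 : Fin (k + 2) → F := fun i => if i = Fin.last (k + 1) then (β : F)
      else if i = iu.castSucc then (u : F) else 1 with hh1
    have h1l : h1 (Fin.last (k + 1)) = β := by simp [hh1]
    have h1u : h1 iu.castSucc = u := by simp [hh1, Fin.castSucc_ne_last]
    have h1o : ∀ j : Fin (k + 1), j ≠ iu → h1 j.castSucc = 1 := fun j hj => by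
      simp [hh1, Fin.castSucc_ne_last, hj]
    have hiu0 : iu ≠ 0 := fun h => by
      have := congrArg Fin.val h
      simp [iu] at this
      omega
    have h1nz : ∀ i, h1 i ≠ 0 := fun i => by
      simp only [hh1]; split_ifs <;> simp
    have hprod : ∏ i, h1 i = (C : Matrix (Fin (k + 2)) (Fin (k + 2)) F).det ^ 2 := by
      rw [Fin.prod_univ_castSucc, Finset.prod_eq_single iu (fun j _ hj => h1o j hj) (by simp), h1u, h1l,
        hβ]
      simp [hdC]
      field_simp
    have hW : ((u ^ (δ + 1) * β : Fˣ) : F) = weight h1 := by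
      rw [weight_eq, Fin.prod_univ_castSucc,
        Finset.prod_eq_single iu (fun j _ hj => by rw [h1o j hj]; simp) (by simp)]
      simp only [Fin.val_castSucc, Fin.val_last, h1u, h1l]
      rw [if_pos (by simp [iu]; omega), if_pos (by omega), show k + 2 - (k + 1) = 1 by omega, pow_one,
        show k + 2 - (iu : ℕ) = δ + 1 by simp [iu]; omega]
      simp
    have hlist : GoodList C h1 := Or.inl fun j => by
      rw [h1l]
      by_cases hj : j = iu
      · rw [hj, h1u]; exact huβ
      · rw [h1o j hj]; exact Ne.symm hβ1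
    obtain ⟨P1, Q1, hp1, hr1, hL1, -⟩ := exists_block_ratio_pair hq C hC hIC h1 h1nz hprod hlist
      (u ^ (δ + 1) * β) hW
    have h10 : h1 0 = 1 := h1o 0 (Ne.symm hiu0)
    have hrec : ∃ j : Fin (k + 1), j ≠ 0 ∧ h1 j.castSucc = h1 0 := by
      by_cases hi1 : iu = ⟨1, by omega⟩
      · have hk2 : 2 ≤ k := by
          have := congrArg Fin.val hi1
          simp [iu] at this
          have hk1 : k ≠ 1 := fun h => by
            subst h
            have h3 : g' = 3 := by
              rcases (Nat.dvd_prime Nat.prime_three).mp hgk with h | h <;> omega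
            have hd3 : g' ∣ e0 := (Nat.Coprime.dvd_mul_left (h3 ▸ by norm_num)).mp h2e
            have hRI : R ∈ I := he0 ▸ (hdiv e0).mpr hd3
            have : ω ^ δ ∈ I := by simpa using I.mul_mem hδI (I.inv_mem hRI)
            have := Nat.le_of_dvd hδ1 ((hdiv δ).mp this)
            omega
          omega
        refine ⟨⟨2, by omega⟩, fun h => by simp [Fin.ext_iff] at h, ?_⟩
        rw [h10]
        exact h1o _ (fun h => by rw [hi1] at h; simp [Fin.ext_iff] at h)
      · refine ⟨⟨1, by omega⟩, fun h => by simp [Fin.ext_iff] at h, ?_⟩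
        rw [h10]
        exact h1o _ (Ne.symm hi1)
    refine assemble h1 P1 Q1 _ h2 P2 Q2 r2 hp1 h1nz hr1 hp2 h2nz hr2 ?_
      (fun γ _ _ => Or.inl (hL1 γ (Or.inr (Or.inr hrec)))) ⟨β, fun x => ⟨x, ?_⟩⟩
    · have h1 : (u * ω⁻¹) ^ δ * dC ^ 2 * (ω ^ δ * R) ∈ I :=
        I.mul_mem (I.mul_mem (pow_mem hu δ) hcI) hδI
      convert h1 using 1
      rw [hR, hβ, pow_succ, mul_pow, inv_pow]
      apply Units.ext
      simp only [Units.val_mul, Units.val_inv_eq_inv_val, Units.val_pow_eq_pow_val]
      field_simp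
    · have hc1 : (Finset.univ.filter fun i => h1 i = (β : F)).card = 1 := by
        rw [Finset.card_eq_one]
        refine ⟨Fin.last (k + 1), Finset.ext fun i => ?_⟩
        simp only [Finset.mem_filter, Finset.mem_univ, true_and, Finset.mem_singleton]
        refine ⟨fun hi => ?_, fun hi => hi ▸ h1l⟩
        by_contra hne'
        obtain ⟨j, rfl⟩ := Fin.exists_castSucc_eq.mpr hne'
        by_cases hj : j = iu
        · rw [hj, h1u] at hi; exact huβ hi
        · rw [h1o j hj] at hi; exact hβ1 hi.symm
      have hc2 : (Finset.univ.filter fun j => h2 j = (β : F)).card = 0 := by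
        rw [Finset.card_eq_zero, Finset.filter_eq_empty_iff]
        intro j _ hj
        rcases hv2 j with ⟨w, hw, hw'⟩ | ⟨hν, hsq⟩
        · exact hβI (by rwa [show β = w from Units.ext (hw'.trans hj).symm])
        · exact huv hsq (hj.symm.trans hν)
      rw [hc1, hc2, pow_one, mul_inv_cancel]
      exact I.one_mem
  by_cases he : g' ∣ e0
  · have hRI : R ∈ I := he0 ▸ (hdiv e0).mpr he
    by_cases hgk' : g' ≤ k
    · exact pairList g' (by omega) hgk' (I.mul_mem ((hdiv g').mpr (dvd_refl _)) hRI)
    rcases Nat.lt_or_ge g' 4 with hg4 | hg4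
    · -- three distinct classes on two blocks of size three
      have hk1 : k = 1 ∧ g' = 3 := by
        rcases Nat.lt_or_ge g' 3 with h | h
        · exfalso
          have hg : g' = 2 := by omega
          have : k = 1 := by omega
          subst this
          rw [hg] at hgk
          norm_num at hgk
        · have hg : g' = 3 := by omega
          rcases Nat.lt_or_ge k 2 with h' | h'
          · exact ⟨by omega, hg⟩
          · exfalso
            have : k = 2 := by omega
            subst this
            rw [hg] at hgk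
            norm_num at hgk
      obtain ⟨rfl, hg3⟩ := hk1
      cases hK with
      | nil => simp at e; exact absurd (by simpa using Fintype.card_congr e) (by omega)
      | @cons k' m' _ C' K' μ'' _ e' g1 hC' hK' hdvd' hA' =>
        obtain ⟨hIC', hIK'⟩ := detCent_cons_le e' g1 hA'
        replace hIC' := hIC'.trans hIK
        replace hIK' := hIK'.trans hIK
        have hdeg : (C : Matrix (Fin (1 + 2)) (Fin (1 + 2)) F).charpoly.natDegree = 3 := by
          rw [charpoly_natDegree_eq_dim, Fintype.card_fin]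
        have hdeg' : (C' : Matrix (Fin (k' + 2)) (Fin (k' + 2)) F).charpoly.natDegree = k' + 2 := by
          rw [charpoly_natDegree_eq_dim, Fintype.card_fin]
        have hk' : k' = 1 := by
          have h1 := natDegree_le_of_dvd hdvd (charpoly_monic _).ne_zero
          have h2 : g' ∣ k' + 2 := (hdiv _).mp (hIC' (by simpa using pow_card_mem_detCent C' ω))
          rcases Nat.lt_or_ge k' 1 with h | h
          · have : k' = 0 := by omega
            subst this
            rw [hg3] at h2
            norm_num at h2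
          · omega
        subst hk'
        have heq : (C' : Matrix (Fin (1 + 2)) (Fin (1 + 2)) F).charpoly =
            (C : Matrix (Fin (1 + 2)) (Fin (1 + 2)) F).charpoly :=
          (eq_of_monic_of_dvd_of_natDegree_le (charpoly_monic _) (charpoly_monic _) hdvd (by omega)).symm
        have hdet' : (C' : Matrix (Fin (1 + 2)) (Fin (1 + 2)) F).det =
            (C : Matrix (Fin (1 + 2)) (Fin (1 + 2)) F).det := by
          rw [det_eq_sign_charpoly_coeff, det_eq_sign_charpoly_coeff, heq]
        obtain ⟨P3, Q3, h3, r3, ν3, hp3, h3nz, hr3, hr3sq, hL3, hR3, hv3, -⟩ :=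
          rest_pair hq hK' I hIK' hne
        have hodd : ∀ x : Fˣ, x * x ∈ I → x ∈ I := fun x hx => by
          obtain ⟨i, rfl⟩ := hpows x
          rw [← pow_add, hdiv, hg3] at hx
          rw [hdiv, hg3]
          omega
        have hr3I := hodd r3 hr3sq
        have hεI : revSign F (1 + 2) ∈ I := hodd _ (by rw [revSign_sq]; exact I.one_mem)
        set a : Fˣ := ω
        set b : Fˣ := dC ^ 2 * ω⁻¹ with hb
        have hab : a * b = dC ^ 2 := by rw [hb, mul_comm (dC ^ 2), mul_inv_cancel_left]
        have haI : a ∉ I := hω1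
        have hbI : b ∉ I := fun h => haI (by simpa [hb] using I.mul_mem (I.inv_mem h) hcI)
        have ha1 : (a : F) ≠ 1 := fun h => haI (by rw [show a = 1 from Units.ext h]; exact I.one_mem)
        have hb1 : (b : F) ≠ 1 := fun h => hbI (by rw [show b = 1 from Units.ext h]; exact I.one_mem)
        have habne : (a : F) ≠ b := fun h => by
          have h' : ω = dC ^ 2 * ω⁻¹ := Units.ext h
          have : ω ^ 2 ∈ I := by rw [sq]; nth_rewrite 1 [h']; simpa using hcI
          rw [hdiv, hg3] at this
          norm_num at this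
        have mk : ∀ (D : GL (Fin (1 + 2)) F), HasCyclic (D : Matrix (Fin (1 + 2)) (Fin (1 + 2)) F) →
            detCent D ≤ I → (D : Matrix (Fin (1 + 2)) (Fin (1 + 2)) F).det = (dC : F) →
            ∀ x y : Fˣ, x * y = dC ^ 2 → (x : F) ≠ 1 → (y : F) ≠ 1 → (x : F) ≠ y →
            ∃ P Q : GL (Fin (1 + 2)) F, IsPair D P Q ![1, (x : F), (y : F)] ∧
              RatioPair I D P Q (x ^ 2 * y) ∧
              (∀ γ, γ ≠ 1 → GoodL (P : Matrix (Fin (1 + 2)) (Fin (1 + 2)) F)
                ((P * Q : GL (Fin (1 + 2)) F) : Matrix (Fin (1 + 2)) (Fin (1 + 2)) F) γ) ∧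
              GoodR (Q : Matrix (Fin (1 + 2)) (Fin (1 + 2)) F)
                ((P * Q : GL (Fin (1 + 2)) F) : Matrix (Fin (1 + 2)) (Fin (1 + 2)) F) 1 := by
          intro D hD hDI hDdet x y hxy hx1 hy1 hxyne
          have hlist : GoodList D ![1, (x : F), (y : F)] := Or.inl fun j => by
            fin_cases j
            · simpa using Ne.symm hy1
            · simpa using hxyne
          obtain ⟨P, Q, hp, hr, hL, hR⟩ := exists_block_ratio_pair hq D hD hDI ![1, (x : F), (y : F)]
            (fun i => by fin_cases i <;> simp) (by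
              rw [Fin.prod_univ_three, hDdet]
              simp
              rw [← Units.val_mul, hxy]
              simp) hlist (x ^ 2 * y) (by rw [weight_eq, Fin.prod_univ_three]; simp)
          refine ⟨P, Q, hp, hr.congr (by rw [mul_inv_cancel_right]; exact hεI),
            fun γ hγ => hL γ (Or.inl (by simpa using hγ)), hR 1 (Or.inl ?_)⟩
          simpa using Ne.symm hy1
        obtain ⟨PA, QA, hpA, hrA, hLA, -⟩ := mk C hC hIC (by rfl) a b hab ha1 hb1 habne
        obtain ⟨PB, QB, hpB, hrB, hLB, hRB⟩ := mk C' hC' hIC' (by rw [hdet']; rfl) b a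
          (by rw [mul_comm, hab]) hb1 ha1 (Ne.symm habne)
        obtain ⟨P2', Q2', hpair2, -, hR2', hP2', Y2, hQ2'⟩ := exists_isPair_sum_form hpB hp3
          (fun i => by fin_cases i <;> simp) (fun γ _ hj => by
            by_cases hγ : γ = 1
            · refine Or.inr (hγ ▸ hR3 ?_)
              obtain ⟨j, -⟩ := hj
              rcases hK'.degree_cases with ⟨rfl, -⟩ | h2
              · exact j.elim0
              · by_contra hlt
                have h2deg : μ''.natDegree = 2 := by omega
                cases hK' with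
                | nil => exact j.elim0
                | @cons k'' m'' _ C'' K'' μ3 _ e'' g'' hC'' hK'' hdvd'' hA'' =>
                  rw [charpoly_natDegree_eq_dim, Fintype.card_fin] at h2deg
                  have : k'' = 0 := by omega
                  subst this
                  have h2I : g' ∣ 2 := (hdiv _).mp (hIK' ((detCent_cons_le e'' g'' hA'').1
                    (by simpa using pow_card_mem_detCent C'' ω)))
                  rw [hg3] at h2I
                  norm_num at h2I
            · exact Or.inl (hLB γ hγ))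
        subst hP2' hQ2'
        have hR21 := hR2' 1 (fun _ => hRB) (fun h => absurd ⟨0, by simp⟩ h)
        have hrK : RatioPair I K (reindexGL e' (blockGL PB P3))
            (reindexGL e' (shearGL Y2 * blockGL QB Q3 * (shearGL Y2)⁻¹)) (b ^ 2 * a * r3) :=
          hA' ▸ (hrB.sum hr3 Y2).reindex e' g1
        refine assemble ![1, (a : F), (b : F)] PA QA _ (sumList ![1, (b : F), (a : F)] h3 ∘ e'.symm)
          (reindexGL e' (blockGL PB P3))
          (reindexGL e' (shearGL Y2 * blockGL QB Q3 * (shearGL Y2)⁻¹)) _ hpA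
          (fun i => by fin_cases i <;> simp) hrA (hA' ▸ isPair_reindex hpair2 e' g1) (fun i => by
            rcases hx : e'.symm i with i1 | i2
            · simp [hx]; fin_cases i1 <;> simp
            · simp [hx, h3nz]) hrK ?_ (fun γ _ _ => ?_) ⟨(a : F), fun x => ⟨x⁻¹, ?_⟩⟩
        · have h6 : (dC ^ 2) ^ 3 * r3 ∈ I := I.mul_mem (pow_mem hcI 3) hr3I
          convert h6 using 1
          rw [← hab]
          clear_value b
          apply Units.ext
          push_cast
          ring
        · by_cases hγ : γ = 1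
          · exact Or.inr (hγ ▸ hR21.reindex e')
          · exact Or.inl (hLA γ hγ)
        · have hc1 : (Finset.univ.filter fun i => (![1, (a : F), (b : F)] : Fin (1 + 2) → F) i = a).card = 1 := by
            rw [Finset.card_eq_one]
            refine ⟨(1 : Fin 3), Finset.ext fun i => ?_⟩
            fin_cases i <;> simp [Ne.symm ha1, Ne.symm habne]
          have hc2 : (Finset.univ.filter fun j => (sumList ![1, (b : F), (a : F)] h3 ∘ e'.symm) j =
              (a : F)).card = 1 := by
            rw [Finset.card_eq_one]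
            refine ⟨e' (Sum.inl (2 : Fin 3)), Finset.ext fun j => ?_⟩
            simp only [Finset.mem_filter, Finset.mem_univ, true_and, Finset.mem_singleton,
              Function.comp_apply]
            refine ⟨fun hj => ?_, fun hj => by rw [hj]; simp⟩
            rcases hx : e'.symm j with i1 | i2
            · rw [← e'.apply_symm_apply j, hx]
              rw [hx] at hj
              fin_cases i1
              · simp at hj; exact absurd hj.symm ha1
              · simp at hj; exact absurd hj.symm habne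
              · rfl
            · rw [hx] at hj
              simp at hj
              rcases hv3 i2 with ⟨w, hw, hw'⟩ | ⟨-, hsq⟩
              · exact absurd (by rwa [show a = w from Units.ext (hw'.trans hj).symm]) haI
              · have := (hdiv 2).mp (hsq ω)
                rw [hg3] at this
                norm_num at this
          rw [hc1, hc2]
          obtain ⟨i, rfl⟩ := hpows x
          rw [show (1 : ℕ) + 1 = 2 from rfl, inv_pow, inv_inv, ← pow_mul, ← pow_add, hdiv, hg3]
          exact ⟨i, by ring⟩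
    · -- a triple `ω, …, ω, c / ω²`
      set β : Fˣ := dC ^ 2 * (ω ^ 2)⁻¹ with hβ
      have hβI : β ∉ I := fun h => by
        have : ω ^ 2 ∈ I := by simpa [hβ] using I.mul_mem (I.inv_mem h) hcI
        have := Nat.le_of_dvd (by norm_num) ((hdiv 2).mp this)
        omega
      have hωβ : (ω : F) ≠ β := fun h => by
        have h' : ω = β := Units.ext h
        have : ω ^ 3 ∈ I := by
          rw [pow_succ]
          nth_rewrite 2 [h']
          rw [hβ, mul_left_comm, mul_inv_cancel, mul_one]
          exact hcI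
        have := Nat.le_of_dvd (by norm_num) ((hdiv 3).mp this)
        omega
      have hω11 : (ω : F) ≠ 1 := fun h => hω1 (by rw [show ω = 1 from Units.ext h]; exact I.one_mem)
      have hβ1 : (β : F) ≠ 1 := fun h => hβI (by rw [show β = 1 from Units.ext h]; exact I.one_mem)
      set h1 : Fin (k + 2) → F := fun i => if i = Fin.last (k + 1) then (β : F)
        else if i = (Fin.last k).castSucc ∨ i = 0 then (ω : F) else 1 with hh1
      have h1l : h1 (Fin.last (k + 1)) = β := by simp [hh1]
      have h1p : h1 (Fin.last k).castSucc = ω := by simp [hh1, Fin.castSucc_ne_last]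
      have h10 : h1 (0 : Fin (k + 1)).castSucc = ω := by simp [hh1, Fin.castSucc_ne_last]
      have h1o : ∀ j : Fin (k + 1), j ≠ Fin.last k → j ≠ 0 → h1 j.castSucc = 1 := fun j hj hj0 => by
        simp [hh1, Fin.castSucc_ne_last, hj, hj0]
      have hlne : (Fin.last k : Fin (k + 1)) ≠ 0 := fun h => hk (by simpa [Fin.ext_iff] using h)
      have h1nz : ∀ i, h1 i ≠ 0 := fun i => by simp only [hh1]; split_ifs <;> simp
      have hprod : ∏ i, h1 i = (C : Matrix (Fin (k + 2)) (Fin (k + 2)) F).det ^ 2 := by
        rw [Fin.prod_univ_castSucc,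
          Finset.prod_eq_mul (0 : Fin (k + 1)) (Fin.last k) (Ne.symm hlne)
            (fun j _ hj => h1o j hj.2 hj.1) (by simp) (by simp), h10, h1p, h1l, hβ]
        simp [hdC]
        field_simp
      have hW : ((ω ^ 2 * β : Fˣ) : F) = weight h1 := by
        rw [weight_eq, Fin.prod_univ_castSucc, Finset.prod_eq_mul (0 : Fin (k + 1)) (Fin.last k)
            (Ne.symm hlne) (fun j _ hj => by rw [h1o j hj.2 hj.1]; simp) (by simp) (by simp)]
        simp only [Fin.val_castSucc, Fin.val_last, Fin.val_zero, lt_irrefl, if_false, one_mul, h1p, h1l]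
        rw [if_pos (by omega), if_pos (by omega), show k + 2 - (k + 1) = 1 by omega, pow_one,
          show k + 2 - k = 2 by omega]
        simp
      have hlist : GoodList C h1 := Or.inl fun j => by
        rw [h1l]
        simp only [hh1, Fin.castSucc_ne_last, if_false]
        split_ifs
        · exact hωβ
        · exact Ne.symm hβ1
      obtain ⟨P1, Q1, hp1, hr1, hL1, -⟩ := exists_block_ratio_pair hq C hC hIC h1 h1nz hprod hlist
        (ω ^ 2 * β) hW
      refine assemble h1 P1 Q1 _ h2 P2 Q2 r2 hp1 h1nz hr1 hp2 h2nz hr2 ?_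
        (fun γ _ _ => Or.inl (hL1 γ (Or.inr (Or.inr ⟨Fin.last k, hlne, ?_⟩)))) ⟨β, fun x => ⟨x, ?_⟩⟩
      · have h1 : dC ^ 2 * R ∈ I := I.mul_mem hcI hRI
        convert h1 using 1
        rw [hR, hβ, mul_left_comm (ω ^ 2), mul_inv_cancel, mul_one]
        simp only [mul_comm, mul_left_comm, mul_assoc]
      · rw [h1p]; exact h10.symm
      · have hc1 : (Finset.univ.filter fun i => h1 i = (β : F)).card = 1 := by
          rw [Finset.card_eq_one]
          refine ⟨Fin.last (k + 1), Finset.ext fun i => ?_⟩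
          simp only [Finset.mem_filter, Finset.mem_univ, true_and, Finset.mem_singleton]
          refine ⟨fun hi => ?_, fun hi => hi ▸ h1l⟩
          by_contra hne'
          simp only [hh1, if_neg hne'] at hi
          split_ifs at hi
          · exact hωβ hi
          · exact hβ1 hi.symm
        have hc2 : (Finset.univ.filter fun j => h2 j = (β : F)).card = 0 := by
          rw [Finset.card_eq_zero, Finset.filter_eq_empty_iff]
          intro j _ hj
          rcases hv2 j with ⟨w, hw, hw'⟩ | ⟨-, hsq⟩
          · exact hβI (by rwa [show β = w from Units.ext (hw'.trans hj).symm])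
          · have := Nat.le_of_dvd (by norm_num) ((hdiv 2).mp (hsq ω))
            omega
        rw [hc1, hc2, pow_one, mul_inv_cancel]
        exact I.one_mem
  · -- the required class is the involution
    obtain ⟨c, hc⟩ := h2e
    have hc' : Odd c := by
      rw [← Nat.not_even_iff_odd]
      rintro ⟨t, rfl⟩
      exact he ⟨t, by linarith⟩
    obtain ⟨t, rfl⟩ := hc'
    have heven : g' % 2 = 0 := by
      have h3 : g' * (2 * t + 1) = 2 * (g' * t) + g' := by ring
      omega
    obtain ⟨hh, hhh⟩ : ∃ hh, g' = 2 * hh := ⟨g' / 2, by omega⟩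
    refine pairList hh (by omega) ?_ ?_
    · have : k + 2 ≠ 3 := fun h => by
        rw [h, hhh] at hgk
        rcases (Nat.dvd_prime Nat.prime_three).mp hgk with h' | h' <;> omega
      omega
    · rw [← he0, ← pow_add, hdiv]
      refine ⟨t + 1, ?_⟩
      have : e0 = hh * (2 * t + 1) := by
        have : 2 * e0 = 2 * (hh * (2 * t + 1)) := by rw [hc, hhh]; ring
        omega
      rw [this, hhh]
      ring

end CfsgLib.PSLCover
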